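import Mathlib
import Cfsg.Agent.H813.Af.MinType_m3
import Cfsg.Agent.SmallSimple.SelfCentPrime
import Cfsg.Agent.DS.Gen.Split
import Cfsg.Agent.FastGrp
import Cfsg.Agent.Prune
set_option linter.all false

section
prune_inst 0x7ffceef92fb8bddedfff7e7fa7d2cffc39909fffe6fffd4bbfe02bffdbbf03020de52ba50de0c0fe4f67623410b87853b97eca3fea63dc7ffffd5ff41ffbee0ff5f6b50951d488340fbc0ff663f0778a7f3ffffbffffefffffffffffffffffbeffbfffffffff

-- part: H192/Af/Grp
section
prune_inst 0x30106d047400120000000500c0000064300000000000000028000004014ad20080408001020009080000000008000428135c0010c20000000a000400000500209080000080080104260009800001500800004000000000000000000000041000000000000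
set_option linter.all false
open scoped Cfsg.Agent.FastGrp

-- part: H192/Af/Hom
section
/-!
# S5731: homogeneous modules over a ring, the numbers `q`, `b`, `m`

`W` a finite simple `R`-module, `q = |End W|`, `b = dim W` over `End W`, `V ≅ W ^ m`.

* `card_eq` : `|W| = q ^ b`; `card_V` : `|V| = q ^ (b * m)`; `card_hom` : `|Hom(W, V)| = q ^ m`;
* `card_end_le` : `|End_R V| ≤ q ^ (m * m)`;
* `Pure`, `card_pure` : at most `(q ^ m - 1) (q ^ b - 1) / (q - 1)` pure vectors;
* `comm_of_one` : if `b = 1` then `R` acts commutatively.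
-/

set_option autoImplicit false
set_option linter.style.haveILetI false
set_option linter.unusedSectionVars false

namespace Cfsg.Agent.H192.Af

open Module

universe u v w

section W

variable (R : Type u) (W : Type v) [Ring R] [AddCommGroup W] [Module R W]

/-- the number of endomorphisms -/
noncomputable def qq : ℕ := Nat.card (Module.End R W)

/-- the dimension over the endomorphisms (for simple `W`) -/
noncomputable def bb : ℕ := Module.finrank (Module.End R W) W

instance finite_end' [Finite W] : Finite (Module.End R W) :=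
  Finite.of_injective (fun f : Module.End R W => (f : W → W)) DFunLike.coe_injective

variable [IsSimpleModule R W] [Finite W]

theorem end_comm (f g : Module.End R W) : f * g = g * f := by
  classical
  letI : Field (Module.End R W) := littleWedderburn (Module.End R W)
  have := mul_comm f g
  exact this

theorem end_injective {f : Module.End R W} (hf : f ≠ 0) : Function.Injective f :=
  LinearMap.injective_of_ne_zero hf

theorem end_apply_eq_zero {f : Module.End R W} {x : W} (hx : x ≠ 0) (h : f x = 0) : f = 0 := by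
  by_contra hf
  exact hx (end_injective R W hf (by rw [h, map_zero]))

theorem two_le_qq : 2 ≤ qq R W := by
  classical
  have : Nontrivial W := IsSimpleModule.nontrivial R W
  have h : 1 < Nat.card (Module.End R W) := Finite.one_lt_card
  exact h

theorem card_eq : Nat.card W = qq R W ^ bb R W := by
  classical
  haveI : Fintype W := Fintype.ofFinite W
  haveI : Fintype (Module.End R W) := Fintype.ofFinite _
  have h := Module.card_eq_pow_finrank (K := Module.End R W) (V := W)
  rw [qq, bb, Nat.card_eq_fintype_card, Nat.card_eq_fintype_card]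
  exact h

theorem bb_pos : 0 < bb R W := by
  have : Nontrivial W := IsSimpleModule.nontrivial R W
  have h : 1 < Nat.card W := Finite.one_lt_card
  rw [card_eq R W] at h
  rcases Nat.eq_zero_or_pos (bb R W) with h0 | h0
  · rw [h0, pow_zero] at h; exact absurd h (lt_irrefl _)
  · exact h0

/-- over a one-dimensional module the ring acts commutatively -/
theorem comm_of_one (h : bb R W = 1) (r s : R) (x : W) : r • s • x = s • r • x := by
  classical
  obtain ⟨x₀, hx₀⟩ : ∃ x₀ : W, x₀ ≠ 0 := by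
    have : Nontrivial W := IsSimpleModule.nontrivial R W
    exact exists_ne 0
  have h1 : ∀ y : W, ∃ c : Module.End R W, c x₀ = y := by
    intro y
    obtain ⟨c, hc⟩ := (finrank_eq_one_iff_of_nonzero' x₀ hx₀).1 h y
    exact ⟨c, hc⟩
  obtain ⟨a, ha⟩ := h1 (r • x₀)
  obtain ⟨b, hb⟩ := h1 (s • x₀)
  obtain ⟨c, rfl⟩ := h1 x
  have e1 : ∀ (t : R) (y : W) (f : Module.End R W), t • f y = f (t • y) := fun t y f => (map_smul f t y).symm
  have e2 : r • s • c x₀ = c (b (a x₀)) := by
    rw [e1 s, ← hb, e1 r, e1 r, ← ha]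
  have e3 : s • r • c x₀ = c (a (b x₀)) := by
    rw [e1 r, ← ha, e1 s, e1 s, ← hb]
  have e4 : b (a x₀) = a (b x₀) := congrArg (fun g : Module.End R W => g x₀) (end_comm R W b a)
  rw [e2, e3, e4]

end W

section V

variable {R : Type u} {W : Type v} {V : Type w} [Ring R] [AddCommGroup W] [Module R W] [AddCommGroup V] [Module R V]
  [IsSimpleModule R W] [Finite W] {m : ℕ} (e : V ≃ₗ[R] (Fin m → W))

include e

theorem card_V : Nat.card V = qq R W ^ (bb R W * m) := by
  rw [Nat.card_congr e.toEquiv, Nat.card_fun, card_eq R W, Nat.card_eq_fintype_card, Fintype.card_fin, pow_mul]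

theorem card_hom : Nat.card (W →ₗ[R] V) = qq R W ^ m := by
  have h1 : (W →ₗ[R] V) ≃ (Fin m → (W →ₗ[R] W)) :=
    { toFun := fun f i => (LinearMap.proj i).comp (e.toLinearMap.comp f)
      invFun := fun g => e.symm.toLinearMap.comp (LinearMap.pi g)
      left_inv := fun f => by
        ext x
        apply e.injective
        funext i
        simp
      right_inv := fun g => by
        funext i
        ext x
        simp }
  rw [Nat.card_congr h1, Nat.card_fun, Nat.card_fin]
  rfl

theorem card_end_le : Nat.card (Module.End R V) ≤ qq R W ^ (m * m) := by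
  classical
  let f : Module.End R V → (Fin m → (W →ₗ[R] V)) := fun g i =>
    g.comp (e.symm.toLinearMap.comp (LinearMap.single R (fun _ => W) i))
  have hf : Function.Injective f := by
    intro g g' h
    ext x
    have h1 : x = e.symm (∑ i, Pi.single i (e x i)) := by
      rw [Finset.univ_sum_single, e.symm_apply_apply]
    rw [h1, map_sum, map_sum, map_sum]
    refine Finset.sum_congr rfl fun i _ => ?_
    exact congrArg (fun k : W →ₗ[R] V => k (e x i)) (congrFun h i)
  haveI : Finite V := Finite.of_equiv _ e.symm.toEquiv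
  haveI : Finite (W →ₗ[R] V) := Finite.of_injective (fun f : W →ₗ[R] V => (f : W → V)) DFunLike.coe_injective
  have h1 := Nat.card_le_card_of_injective f hf
  rw [Nat.card_fun, card_hom e, Nat.card_fin, ← pow_mul] at h1
  exact h1

end V

/-! ### pure vectors -/

/-- `x` generates a simple submodule -/
def PureE (R : Type u) {V : Type w} [Ring R] [AddCommGroup V] [Module R V] (x : V) : Prop :=
  x ≠ 0 ∧ ∀ r : R, r • x ≠ 0 → ∃ s : R, s • r • x = x

section pure

variable {R : Type u} {W : Type v} {V : Type w} [Ring R] [AddCommGroup W] [Module R W] [AddCommGroup V] [Module R V]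

theorem exists_smul_eq [IsSimpleModule R W] {w : W} (hw : w ≠ 0) (x : W) : ∃ r : R, r • w = x := by
  have h1 : Submodule.span R {w} = ⊤ :=
    (eq_bot_or_eq_top (Submodule.span R {w})).resolve_left (fun h => hw (Submodule.span_singleton_eq_bot.1 h))
  have h2 : x ∈ Submodule.span R {w} := by rw [h1]; trivial
  exact Submodule.mem_span_singleton.1 h2

theorem pure_of_hom [IsSimpleModule R W] {φ : W →ₗ[R] V} {w : W} (hφ : φ ≠ 0) (hw : w ≠ 0) : PureE R (φ w) := by
  have hinj : Function.Injective φ := LinearMap.injective_of_ne_zero hφ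
  refine ⟨fun h => hw (hinj (by rw [h, map_zero])), fun r hr => ?_⟩
  have hrw : r • w ≠ 0 := fun h => hr (by rw [← map_smul, h, map_zero])
  obtain ⟨s, hs⟩ := exists_smul_eq (R := R) hrw w
  exact ⟨s, by rw [← map_smul, ← map_smul, hs]⟩

theorem isSimple_of_pure {x : V} (hx : PureE R x) : IsSimpleModule R (Submodule.span R {x}) := by
  haveI : Nontrivial (Submodule.span R {x}) := by
    refine ⟨⟨⟨x, Submodule.mem_span_singleton_self x⟩, 0, fun h => hx.1 (congrArg Subtype.val h)⟩⟩
  rw [isSimpleModule_iff_toSpanSingleton_surjective]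
  refine ⟨inferInstance, ?_⟩
  rintro ⟨y, hy⟩ hy0 ⟨z, hz⟩
  obtain ⟨r, rfl⟩ := Submodule.mem_span_singleton.1 hy
  obtain ⟨t, rfl⟩ := Submodule.mem_span_singleton.1 hz
  obtain ⟨s, hs⟩ := hx.2 r (fun h => hy0 (Subtype.ext h))
  refine ⟨t * s, Subtype.ext ?_⟩
  show (t * s) • (r • x) = t • x
  rw [mul_smul, hs]

variable [IsSimpleModule R W] [Finite W] {m : ℕ} (e : V ≃ₗ[R] (Fin m → W))

include e in
theorem exists_of_pure {x : V} (hx : PureE R x) : ∃ (φ : W →ₗ[R] V) (w : W), φ ≠ 0 ∧ w ≠ 0 ∧ φ w = x := by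
  haveI := isSimple_of_pure hx
  -- a non-zero coordinate
  obtain ⟨i, hi⟩ : ∃ i, e x i ≠ 0 := by
    by_contra hcon
    push Not at hcon
    apply hx.1
    apply e.injective
    rw [map_zero]
    exact funext hcon
  let ψ : Submodule.span R {x} →ₗ[R] W := (LinearMap.proj i).comp (e.toLinearMap.comp (Submodule.subtype _))
  have hψ : ψ ≠ 0 := by
    intro h
    apply hi
    exact congrArg (fun f : Submodule.span R {x} →ₗ[R] W => f ⟨x, Submodule.mem_span_singleton_self x⟩) h
  have hb : Function.Bijective ψ := LinearMap.bijective_of_ne_zero hψ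
  let ψ' := LinearEquiv.ofBijective ψ hb
  refine ⟨(Submodule.subtype _).comp ψ'.symm.toLinearMap, ψ' ⟨x, Submodule.mem_span_singleton_self x⟩, ?_, ?_, ?_⟩
  · intro h
    apply hx.1
    have := congrArg (fun f : W →ₗ[R] V => f (ψ' ⟨x, Submodule.mem_span_singleton_self x⟩)) h
    simpa using this
  · exact hi
  · simp

include e in
theorem card_pure : {x : V | PureE R x}.ncard * (qq R W - 1) ≤ (qq R W ^ m - 1) * (qq R W ^ bb R W - 1) := by
  classical
  haveI : Finite V := Finite.of_equiv _ e.symm.toEquiv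
  haveI : Finite (W →ₗ[R] V) := Finite.of_injective (fun f : W →ₗ[R] V => (f : W → V)) DFunLike.coe_injective
  choose φ w hφ hw hx using fun x : {x : V // PureE R x} => exists_of_pure e x.2
  have hinv : ∀ d : {d : Module.End R W // d ≠ 0}, ∃ d' : Module.End R W, ∀ y : W, d' (d.1 y) = y := by
    intro d
    have hb : Function.Bijective d.1 := LinearMap.bijective_of_ne_zero d.2
    exact ⟨(LinearEquiv.ofBijective d.1 hb).symm.toLinearMap, fun y =>
      (LinearEquiv.ofBijective d.1 hb).symm_apply_apply y⟩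
  choose inv hinv using hinv
  let f : {x : V // PureE R x} × {d : Module.End R W // d ≠ 0} →
      {g : W →ₗ[R] V // g ≠ 0} × {y : W // y ≠ 0} := fun a =>
    (⟨(φ a.1).comp (inv a.2), fun h => by
        apply a.1.2.1
        have := congrArg (fun g : W →ₗ[R] V => g (a.2.1 (w a.1))) h
        simp only [LinearMap.comp_apply, hinv, hx, LinearMap.zero_apply] at this
        exact this⟩,
      ⟨a.2.1 (w a.1), fun h => hw a.1 (by
        have := hinv a.2 (w a.1)
        rw [h, map_zero] at this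
        exact this.symm)⟩)
  have hf : Function.Injective f := by
    rintro ⟨x, d⟩ ⟨x', d'⟩ h
    have h1 : (φ x).comp (inv d) = (φ x').comp (inv d') := congrArg (fun z => (z.1 : W →ₗ[R] V)) h
    have h2 : d.1 (w x) = d'.1 (w x') := congrArg (fun z => (z.2 : W)) h
    have h3 : (φ x).comp (inv d) (d.1 (w x)) = x := by
      rw [LinearMap.comp_apply, hinv, hx]
    have h4 : (φ x').comp (inv d') (d'.1 (w x')) = x' := by
      rw [LinearMap.comp_apply, hinv, hx]
    have hxx : x = x' := by
      apply Subtype.ext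
      rw [← h3, ← h4, h1, h2]
    subst hxx
    have h5 : (d.1 - d'.1) (w x) = 0 := by
      rw [LinearMap.sub_apply, h2, sub_self]
    have h6 := end_apply_eq_zero R W (hw x) h5
    have hdd : d = d' := Subtype.ext (sub_eq_zero.1 h6)
    rw [hdd]
  have h1 := Nat.card_le_card_of_injective f hf
  rw [Nat.card_prod, Nat.card_prod] at h1
  have c1 : Nat.card {x : V // PureE R x} = {x : V | PureE R x}.ncard := rfl
  have c2 : Nat.card {d : Module.End R W // d ≠ 0} = qq R W - 1 := by
    rw [qq, ← Nat.card_congr (Equiv.refl _ : Module.End R W ≃ _)]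
    have := Set.ncard_compl ({0} : Set (Module.End R W))
    rw [Set.ncard_singleton] at this
    exact this
  have c3 : Nat.card {g : W →ₗ[R] V // g ≠ 0} = qq R W ^ m - 1 := by
    rw [← card_hom e]
    have := Set.ncard_compl ({0} : Set (W →ₗ[R] V))
    rw [Set.ncard_singleton] at this
    exact this
  have c4 : Nat.card {y : W // y ≠ 0} = qq R W ^ bb R W - 1 := by
    rw [← card_eq R W]
    have := Set.ncard_compl ({0} : Set W)
    rw [Set.ncard_singleton] at this
    exact this
  rw [c1, c2, c3, c4] at h1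
  exact h1

end pure

end Cfsg.Agent.H192.Af
end

-- part: H192/Af/Two
section
/-!
# S5731: an automorphism with many fixed vectors, homogeneous modules of dimension two

* `comm_of_two` : if `b = 2`, an automorphism `g` of `V` normalising `R` with `|C_V(g)| ^ 2 > |V|` commutes with `R`;
* `exists_common` : `|A| |B| > |V|` gives a common non-zero vector.
-/

set_option autoImplicit false
set_option linter.style.haveILetI false
set_option linter.unusedSectionVars false

namespace Cfsg.Agent.H192.Af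

open Module

universe u v w

theorem exists_common {V : Type w} [AddCommGroup V] [Finite V] (A B : AddSubgroup V)
    (h : Nat.card V < Nat.card A * Nat.card B) : ∃ x : V, x ≠ 0 ∧ x ∈ A ∧ x ∈ B := by
  classical
  by_contra hcon
  push Not at hcon
  have hinj : Function.Injective (fun a : A × B => (a.1 : V) - (a.2 : V)) := by
    rintro ⟨a, b⟩ ⟨a', b'⟩ hab
    have h1 : (a : V) - (b : V) = (a' : V) - (b' : V) := hab
    have h2 : (a : V) - (a' : V) = (b : V) - (b' : V) := by
      rw [sub_eq_sub_iff_add_eq_add] at h1 ⊢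
      rw [h1]; exact add_comm _ _
    have h3 : (a : V) - (a' : V) = 0 := by
      by_contra h0
      exact hcon _ h0 (A.sub_mem a.2 a'.2) (by rw [h2]; exact B.sub_mem b.2 b'.2)
    have h4 : (a : V) = a' := sub_eq_zero.1 h3
    have h5 : (b : V) = b' := by
      rw [h3] at h2; exact sub_eq_zero.1 h2.symm
    exact Prod.ext (Subtype.ext h4) (Subtype.ext h5)
  have h1 := Nat.card_le_card_of_injective _ hinj
  rw [Nat.card_prod] at h1
  exact absurd h (not_lt.2 h1)

section

variable {R : Type u} {W : Type v} {V : Type w} [Ring R] [AddCommGroup W] [Module R W] [AddCommGroup V] [Module R V]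

/-- an endomorphism with a prescribed value -/
theorem exists_end [IsSimpleModule R W] {x y : W} (hx : x ≠ 0) (h : ∀ t : R, t • x = 0 → t • y = 0) :
    ∃ l : Module.End R W, l x = y := by
  choose s hs using fun z : W => exists_smul_eq (R := R) hx z
  have key : ∀ (t : R) (z : W), t • x = z → t • y = s z • y := by
    intro t z htz
    have : (t - s z) • x = 0 := by rw [sub_smul, htz, hs, sub_self]
    have h1 := h _ this
    rw [sub_smul] at h1
    exact sub_eq_zero.1 h1
  refine ⟨{ toFun := fun z => s z • y, map_add' := ?_, map_smul' := ?_ }, ?_⟩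
  · intro a b
    rw [← key (s a + s b) (a + b) (by rw [add_smul, hs, hs]), add_smul]
  · intro r a
    rw [RingHom.id_apply, ← key (r * s a) (r • a) (by rw [mul_smul, hs]), mul_smul]
  · show s x • y = y
    rw [← key 1 x (one_smul R x), one_smul]

variable [IsSimpleModule R W] [Finite W] {m : ℕ} (e : V ≃ₗ[R] (Fin m → W))

include e in
/-- a vector of prescribed annihilator fixed by an automorphism with many fixed vectors -/
theorem exists_fixed_hom (hb : bb R W = 2) (hm : 0 < m) (g : V ≃+ V)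
    (hfix : Nat.card V < Nat.card {x : V // g x = x} ^ 2) {w : W} (hw : w ≠ 0) :
    ∃ φ : W →ₗ[R] V, φ ≠ 0 ∧ g (φ w) = φ w := by
  classical
  haveI : Finite V := Finite.of_equiv _ e.symm.toEquiv
  haveI : Finite (W →ₗ[R] V) := Finite.of_injective (fun f : W →ₗ[R] V => (f : W → V)) DFunLike.coe_injective
  let ev : (W →ₗ[R] V) →+ V :=
    { toFun := fun φ => φ w
      map_zero' := rfl
      map_add' := fun _ _ => rfl }
  have hinj : Function.Injective ev := by
    rw [injective_iff_map_eq_zero]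
    intro φ hφ
    by_contra h0
    exact hw ((LinearMap.injective_of_ne_zero h0) (by rw [map_zero]; exact hφ))
  let C : AddSubgroup V :=
    { carrier := {x | g x = x}
      zero_mem' := map_zero g
      add_mem' := fun {a b} ha hb' => by
        show g (a + b) = a + b
        rw [map_add]
        exact congrArg₂ (· + ·) ha hb'
      neg_mem' := fun {a} ha => by
        show g (-a) = -a
        rw [map_neg]
        exact congrArg Neg.neg ha }
  have hC : Nat.card C = Nat.card {x : V // g x = x} := rfl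
  have hY : Nat.card ev.range = qq R W ^ m := by
    rw [← card_hom e]
    exact (Nat.card_congr (AddMonoidHom.ofInjective hinj).toEquiv).symm
  have hV := card_V e
  rw [hb] at hV
  have hV' : Nat.card V = (qq R W ^ m) ^ 2 := by rw [hV, ← pow_mul]; congr 1; ring
  have h1 : qq R W ^ m < Nat.card C := by
    rw [← hC, hV'] at hfix
    exact lt_of_pow_lt_pow_left₀ 2 (Nat.zero_le _) hfix
  have hpos : 0 < qq R W ^ m := pow_pos (by have := two_le_qq R W; omega) m
  obtain ⟨x, hx0, ⟨φ, hφ⟩, hxC⟩ := exists_common ev.range C (by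
    rw [hY, hV', pow_two]
    exact Nat.mul_lt_mul_of_pos_left h1 hpos)
  refine ⟨φ, fun h => hx0 ?_, ?_⟩
  · rw [← hφ, h]; rfl
  · have : φ w = x := hφ
    rw [this]; exact hxC

include e in
/-- **dimension two**: an automorphism with many fixed vectors commutes with `R` -/
theorem comm_of_two (hb : bb R W = 2) (hm : 0 < m) (g : V ≃+ V) (α : R ≃+* R)
    (hα : ∀ (r : R) (x : V), g (r • x) = α r • g x)
    (hfix : Nat.card V < Nat.card {x : V // g x = x} ^ 2) (r : R) (x : V) : α r • x = r • x := by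
  classical
  -- annihilators are preserved
  have ha : ∀ w : W, w ≠ 0 → ∀ r : R, r • w = 0 ↔ α r • w = 0 := by
    intro w hw r
    obtain ⟨φ, hφ, hgφ⟩ := exists_fixed_hom e hb hm g hfix hw
    have hinj : Function.Injective φ := LinearMap.injective_of_ne_zero hφ
    have k : ∀ t : R, t • w = 0 ↔ t • φ w = 0 := by
      intro t
      rw [← map_smul]
      exact ⟨fun h => by rw [h, map_zero], fun h => hinj (by rw [h, map_zero])⟩
    rw [k, k]
    constructor
    · intro h
      rw [← hgφ, ← hα, h, map_zero]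
    · intro h
      apply g.injective
      rw [hα, hgφ, h, map_zero]
  -- `α` is the identity on `W`
  have hW : ∀ w : W, w ≠ 0 → ∀ r : R, α r • w = r • w := by
    intro w₀ hw₀
    choose s hs using fun z : W => exists_smul_eq (R := R) hw₀ z
    let g₀ : W → W := fun z => α (s z) • w₀
    have hg : ∀ r : R, g₀ (r • w₀) = α r • w₀ := by
      intro r
      have h1 : (s (r • w₀) - r) • w₀ = 0 := by rw [sub_smul, hs, sub_self]
      have h2 := (ha w₀ hw₀ _).1 h1
      rw [map_sub, sub_smul] at h2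
      exact sub_eq_zero.1 h2
    have hg1 : g₀ w₀ = w₀ := by
      have := hg 1
      rwa [one_smul, map_one, one_smul] at this
    have hgs : ∀ (r : R) (z : W), g₀ (r • z) = α r • g₀ z := by
      intro r z
      have h1 : r • z = (r * s z) • w₀ := by rw [mul_smul, hs]
      rw [h1, hg, map_mul, mul_smul]
    have hga : ∀ a b : W, g₀ (a + b) = g₀ a + g₀ b := by
      intro a b
      have h1 : a + b = (s a + s b) • w₀ := by rw [add_smul, hs, hs]
      rw [h1, hg, map_add, add_smul]
    have hl : ∀ z : W, z ≠ 0 → ∃ l : Module.End R W, l z = g₀ z := by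
      intro z hz
      apply exists_end hz
      intro t ht
      have h1 : α.symm t • z = 0 := (ha z hz _).2 (by rw [α.apply_symm_apply]; exact ht)
      have h2 : g₀ (α.symm t • z) = 0 := by
        rw [h1]
        have := hga 0 0
        rw [add_zero] at this
        exact left_eq_add.1 this
      rwa [hgs, α.apply_symm_apply] at h2
    choose! l hl using hl
    -- independence
    have hind : ∀ a b : W, a ≠ 0 → b ≠ 0 → (∀ c : Module.End R W, c a ≠ b) → l a = l b := by
      intro a b ha0 hb0 hab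
      have hsum : a + b ≠ 0 := by
        intro h
        apply hab (-1)
        show -a = b
        exact neg_eq_of_add_eq_zero_right h
      have h1 : l (a + b) (a + b) = l a a + l b b := by
        rw [hl _ hsum, hga, hl _ ha0, hl _ hb0]
      have h2 : (l (a + b) - l a) a + (l (a + b) - l b) b = 0 := by
        rw [LinearMap.sub_apply, LinearMap.sub_apply]
        rw [map_add] at h1
        rw [← sub_eq_zero] at h1
        rw [← h1]; abel
      have h3 : l (a + b) - l b = 0 := by
        by_contra h0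
        have hbij : Function.Bijective (l (a + b) - l b) := LinearMap.bijective_of_ne_zero h0
        let E := LinearEquiv.ofBijective _ hbij
        apply hab (-(E.symm.toLinearMap.comp (l (a + b) - l a)))
        show -(E.symm ((l (a + b) - l a) a)) = b
        rw [neg_eq_iff_eq_neg, LinearEquiv.symm_apply_eq]
        rw [map_neg]
        exact eq_neg_of_add_eq_zero_left h2
      have h4 : (l (a + b) - l a) a = 0 := by
        rw [h3, LinearMap.zero_apply, add_zero] at h2
        exact h2
      have h5 := sub_eq_zero.1 (end_apply_eq_zero R W ha0 h4)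
      rw [← h5]; exact sub_eq_zero.1 h3
    -- a vector outside the line of `w₀`
    obtain ⟨u, hu⟩ : ∃ u : W, ∀ c : Module.End R W, c w₀ ≠ u := by
      by_contra hcon
      push Not at hcon
      have hsurj : Function.Surjective (fun c : Module.End R W => c w₀) := hcon
      have h1 := Nat.card_le_card_of_surjective _ hsurj
      rw [card_eq R W, hb] at h1
      have h2 : Nat.card (Module.End R W) = qq R W := rfl
      rw [h2] at h1
      have h3 := two_le_qq R W
      nlinarith only [h1, h3]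
    have hu0 : u ≠ 0 := fun h => hu 0 (by rw [h]; rfl)
    have hl1 : l w₀ = 1 := by
      have h1 : (l w₀ - 1) w₀ = 0 := by
        rw [LinearMap.sub_apply, hl _ hw₀, hg1]
        exact sub_self _
      exact sub_eq_zero.1 (end_apply_eq_zero R W hw₀ h1)
    have hlu : l u = 1 := by rw [← hind w₀ u hw₀ hu0 hu, hl1]
    have hall : ∀ z : W, z ≠ 0 → l z = 1 := by
      intro z hz
      by_cases hzc : ∃ c : Module.End R W, c w₀ = z
      · obtain ⟨c, rfl⟩ := hzc
        rw [hind (c w₀) u hz hu0 (fun c' h => hu (c' * c) h), hlu]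
      · push Not at hzc
        rw [← hind w₀ z hw₀ hz hzc, hl1]
    intro r
    rw [← hg r]
    by_cases hr : r • w₀ = 0
    · have := (ha w₀ hw₀ r).1 hr
      rw [hg, this, hr]
    · rw [← hl _ hr, hall _ hr]; rfl
  -- on `V`
  apply e.injective
  funext i
  rw [map_smul, map_smul, Pi.smul_apply, Pi.smul_apply]
  by_cases h0 : e x i = 0
  · rw [h0, smul_zero, smul_zero]
  · exact hW _ h0 r

end

end Cfsg.Agent.H192.Af
end

-- part: H192/Af/Dbl
section
/-!
# S5731: the dimension doubles

`two_mul_bb_le` : `W₃` a simple `R₃`-module, `R₁ → R₃`, `W₃ ≅ W₁ ^ k` over `R₁`, `s, t ∈ R₃` commute with `R₁` and do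
not commute with each other on `W₃`; then `2 b₁ ≤ b₃`.
-/

set_option autoImplicit false
set_option linter.style.haveILetI false
set_option linter.unusedSectionVars false

namespace Cfsg.Agent.H192.Af

open Module

universe u v w

theorem two_mul_bb_le {R₁ R₃ : Type*} {W₁ W₃ : Type*} [Ring R₁] [Ring R₃] [AddCommGroup W₁] [Module R₁ W₁]
    [IsSimpleModule R₁ W₁] [Finite W₁] [AddCommGroup W₃] [Module R₃ W₃] [IsSimpleModule R₃ W₃] [Finite W₃]
    [Module R₁ W₃] (f : R₁ →+* R₃) (hf : ∀ (r : R₁) (x : W₃), r • x = f r • x) {k : ℕ}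
    (e : W₃ ≃ₗ[R₁] (Fin k → W₁)) (s t : R₃) (hs : ∀ (r : R₁) (x : W₃), s • r • x = r • s • x)
    (ht : ∀ (r : R₁) (x : W₃), t • r • x = r • t • x) (hst : ∃ x : W₃, s • t • x ≠ t • s • x) :
    2 * bb R₁ W₁ ≤ bb R₃ W₃ := by
  classical
  haveI hnt : Nontrivial W₃ := IsSimpleModule.nontrivial R₃ W₃
  haveI : SMulCommClass R₁ (Module.End R₃ W₃) W₃ := ⟨fun r d x => by
    show r • d x = d (r • x)
    rw [hf, hf, map_smul]⟩
  haveI : Finite (W₁ →ₗ[R₁] W₃) := Finite.of_injective (fun f : W₁ →ₗ[R₁] W₃ => (f : W₁ → W₃)) DFunLike.coe_injective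
  haveI : Fintype (W₁ →ₗ[R₁] W₃) := Fintype.ofFinite _
  haveI : Fintype (Module.End R₃ W₃) := Fintype.ofFinite _
  set c := finrank (Module.End R₃ W₃) (W₁ →ₗ[R₁] W₃) with hc
  have hq3 := two_le_qq R₃ W₃
  have hY : Nat.card (W₁ →ₗ[R₁] W₃) = qq R₃ W₃ ^ c := by
    rw [qq, Nat.card_eq_fintype_card, Nat.card_eq_fintype_card]
    exact Module.card_eq_pow_finrank (K := Module.End R₃ W₃) (V := W₁ →ₗ[R₁] W₃)
  have h1 : Nat.card W₃ = Nat.card (W₁ →ₗ[R₁] W₃) ^ bb R₁ W₁ := by
    rw [card_V e, card_hom e, ← pow_mul]; congr 1; ring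
  have h2 : bb R₃ W₃ = c * bb R₁ W₁ := by
    rw [hY, card_eq R₃ W₃, ← pow_mul] at h1
    exact Nat.pow_right_injective hq3 h1
  -- it is enough that `c ≠ 0, 1`
  have hcc : 2 ≤ c := by
    by_contra hcon
    have hk : 0 < bb R₃ W₃ := bb_pos R₃ W₃
    have hc1 : c = 1 := by
      rcases Nat.eq_zero_or_pos c with h0 | h0
      · rw [h2, h0, zero_mul] at hk; exact absurd hk (lt_irrefl _)
      · omega
    obtain ⟨φ₀, hφ₀, hall⟩ := finrank_eq_one_iff'.1 hc1
    have hall' : ∀ φ : W₁ →ₗ[R₁] W₃, ∃ d : Module.End R₃ W₃, ∀ w, φ w = d (φ₀ w) := by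
      intro φ
      obtain ⟨d, hd⟩ := hall φ
      exact ⟨d, fun w => by rw [← hd]; rfl⟩
    let sφ : ∀ u : R₃, (∀ (r : R₁) (x : W₃), u • r • x = r • u • x) → (W₁ →ₗ[R₁] W₃) := fun u hu =>
      { toFun := fun w => u • φ₀ w
        map_add' := fun a b => by rw [map_add, smul_add]
        map_smul' := fun r a => by rw [map_smul, hu]; rfl }
    obtain ⟨a, ha⟩ := hall' (sφ s hs)
    obtain ⟨b, hb⟩ := hall' (sφ t ht)
    have ha' : ∀ w, s • φ₀ w = a (φ₀ w) := ha
    have hb' : ∀ w, t • φ₀ w = b (φ₀ w) := hb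
    have hφ : ∀ (φ : W₁ →ₗ[R₁] W₃) (w : W₁), s • t • φ w = t • s • φ w := by
      intro φ w
      obtain ⟨d, hd⟩ := hall' φ
      have e1 : ∀ (u : R₃) (d : Module.End R₃ W₃) (x : W₃), u • d x = d (u • x) := fun u d x => (map_smul d u x).symm
      have e2 : s • t • d (φ₀ w) = d (b (a (φ₀ w))) := by
        rw [e1 t, hb', e1 s, e1 s, ha']
      have e3 : t • s • d (φ₀ w) = d (a (b (φ₀ w))) := by
        rw [e1 s, ha', e1 t, e1 t, hb']
      have e4 : b (a (φ₀ w)) = a (b (φ₀ w)) :=
        congrArg (fun g : Module.End R₃ W₃ => g (φ₀ w)) (end_comm R₃ W₃ b a)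
      rw [hd, e2, e3, e4]
    obtain ⟨x, hx⟩ := hst
    apply hx
    have h3 : x = ∑ i, (e.symm.toLinearMap.comp (LinearMap.single R₁ (fun _ => W₁) i)) (e x i) := by
      have : x = e.symm (∑ i, Pi.single i (e x i)) := by
        rw [Finset.univ_sum_single, e.symm_apply_apply]
      rw [map_sum] at this
      exact this
    rw [h3]
    simp only [Finset.smul_sum]
    exact Finset.sum_congr rfl fun i _ => hφ _ _
  rw [h2]
  exact Nat.mul_le_mul_right _ hcc

theorem two_mul_bb_le' {R₁ R₃ : Type*} {W₁ W₃ U : Type*} [Ring R₁] [Ring R₃] [AddCommGroup W₁] [Module R₁ W₁]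
    [IsSimpleModule R₁ W₁] [Finite W₁] [AddCommGroup W₃] [Module R₃ W₃] [IsSimpleModule R₃ W₃] [Finite W₃]
    [AddCommGroup U] [Module R₁ U] (f : R₁ →+* R₃) (i : U ≃+ W₃) (hf : ∀ (r : R₁) (x : U), i (r • x) = f r • i x)
    {k : ℕ} (e : U ≃ₗ[R₁] (Fin k → W₁)) (s t : R₃) (hs : ∀ (r : R₁) (x : W₃), s • f r • x = f r • s • x)
    (ht : ∀ (r : R₁) (x : W₃), t • f r • x = f r • t • x) (hst : ∃ x : W₃, s • t • x ≠ t • s • x) :
    2 * bb R₁ W₁ ≤ bb R₃ W₃ := by
  letI : Module R₁ W₃ := Module.compHom W₃ f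
  have hsm : ∀ (r : R₁) (x : W₃), r • x = f r • x := fun _ _ => rfl
  let e' : W₃ ≃ₗ[R₁] (Fin k → W₁) :=
    { toFun := fun x => e (i.symm x)
      map_add' := fun x y => by rw [map_add, map_add]
      map_smul' := fun r x => by
        have h1 : i.symm (r • x) = r • i.symm x := by
          apply i.injective
          rw [i.apply_symm_apply, hf, i.apply_symm_apply, hsm]
        rw [h1, map_smul]; rfl
      invFun := fun y => i (e.symm y)
      left_inv := fun x => by simp
      right_inv := fun y => by simp }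
  exact two_mul_bb_le f hsm e' s t hs ht hst

end Cfsg.Agent.H192.Af
end

-- part: H192/Af/Grp
section
/-!
# S5731: homogeneous normal subgroups, group level
-/

set_option autoImplicit false
set_option linter.style.haveILetI false
set_option linter.unusedSectionVars false

namespace Cfsg.Agent.H192.Af

open Module Cfsg.Agent.H717.FieldOf

universe u v

variable {V : Type u} [AddCommGroup V] {H : Type v} [Group H] [DistribMulAction H V]

/-- the element of the ring given by a group element -/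
def el {M : Subgroup H} {h : H} (hh : h ∈ M) : KA V M := ⟨dl V h, dl_mem M hh⟩

theorem el_smul {M : Subgroup H} {h : H} (hh : h ∈ M) (x : V) : (el hh : KA V M) • x = h • x := rfl

theorem KA_mono {M K : Subgroup H} (h : M ≤ K) : KA V M ≤ KA V K := by
  unfold KA
  exact Subring.closure_mono (Set.image_mono h)

/-- an additive map commuting with `M` commutes with the ring -/
theorem map_KA {M : Subgroup H} (g : AddMonoid.End V) (hg : ∀ h ∈ M, ∀ x : V, g (h • x) = h • g x) (r : KA V M) (x : V) :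
    g (r • x) = r • g x := by
  have h : KA V M ≤ Subring.centralizer {g} := by
    unfold KA
    rw [Subring.closure_le]
    rintro _ ⟨m, hm, rfl⟩
    rw [SetLike.mem_coe, Subring.mem_centralizer_iff]
    rintro _ rfl
    ext y
    exact (hg m hm y)
  have h1 := h r.2
  rw [Subring.mem_centralizer_iff] at h1
  exact congrArg (fun f : AddMonoid.End V => f x) (h1 g rfl)

/-- submodules = invariant subgroups -/
theorem KA_mem {M : Subgroup H} {U : AddSubgroup V} (hU : ∀ h ∈ M, ∀ x ∈ U, h • x ∈ U) (r : KA V M) {x : V}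
    (hx : x ∈ U) : r • x ∈ U := by
  have h : KA V M ≤ { carrier := {f : AddMonoid.End V | ∀ x ∈ U, f x ∈ U}
                      mul_mem' := fun {a b} ha hb x hx => ha _ (hb x hx)
                      one_mem' := fun x hx => hx
                      add_mem' := fun {a b} ha hb x hx => U.add_mem (ha x hx) (hb x hx)
                      zero_mem' := fun x _ => U.zero_mem
                      neg_mem' := fun {a} ha x hx => U.neg_mem (ha x hx) : Subring (AddMonoid.End V) } := by
    unfold KA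
    rw [Subring.closure_le]
    rintro _ ⟨m, hm, rfl⟩ x hx
    exact hU m hm x hx
  exact h r.2 x hx

/-- invariant subgroups as submodules -/
def toSub {M : Subgroup H} (U : AddSubgroup V) (hU : ∀ h ∈ M, ∀ x ∈ U, h • x ∈ U) : (Submodule (KA V M) V :) where
  carrier := U
  add_mem' := U.add_mem
  zero_mem' := U.zero_mem
  smul_mem' r _ hx := KA_mem hU r hx

section fin

variable [Finite V]

instance finKA (M : Subgroup H) : (Module.Finite (KA V M) V :) := Module.Finite.of_finite

theorem Homog.exists_equiv [Nontrivial V] {M : Subgroup H} (h : Homog V M) (W : (Submodule (KA V M) V :))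
    [IsSimpleModule (KA V M) W] : ∃ m : ℕ, 0 < m ∧ (Nonempty (V ≃ₗ[KA V M] (Fin m → W)) :) := by
  haveI := h.1
  have h1 : (IsIsotypicOfType (KA V M) V W :) := h.2 W
  obtain ⟨m, ⟨e⟩⟩ := h1.linearEquiv_fun
  refine ⟨m, ?_, ⟨e⟩⟩
  rcases Nat.eq_zero_or_pos m with h0 | h0
  · subst h0
    exfalso
    obtain ⟨x, y, hxy⟩ := exists_pair_ne V
    exact hxy ((e.injective (funext fun i => i.elim0) :))
  · exact h0

theorem Homog.exists_simple [Nontrivial V] {M : Subgroup H} (h : Homog V M) :
    ∃ W : (Submodule (KA V M) V :), IsSimpleModule (KA V M) W := by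
  haveI := h.1
  obtain ⟨m, _, S, hS, _⟩ := h.2.linearEquiv_fun
  exact ⟨S, hS⟩

/-- conjugation as an automorphism of the ring -/
def cjE (M : Subgroup H) [M.Normal] (d : H) : KA V M ≃+* KA V M where
  toFun r := ⟨cj V d r, cj_mem M d r.2⟩
  invFun r := ⟨cj V d⁻¹ r, cj_mem M d⁻¹ r.2⟩
  left_inv r := Subtype.ext (by
    show cj V d⁻¹ (cj V d r) = r
    rw [← cj_mul, inv_mul_cancel, cj_one])
  right_inv r := Subtype.ext (by
    show cj V d (cj V d⁻¹ r) = r
    rw [← cj_mul, mul_inv_cancel, cj_one])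
  map_mul' a b := Subtype.ext (map_mul (cj V d) (a : AddMonoid.End V) b)
  map_add' a b := Subtype.ext (map_add (cj V d) (a : AddMonoid.End V) b)

theorem cjE_smul (M : Subgroup H) [M.Normal] (d : H) (r : KA V M) (x : V) : d • r • x = cjE M d r • d • x := by
  show d • (r : AddMonoid.End V) x = (dl V d * (r : AddMonoid.End V) * dl V d⁻¹) (d • x)
  show d • (r : AddMonoid.End V) x = d • (r : AddMonoid.End V) (d⁻¹ • d • x)
  rw [inv_smul_smul]

variable [FaithfulSMul H V]

seal _root_.AddMonoid.End in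
/-- a normal commutative subgroup is semiregular -/
theorem eq_zero_of_comm [Nontrivial V] {A : Subgroup H} (hA : Homog V A) (hab : ∀ a ∈ A, ∀ b ∈ A, a * b = b * a)
    {a : H} (ha : a ∈ A) (ha1 : a ≠ 1) {x : V} (hx : a • x = x) : x = 0 := by
  by_contra hx0
  obtain ⟨W, hW⟩ := hA.exists_simple
  obtain ⟨m, hm, ⟨e⟩⟩ := hA.exists_equiv W
  obtain ⟨i, hi⟩ : ∃ i, e x i ≠ 0 := by
    by_contra hcon
    push Not at hcon
    exact hx0 (e.injective (by rw [map_zero]; exact funext hcon))
  set r : KA V A := el ha - 1 with hr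
  have hrx : ∀ y : V, r • y = a • y - y := fun y => by
    rw [hr, sub_smul, one_smul, el_smul]
  have h1 : r • e x i = 0 := by
    have : e (r • x) i = r • e x i := by rw [map_smul]; rfl
    rw [← this, hrx, hx, sub_self, map_zero]; rfl
  have hcomm : ∀ s : KA V A, s * r = r * s := fun s => Subtype.ext (KA_comm A hab s.2 r.2)
  have h2 : ∀ w : W, r • w = 0 := by
    intro w
    obtain ⟨s, hs⟩ := exists_smul_eq (R := KA V A) hi w
    rw [← hs, ← mul_smul, ← hcomm, mul_smul, h1, smul_zero]
  apply ha1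
  apply FaithfulSMul.eq_of_smul_eq_smul (α := V)
  intro y
  rw [one_smul]
  have h3 : r • y = 0 := by
    apply e.injective
    rw [map_smul, map_zero]
    exact funext fun j => h2 _
  rw [hrx] at h3
  exact sub_eq_zero.1 h3

omit [FaithfulSMul H V] [Finite V] in
variable (V) in
/-- the fixed vectors of `h` -/
def fx (h : H) : AddSubgroup V where
  carrier := {w | h • w = w}
  zero_mem' := smul_zero h
  add_mem' := fun {a b} ha hb => by
    show h • (a + b) = a + b
    rw [smul_add]; exact congrArg₂ (· + ·) ha hb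
  neg_mem' := fun {a} ha => by
    show h • (-a) = -a
    rw [smul_neg]; exact congrArg Neg.neg ha

omit [FaithfulSMul H V] [Finite V] in
theorem card_fx (h : H) : Nat.card (fx V h) = fixc V h := rfl

omit [FaithfulSMul H V] [Finite V] in
theorem mem_fx {h : H} {w : V} : w ∈ fx V h ↔ h • w = w := Iff.rfl

omit [FaithfulSMul H V] [Finite V] in
theorem fixc_conj (a h : H) : fixc V (a * h * a⁻¹) = fixc V h := by
  unfold fixc
  refine Nat.card_congr ?_
  refine ⟨fun w => ⟨a⁻¹ • w.1, ?_⟩, fun w => ⟨a • w.1, ?_⟩, ?_, ?_⟩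
  · have := w.2
    rw [mul_smul, mul_smul, smul_eq_iff_eq_inv_smul] at this
    exact this
  · rw [mul_smul, mul_smul, inv_smul_smul, w.2]
  · intro w; simp
  · intro w; simp

/-- elements with many fixed vectors commute with the commutative normal subgroups -/
theorem comm_of_big [Nontrivial V] {A : Subgroup H} [hAn : A.Normal] (hA : Homog V A)
    (hab : ∀ a ∈ A, ∀ b ∈ A, a * b = b * a) {x : H} (hx : Nat.card V < fixc V x ^ 2) {a : H} (ha : a ∈ A) :
    x * a = a * x := by
  by_contra hne
  have hc : x * a * x⁻¹ * a⁻¹ ∈ A := A.mul_mem (hAn.conj_mem a ha x) (A.inv_mem ha)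
  have hc1 : x * a * x⁻¹ * a⁻¹ ≠ 1 := by
    intro h
    apply hne
    rw [mul_inv_eq_one, mul_inv_eq_iff_eq_mul] at h
    exact h
  obtain ⟨v, hv0, hv1, hv2⟩ := exists_common (fx V x) (fx V (a * x * a⁻¹)) (by
    rw [card_fx, card_fx, fixc_conj, ← pow_two]; exact hx)
  rw [mem_fx] at hv1 hv2
  apply hv0
  refine eq_zero_of_comm hA hab hc hc1 (x := v) ?_
  have h1 : x * a * x⁻¹ * a⁻¹ = x * (a * x * a⁻¹)⁻¹ := by group
  have h2 : (a * x * a⁻¹)⁻¹ • v = v := by
    rw [inv_smul_eq_iff]; exact hv2.symm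
  rw [h1, mul_smul, h2, hv1]

/-- dimension two: elements with many fixed vectors centralise `M` -/
theorem comm_of_dim_two [Nontrivial V] {M : Subgroup H} [M.Normal] (hM : Homog V M) (W : (Submodule (KA V M) V :))
    [IsSimpleModule (KA V M) W] (hb : bb (KA V M) W = 2) {x : H} (hx : Nat.card V < fixc V x ^ 2) {a : H}
    (ha : a ∈ M) : x * a = a * x := by
  obtain ⟨m, hm, ⟨e⟩⟩ := hM.exists_equiv W
  have h1 := (comm_of_two e hb hm (DistribMulAction.toAddEquiv V x) (cjE M x)
    (fun r y => cjE_smul M x r y) hx (el ha) :)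
  have h2 : x * a * x⁻¹ = a := by
    apply FaithfulSMul.eq_of_smul_eq_smul (α := V)
    intro y
    have h3 := h1 y
    have h4 : (cjE M x (el ha) : KA V M) • y = (x * a * x⁻¹) • y := by
      rw [mul_smul, mul_smul]; rfl
    rw [h4] at h3
    exact h3
  rw [mul_inv_eq_iff_eq_mul] at h2
  exact h2

seal _root_.AddMonoid.End in
/-- if the ring acts commutatively on a simple submodule then `M` is commutative -/
theorem comm_of_W [Nontrivial V] {M : Subgroup H} (hM : Homog V M) (W : (Submodule (KA V M) V :))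
    [IsSimpleModule (KA V M) W] (h : ∀ (r s : KA V M) (w : W), r • s • w = s • r • w) {a b : H} (ha : a ∈ M)
    (hb : b ∈ M) : a * b = b * a := by
  obtain ⟨m, hm, ⟨e⟩⟩ := hM.exists_equiv W
  apply FaithfulSMul.eq_of_smul_eq_smul (α := V)
  intro y
  rw [mul_smul, mul_smul]
  apply e.injective
  funext i
  have h1 : ∀ (r : KA V M) (z : V), e (r • z) i = r • e z i := fun r z => by rw [map_smul]; rfl
  have h2 : a • b • y = (el ha : KA V M) • (el hb : KA V M) • y := rfl
  have h3 : b • a • y = (el hb : KA V M) • (el ha : KA V M) • y := rfl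
  rw [h2, h3, h1, h1, h1, h1, h]

/-- non-commutative normal subgroups generated by elements with many fixed vectors have dimension at least three -/
theorem dimGe_three [Nontrivial V] {M : Subgroup H} [M.Normal] (hM : Homog V M)
    (hna : ¬ ∀ a ∈ M, ∀ b ∈ M, a * b = b * a)
    (hle : M ≤ Subgroup.closure {h : H | Nat.card V < fixc V h ^ 2}) : DimGe V M 3 := by
  intro W hW
  by_contra hlt
  have hb0 := bb_pos (KA V M) W
  have hbb : bb (KA V M) W = finrank ((Module.End (KA V M) W :)) W := rfl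
  rw [← hbb] at hlt
  have hcase : bb (KA V M) W = 1 ∨ bb (KA V M) W = 2 := by omega
  apply hna
  rcases hcase with h1 | h2
  · intro a ha b hb
    exact comm_of_W hM W (fun r s w => comm_of_one (KA V M) W h1 r s w) ha hb
  · have hcl : Subgroup.closure {h : H | Nat.card V < fixc V h ^ 2} ≤ Subgroup.centralizer (M : Set H) := by
      rw [Subgroup.closure_le]
      intro x hx
      rw [SetLike.mem_coe, Subgroup.mem_centralizer_iff]
      intro a ha
      exact (comm_of_dim_two hM W h2 hx ha).symm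
    intro a ha b hb
    have := hcl (hle ha)
    rw [Subgroup.mem_centralizer_iff] at this
    exact (this b hb).symm

/-- the pure vectors -/
theorem exists_pure_set [Nontrivial V] {M : Subgroup H} [M.Normal] (hM : Homog V M) (W : (Submodule (KA V M) V :))
    [IsSimpleModule (KA V M) W] {m : ℕ} (e : V ≃ₗ[KA V M] (Fin m → W)) :
    ∃ S : Set V, S.Nonempty ∧ (0 : V) ∉ S ∧ (∀ (h : H), ∀ x ∈ S, h • x ∈ S) ∧
      S.ncard * (qq (KA V M) W - 1) ≤ (qq (KA V M) W ^ m - 1) * (qq (KA V M) W ^ bb (KA V M) W - 1) := by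
  refine ⟨{x | (PureE (KA V M) x :)}, ?_, fun h => h.1 rfl, ?_, card_pure e⟩
  · obtain ⟨w, hw⟩ : ∃ w : W, w ≠ 0 := by
      haveI : Nontrivial W := IsSimpleModule.nontrivial (KA V M) W
      exact exists_ne 0
    have hsub : (Submodule.subtype W) ≠ 0 := by
      intro h
      apply hw
      have := (congrArg (fun f : W →ₗ[KA V M] V => f w) h :)
      exact Subtype.ext this
    exact ⟨_, (pure_of_hom hsub hw :)⟩
  · rintro h x ⟨hx0, hx⟩
    refine ⟨fun h0 => hx0 ?_, fun r hr => ?_⟩
    · have := congrArg (fun y => h⁻¹ • y) h0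
      simpa using this
    · obtain ⟨r', rfl⟩ := (cjE M h).surjective r
      rw [← cjE_smul] at hr
      have hr' : r' • x ≠ 0 := fun h0 => hr (by rw [h0, smul_zero])
      obtain ⟨s, hs⟩ := hx r' hr'
      refine ⟨cjE M h s, ?_⟩
      rw [← cjE_smul, ← cjE_smul, hs]

/-- a semiregular group of automorphisms commuting with `M` -/
theorem card_lt_of_semireg [Nontrivial V] {M A : Subgroup H} (W : (Submodule (KA V M) V :))
    [IsSimpleModule (KA V M) W] {m : ℕ} (e : V ≃ₗ[KA V M] (Fin m → W)) (hc : ∀ a ∈ A, ∀ x ∈ M, a * x = x * a)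
    (hs : ∀ a ∈ A, a ≠ 1 → ∀ v : V, a • v = v → v = 0) : Nat.card A < qq (KA V M) W ^ m := by
  classical
  haveI : (Finite (W →ₗ[KA V M] V) :) :=
    Finite.of_injective (fun f : W →ₗ[KA V M] V => (f : W → V)) DFunLike.coe_injective
  obtain ⟨w, hw⟩ : ∃ w : W, w ≠ 0 := by
    haveI : Nontrivial W := IsSimpleModule.nontrivial (KA V M) W
    exact exists_ne 0
  have hwV : (w : V) ≠ 0 := fun h => hw (Subtype.ext h)
  let f : Option A → (W →ₗ[KA V M] V) := fun o => match o with
    | none => 0
    | some a =>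
      { toFun := fun y => (a : H) • (y : V)
        map_add' := fun y z => smul_add _ _ _
        map_smul' := fun r y => by
          show (a : H) • (r • (y : V)) = r • ((a : H) • (y : V))
          exact map_KA (dl V (a : H)) (fun h hh x => by
            show (a : H) • h • x = h • (a : H) • x
            rw [← mul_smul, ← mul_smul, hc a a.2 h hh]) r y }
  have hf : Function.Injective f := by
    intro o o' h
    have h1 : f o w = f o' w := by rw [h]
    rcases o with _ | a <;> rcases o' with _ | b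
    · rfl
    · exfalso
      have h2 : (b : H) • (w : V) = 0 := h1.symm
      exact hwV ((smul_eq_zero_iff_eq (b : H)).1 h2)
    · exfalso
      have h2 : (a : H) • (w : V) = 0 := h1
      exact hwV ((smul_eq_zero_iff_eq (a : H)).1 h2)
    · have h2 : (a : H) • (w : V) = (b : H) • (w : V) := h1
      by_contra hne
      have h3 : ((b : H)⁻¹ * a) ≠ 1 := by
        intro h4
        apply hne
        rw [inv_mul_eq_one] at h4
        rw [Subtype.ext h4.symm]
      apply hwV
      refine hs _ (A.mul_mem (A.inv_mem b.2) a.2) h3 _ ?_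
      rw [mul_smul, h2, inv_smul_smul]
  haveI : Finite A := by
    haveI : Finite (Option A) := Finite.of_injective f hf
    exact Finite.of_injective (some : A → Option A) (Option.some_injective _)
  have h1 := Nat.card_le_card_of_injective f hf
  rw [card_hom e] at h1
  have h2 : Nat.card (Option A) = Nat.card A + 1 := by
    haveI : Fintype A := Fintype.ofFinite A
    rw [Nat.card_eq_fintype_card, Nat.card_eq_fintype_card, Fintype.card_option]
  omega

/-- the centraliser is not larger than the ring of endomorphisms -/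
theorem card_centralizer_le' [Finite H] {M : Subgroup H} (W : (Submodule (KA V M) V :))
    [IsSimpleModule (KA V M) W] {m : ℕ} (e : V ≃ₗ[KA V M] (Fin m → W)) :
    Nat.card (Subgroup.centralizer (M : Set H)) ≤ qq (KA V M) W ^ (m * m) := by
  haveI : Finite ((Module.End (KA V M) V :)) := finite_end' _ _
  refine le_trans ?_ ((card_end_le e :))
  let f : Subgroup.centralizer (M : Set H) → (Module.End (KA V M) V :) := fun a =>
    { toFun := fun y => (a : H) • y
      map_add' := fun y z => smul_add _ _ _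
      map_smul' := fun r y => by
        exact map_KA (dl V (a : H)) (fun h hh x => by
          show (a : H) • h • x = h • (a : H) • x
          rw [← mul_smul, ← mul_smul, (Subgroup.mem_centralizer_iff.1 a.2) h hh]) r y }
  refine Nat.card_le_card_of_injective f ?_
  intro a b h
  apply Subtype.ext
  apply FaithfulSMul.eq_of_smul_eq_smul (α := V)
  intro y
  exact congrArg (fun g : (Module.End (KA V M) V :) => g y) h

end fin

end Cfsg.Agent.H192.Af
end

private theorem dce_2ce0792e783e : _root_.True := by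
  try have : _root_.True := by simp only [_root_.Cfsg.Agent.H192.Af.qq.eq_1]
  try have : _root_.True := by simp only [_root_.Cfsg.Agent.H192.Af.bb.eq_1]
  exact _root_.True.intro
end

-- part: H192/Af/Core
section
prune_inst 0x200000000400000900000000000000200020000200d002000018000000800800000000000000000000000000000000000000000000028020000400000000000000000000000000000000000000000000000000000000000000
set_option linter.all false
open scoped Cfsg.Agent.FastGrp

-- part: H192/Af/Cnt
section
/-!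
# S5731, affine core: counting centralisers, numerics, `p`-elements
-/

set_option autoImplicit false
set_option linter.style.haveILetI false
set_option linter.unusedSectionVars false

namespace Cfsg.Agent.H192.Af

open Cfsg.Agent.H717.FieldOf

universe u v

section grp

variable {H : Type v} [Group H] [Finite H]

theorem centralizer_le_sty (M : Subgroup H) [M.Normal] (y : H) : Subgroup.centralizer (M : Set H) ≤ sty M y := by
  intro c hc
  show c * y * c⁻¹ * y⁻¹ ∈ Subgroup.centralizer (M : Set H)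
  have h1 : y * c⁻¹ * y⁻¹ ∈ Subgroup.centralizer (M : Set H) :=
    (inferInstance : (Subgroup.centralizer (M : Set H)).Normal).conj_mem _ (inv_mem hc) y
  have h2 := mul_mem hc h1
  have h3 : c * (y * c⁻¹ * y⁻¹) = c * y * c⁻¹ * y⁻¹ := by group
  rwa [h3] at h2

/-- `|C_H(y₁ y₂)| ≤ κ₁ κ₂ |C_H(M₁) ∩ C_H(M₂)|` -/
theorem card_cent_mul_le (M₁ M₂ : Subgroup H) [hn₁ : M₁.Normal] [hn₂ : M₂.Normal]
    (hc : ∀ a ∈ M₁, ∀ b ∈ M₂, a * b = b * a) {y₁ y₂ : H} (h1 : y₁ ∈ M₁) (h2 : y₂ ∈ M₂) :
    Nat.card (Subgroup.centralizer ({y₁ * y₂} : Set H)) ≤ kap M₁ y₁ * kap M₂ y₂ *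
      Nat.card (Subgroup.centralizer (M₁ : Set H) ⊓ Subgroup.centralizer (M₂ : Set H) : Subgroup H) := by
  set C₁ := Subgroup.centralizer (M₁ : Set H) with hC₁
  set C₂ := Subgroup.centralizer (M₂ : Set H) with hC₂
  have hM12 : M₂ ≤ C₁ := fun b hb => Subgroup.mem_centralizer_iff.2 fun a ha => hc a ha b hb
  have hM21 : M₁ ≤ C₂ := fun a ha => Subgroup.mem_centralizer_iff.2 fun b hb => (hc a ha b hb).symm
  have hle : Subgroup.centralizer ({y₁ * y₂} : Set H) ≤ sty M₁ y₁ ⊓ sty M₂ y₂ := by
    intro h hh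
    rw [Subgroup.mem_centralizer_singleton_iff] at hh
    have e0 : h * (y₁ * y₂) * h⁻¹ = y₁ * y₂ := by rw [hh, mul_inv_cancel_right]
    have a1 : h * y₁ * h⁻¹ ∈ M₁ := hn₁.conj_mem _ h1 h
    have a2 : h * y₂ * h⁻¹ ∈ M₂ := hn₂.conj_mem _ h2 h
    have e1 : (h * y₁ * h⁻¹) * (h * y₂ * h⁻¹) = y₁ * y₂ := by rw [← e0]; group
    have e2 : y₁⁻¹ * (h * y₁ * h⁻¹) = y₂ * (h * y₂ * h⁻¹)⁻¹ := by
      rw [eq_mul_inv_iff_mul_eq, mul_assoc, e1]; group
    constructor
    · show h * y₁ * h⁻¹ * y₁⁻¹ ∈ C₁
      have b1 : y₁⁻¹ * (h * y₁ * h⁻¹) ∈ C₁ := by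
        rw [e2]; exact mul_mem (hM12 h2) (inv_mem (hM12 a2))
      have b2 : y₁ * (y₁⁻¹ * (h * y₁ * h⁻¹)) * y₁⁻¹ ∈ C₁ :=
        (inferInstance : C₁.Normal).conj_mem _ b1 y₁
      have b3 : y₁ * (y₁⁻¹ * (h * y₁ * h⁻¹)) * y₁⁻¹ = h * y₁ * h⁻¹ * y₁⁻¹ := by group
      rwa [b3] at b2
    · show h * y₂ * h⁻¹ * y₂⁻¹ ∈ C₂
      have b1 : y₂ * (h * y₂ * h⁻¹)⁻¹ ∈ C₂ := by
        rw [← e2]; exact mul_mem (inv_mem (hM21 h1)) (hM21 a1)
      have b2 := inv_mem b1
      have b3 : (y₂ * (h * y₂ * h⁻¹)⁻¹)⁻¹ = h * y₂ * h⁻¹ * y₂⁻¹ := by group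
      rwa [b3] at b2
  have hD : C₁ ⊓ C₂ ≤ sty M₁ y₁ ⊓ sty M₂ y₂ :=
    inf_le_inf (centralizer_le_sty M₁ y₁) (centralizer_le_sty M₂ y₂)
  have k1 : Nat.card (sty M₁ y₁ ⊓ sty M₂ y₂ : Subgroup H)
      = (C₁ ⊓ C₂).relIndex (sty M₁ y₁ ⊓ sty M₂ y₂) * Nat.card (C₁ ⊓ C₂ : Subgroup H) := by
    have := Subgroup.relIndex_mul_relIndex ⊥ (C₁ ⊓ C₂) (sty M₁ y₁ ⊓ sty M₂ y₂) bot_le hD
    rw [Subgroup.relIndex_bot_left, Subgroup.relIndex_bot_left] at this
    rw [← this]; ring
  have k2 : (C₁ ⊓ C₂).relIndex (sty M₁ y₁ ⊓ sty M₂ y₂) ≤ kap M₁ y₁ * kap M₂ y₂ := by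
    refine (Subgroup.relIndex_inf_le (H := C₁) (K := C₂) (L := sty M₁ y₁ ⊓ sty M₂ y₂)).trans (Nat.mul_le_mul ?_ ?_)
    · exact Subgroup.relIndex_le_of_le_right inf_le_left Subgroup.index_ne_zero_of_finite
    · exact Subgroup.relIndex_le_of_le_right inf_le_right Subgroup.index_ne_zero_of_finite
  calc Nat.card (Subgroup.centralizer ({y₁ * y₂} : Set H))
      ≤ Nat.card (sty M₁ y₁ ⊓ sty M₂ y₂ : Subgroup H) := Subgroup.card_le_of_le hle
    _ = (C₁ ⊓ C₂).relIndex (sty M₁ y₁ ⊓ sty M₂ y₂) * Nat.card (C₁ ⊓ C₂ : Subgroup H) := k1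
    _ ≤ _ := Nat.mul_le_mul_right _ k2

/-- `|C_H(y)| ≤ κ |C_H(M)|` -/
theorem card_cent_le (M : Subgroup H) [hn : M.Normal] {y : H} (hy : y ∈ M) :
    Nat.card (Subgroup.centralizer ({y} : Set H)) ≤ kap M y * Nat.card (Subgroup.centralizer (M : Set H)) := by
  have h := card_cent_mul_le M ⊥ (fun a _ b hb => by
    rw [Subgroup.mem_bot.1 hb, mul_one, one_mul]) hy (Subgroup.mem_bot.2 rfl : (1 : H) ∈ (⊥ : Subgroup H))
  rw [mul_one] at h
  have h1 : Subgroup.centralizer ((⊥ : Subgroup H) : Set H) = ⊤ := by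
    rw [eq_top_iff]
    intro x _
    rw [Subgroup.mem_centralizer_iff]
    intro z hz
    have hz' : z = 1 := hz
    rw [hz', mul_one, one_mul]
  have h2 : kap (⊥ : Subgroup H) 1 = 1 := by
    unfold kap
    rw [h1]
    exact Subgroup.relIndex_top_left _
  rw [h2, mul_one, h1, inf_top_eq] at h
  exact h

end grp

/-- numerics -/
theorem exists_num_bound : ∃ N : ℕ, 2 ≤ N ∧ ∀ n x : ℕ, N ≤ n → x ^ 24 ≤ n ^ 10 * Nat.log 2 n ^ 24 → (x + 1) ^ 2 ≤ n := by
  have h1 := (isLittleO_pow_const_const_pow_of_one_lt (R := ℝ) 24 (r := 4) (by norm_num)).bound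
    (c := ((4 : ℝ) ^ 12)⁻¹) (by positivity)
  obtain ⟨X, hX⟩ := Filter.eventually_atTop.1 h1
  refine ⟨2 ^ (X + 1), ?_, fun n x hn hx => ?_⟩
  · calc 2 = 2 ^ 1 := by norm_num
      _ ≤ 2 ^ (X + 1) := Nat.pow_le_pow_right (by norm_num) (by omega)
  set l := Nat.log 2 n with hl
  have hn0 : n ≠ 0 := by
    have : 0 < 2 ^ (X + 1) := by positivity
    omega
  have hlX : X ≤ l := by
    have : X + 1 ≤ Nat.log 2 n := Nat.le_log_of_pow_le (by norm_num) hn
    omega
  have h2l : 2 ^ l ≤ n := Nat.pow_log_le_self 2 hn0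
  have h3 : (l : ℝ) ^ 24 ≤ ((4 : ℝ) ^ 12)⁻¹ * 4 ^ l := by
    have h4 := hX l hlX
    have e1 : ‖(l : ℝ) ^ 24‖ = (l : ℝ) ^ 24 := by rw [Real.norm_eq_abs, abs_of_nonneg (by positivity)]
    have e2 : ‖(4 : ℝ) ^ l‖ = (4 : ℝ) ^ l := by rw [Real.norm_eq_abs, abs_of_nonneg (by positivity)]
    rw [e1, e2] at h4
    exact h4
  have h4 : 4 ^ 12 * l ^ 24 ≤ 4 ^ l := by
    have : (4 : ℝ) ^ 12 * (l : ℝ) ^ 24 ≤ 4 ^ l := by
      calc (4 : ℝ) ^ 12 * (l : ℝ) ^ 24 ≤ (4 : ℝ) ^ 12 * (((4 : ℝ) ^ 12)⁻¹ * 4 ^ l) := by gcongr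
        _ = 4 ^ l := by rw [← mul_assoc, mul_inv_cancel₀ (by positivity), one_mul]
    exact_mod_cast this
  have h5 : 4 ^ 12 * l ^ 24 ≤ n ^ 2 := by
    refine h4.trans ?_
    calc 4 ^ l = (2 ^ l) ^ 2 := by rw [← pow_mul, mul_comm, pow_mul]; norm_num
      _ ≤ n ^ 2 := Nat.pow_le_pow_left h2l 2
  rcases Nat.eq_zero_or_pos x with h0 | h0
  · subst h0
    have := Nat.pos_of_ne_zero hn0
    simp only [zero_add, one_pow]; omega
  · have h6 : (x + 1) ^ 2 ≤ 4 * x ^ 2 := by nlinarith only [h0]
    refine h6.trans ?_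
    have h7 : (4 * x ^ 2) ^ 12 ≤ n ^ 12 := by
      calc (4 * x ^ 2) ^ 12 = 4 ^ 12 * x ^ 24 := by rw [mul_pow, ← pow_mul]
        _ ≤ 4 ^ 12 * (n ^ 10 * l ^ 24) := Nat.mul_le_mul_left _ hx
        _ = (4 ^ 12 * l ^ 24) * n ^ 10 := by ring
        _ ≤ n ^ 2 * n ^ 10 := Nat.mul_le_mul_right _ h5
        _ = n ^ 12 := by rw [← pow_add]
    exact le_of_pow_le_pow_left₀ (by norm_num) (Nat.zero_le _) h7

/-- a `p`-element fixes a non-zero vector -/
theorem exists_fixed_of_ppow {p : ℕ} (hp : p.Prime) {V : Type u} [AddCommGroup V] [Finite V] [Nontrivial V]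
    (hpV : ∀ w : V, p • w = 0) {H : Type v} [Group H] [DistribMulAction H V] {x : H} {k : ℕ}
    (hx : x ^ p ^ k = 1) : ∃ w : V, w ≠ 0 ∧ x • w = w := by
  classical
  haveI : Fact p.Prime := ⟨hp⟩
  have hG : IsPGroup p (Subgroup.zpowers x) := by
    intro g
    obtain ⟨j, hj⟩ := g.2
    refine ⟨k, Subtype.ext ?_⟩
    show (g : H) ^ p ^ k = 1
    have hj' : x ^ j = (g : H) := hj
    rw [← hj', ← zpow_natCast, ← zpow_mul, mul_comm, zpow_mul, zpow_natCast, hx, one_zpow]
  have hV : p ∣ Nat.card V := by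
    obtain ⟨w, hw⟩ := exists_ne (0 : V)
    have h1 : addOrderOf w = p := addOrderOf_eq_prime (hpV w) hw
    rw [← h1]; exact addOrderOf_dvd_natCard w
  obtain ⟨w, hw, hw0⟩ := hG.exists_fixed_point_of_prime_dvd_card_of_fixed_point V hV
    (a := (0 : V)) (fun g => smul_zero _)
  exact ⟨w, Ne.symm hw0, hw ⟨x, Subgroup.mem_zpowers x⟩⟩

end Cfsg.Agent.H192.Af
end

-- part: H192/Af/DblGrp
section
set_option autoImplicit false
set_option linter.style.haveILetI false
set_option linter.unusedSectionVars false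

namespace Cfsg.Agent.H192.Af

open Module Cfsg.Agent.H717.FieldOf

universe u v

section res

variable {V : Type u} [AddCommGroup V] {R S : Subring (AddMonoid.End V)}

/-- restriction of scalars of a submodule -/
def resU (h : R ≤ S) (W : (Submodule S V :)) : (Submodule R V :) where
  carrier := W
  add_mem' := W.add_mem
  zero_mem' := W.zero_mem
  smul_mem' r _ hx := (W.smul_mem (Subring.inclusion h r) hx :)

/-- the identity -/
def resE (h : R ≤ S) (W : (Submodule S V :)) : resU h W ≃+ W where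
  toFun x := ⟨x.1, x.2⟩
  invFun x := ⟨x.1, x.2⟩
  left_inv _ := rfl
  right_inv _ := rfl
  map_add' _ _ := rfl

seal _root_.AddMonoid.End in
theorem resE_smul (h : R ≤ S) (W : (Submodule S V :)) (r : R) (x : resU h W) :
    resE h W (r • x) = Subring.inclusion h r • resE h W x := rfl

theorem incl_smul (h : R ≤ S) (r : R) (x : V) : Subring.inclusion h r • x = r • x := rfl

end res

variable {V : Type u} [AddCommGroup V] {H : Type v} [Group H] [DistribMulAction H V] [Finite V] [FaithfulSMul H V]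

seal _root_.AddMonoid.End in
/-- **the dimension doubles** -/
theorem two_mul_le [Nontrivial V] {M K : Subgroup H} (hMK : M ≤ K) (hM : Homog V M) (hK : Homog V K)
    (W₁ : (Submodule (KA V M) V :)) [IsSimpleModule (KA V M) W₁] (W₃ : (Submodule (KA V K) V :))
    [IsSimpleModule (KA V K) W₃] {a b : H} (ha : a ∈ K) (hb : b ∈ K) (hab : a * b ≠ b * a)
    (haM : ∀ x ∈ M, a * x = x * a) (hbM : ∀ x ∈ M, b * x = x * b) :
    2 * bb (KA V M) W₁ ≤ bb (KA V K) W₃ := by
  classical
  -- `W₃` as a submodule for `M`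
  let U : (Submodule (KA V M) V :) := resU (KA_mono hMK) W₃
  haveI := hM.1
  have hiso : (IsIsotypicOfType (KA V M) V W₁ :) := hM.2 W₁
  have hisoU : IsIsotypicOfType (KA V M) U W₁ := (hiso.of_injective (U.subtype :) U.injective_subtype :)
  obtain ⟨k, ⟨e⟩⟩ := hisoU.linearEquiv_fun
  refine two_mul_bb_le' (R₁ := KA V M) (R₃ := KA V K) (W₁ := W₁) (W₃ := W₃) (U := U)
    (Subring.inclusion (KA_mono hMK)) (resE (KA_mono hMK) W₃) (resE_smul (KA_mono hMK) W₃) (k := k) e
    (el ha) (el hb) ?_ ?_ ?_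
  · intro r x
    apply Subtype.ext
    rw [Submodule.coe_smul, Submodule.coe_smul, Submodule.coe_smul, Submodule.coe_smul, el_smul, el_smul,
      incl_smul, incl_smul]
    exact map_KA (dl V a) (fun h hh x => by
      show a • h • x = h • a • x
      rw [← mul_smul, ← mul_smul, haM h hh]) r x
  · intro r x
    apply Subtype.ext
    rw [Submodule.coe_smul, Submodule.coe_smul, Submodule.coe_smul, Submodule.coe_smul, el_smul, el_smul,
      incl_smul, incl_smul]
    exact map_KA (dl V b) (fun h hh x => by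
      show b • h • x = h • b • x
      rw [← mul_smul, ← mul_smul, hbM h hh]) r x
  · by_contra hcon
    push Not at hcon
    apply hab
    obtain ⟨m, hm, ⟨e3⟩⟩ := hK.exists_equiv W₃
    apply FaithfulSMul.eq_of_smul_eq_smul (α := V)
    intro y
    rw [mul_smul, mul_smul]
    apply e3.injective
    funext i
    have h1 : ∀ (r : KA V K) (z : V), e3 (r • z) i = r • e3 z i := fun r z => by rw [map_smul]; rfl
    have h2 : a • b • y = (el ha : KA V K) • (el hb : KA V K) • y := rfl
    have h3 : b • a • y = (el hb : KA V K) • (el ha : KA V K) • y := rfl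
    rw [h2, h3, h1, h1, h1, h1, hcon]


end Cfsg.Agent.H192.Af
end

-- part: H902/Af/Crit
section
/-!
# S5731, the affine core: criteria for `Tgt` (helper902, AF1)
-/

set_option autoImplicit false

namespace Cfsg.Agent.H902.Af

open Cfsg.Agent.H192.Af MulAction

universe u v

section

variable {V : Type u} [AddCommGroup V] [Finite V] {H : Type v} [Group H] [Finite H] [DistribMulAction H V]

/-- the number of fixed points of `h` on the orbit of `w` -/
noncomputable def fx (w : V) (h : H) : ℕ := Nat.card {x : orbit H w // h • x = x}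

omit [Finite V] [Finite H] in
theorem fx_conj (w : V) (k h : H) : fx w (k * h * k⁻¹) = fx w h := by
  unfold fx
  refine Nat.card_congr ⟨fun x => ⟨k⁻¹ • x.1, ?_⟩, fun x => ⟨k • x.1, ?_⟩, fun x => ?_, fun x => ?_⟩
  · have := congrArg (fun y => k⁻¹ • y) x.2
    simp only [mul_smul, inv_smul_smul] at this
    exact this
  · rw [mul_smul, mul_smul, inv_smul_smul, x.2]
  · exact Subtype.ext (smul_inv_smul _ _)
  · exact Subtype.ext (inv_smul_smul _ _)

omit [Finite V] [Finite H] in
theorem fixc_conj (k h : H) : fixc V (k * h * k⁻¹) = fixc V h := by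
  unfold fixc
  refine Nat.card_congr ⟨fun x => ⟨k⁻¹ • x.1, ?_⟩, fun x => ⟨k • x.1, ?_⟩, fun x => ?_, fun x => ?_⟩
  · have := congrArg (fun y => k⁻¹ • y) x.2
    simp only [mul_smul, inv_smul_smul] at this
    exact this
  · rw [mul_smul, mul_smul, inv_smul_smul, x.2]
  · exact Subtype.ext (smul_inv_smul _ _)
  · exact Subtype.ext (inv_smul_smul _ _)

omit [Finite H] in
theorem fixc_pos (h : H) : 0 < fixc V h := by
  have : Nonempty {w : V // h • w = w} := ⟨⟨0, smul_zero h⟩⟩
  exact Nat.card_pos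

omit [Finite H] in
theorem fixc_le (h : H) : fixc V h ≤ Nat.card V :=
  Nat.card_le_card_of_injective _ Subtype.val_injective

omit [Finite H] in
/-- an orbit of non-zero vectors -/
theorem fx_lt {w : V} (hw : w ≠ 0) (h : H) : fx w h + 1 ≤ fixc V h := by
  unfold fx fixc
  rw [← Nat.card_unique (α := Unit), ← Nat.card_sum]
  refine Nat.card_le_card_of_injective
    (Sum.elim (fun x => ⟨x.1.1, congrArg Subtype.val x.2⟩) (fun _ => ⟨0, smul_zero h⟩)) ?_
  have hne : ∀ x : orbit H w, (x : V) ≠ 0 := by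
    rintro ⟨x, k, rfl⟩ h0
    exact hw ((smul_eq_zero_iff_eq k).1 h0)
  rintro (x | x) (y | y) hxy
  · have h1 : (x.1.1 : V) = y.1.1 := congrArg (fun s : {w : V // h • w = w} => s.1) hxy
    exact congrArg _ (Subtype.ext (Subtype.ext h1))
  · have h1 : (x.1.1 : V) = 0 := congrArg (fun s : {w : V // h • w = w} => s.1) hxy
    exact absurd h1 (hne _)
  · have h1 : (0 : V) = y.1.1 := congrArg (fun s : {w : V // h • w = w} => s.1) hxy
    exact absurd h1.symm (hne _)
  · rfl

omit [Finite H] in
/-- Double counting over an orbit. -/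
theorem sum_orbit [Fintype H] (w : V) [Fintype (stabilizer H w)] (g : H → ℝ) (hg : ∀ k h, g (k * h * k⁻¹) = g h) :
    ∑ h : H, (fx w h : ℝ) * g h = (Nat.card (orbit H w) : ℝ) * ∑ h : stabilizer H w, g h := by
  classical
  have : Fintype (orbit H w) := Fintype.ofFinite _
  have h1 : ∀ h : H, (fx w h : ℝ) * g h = ∑ x : orbit H w, if h • x = x then g h else 0 := by
    intro h
    rw [← Finset.sum_filter, Finset.sum_const, nsmul_eq_mul]
    congr 2
    unfold fx
    rw [Nat.card_eq_fintype_card, Fintype.card_subtype]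
  have h2 : ∀ x : orbit H w, (∑ h : H, if h • x = x then g h else 0) = ∑ h : stabilizer H w, g h := by
    rintro ⟨x, k, rfl⟩
    have h3 : (∑ h : stabilizer H w, g h) = ∑ h : H, if h • w = w then g h else 0 := by
      rw [← Finset.sum_filter]
      symm
      refine Finset.sum_bij' (fun h hh => ⟨h, (Finset.mem_filter.1 hh).2⟩) (fun h _ => h.1) ?_ ?_ ?_ ?_ ?_
      · intro h _; exact Finset.mem_univ _
      · intro h _; exact Finset.mem_filter.2 ⟨Finset.mem_univ _, h.2⟩
      · intro h _; rfl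
      · intro h _; rfl
      · intro h _; rfl
    rw [h3]
    refine Fintype.sum_equiv (MulAut.conj k⁻¹).toEquiv _ _ ?_
    intro h
    have e1 : (MulAut.conj k⁻¹).toEquiv h = k⁻¹ * h * k := by
      show k⁻¹ * h * k⁻¹⁻¹ = _
      rw [inv_inv]
    rw [e1]
    have e2 : g (k⁻¹ * h * k) = g h := by
      have := hg k⁻¹ h
      rwa [inv_inv] at this
    rw [e2]
    have e3 : (h • (⟨k • w, ⟨k, rfl⟩⟩ : orbit H w) = ⟨k • w, ⟨k, rfl⟩⟩) ↔ (k⁻¹ * h * k) • w = w := by
      rw [Subtype.ext_iff]
      show h • (k • w) = k • w ↔ _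
      rw [mul_smul, mul_smul, inv_smul_eq_iff]
    by_cases h4 : (k⁻¹ * h * k) • w = w
    · rw [if_pos h4]
      exact if_pos (e3.2 h4)
    · rw [if_neg h4]
      exact if_neg (fun h5 => h4 (e3.1 h5))
  rw [Finset.sum_congr rfl (fun h _ => h1 h), Finset.sum_comm, Finset.sum_congr rfl (fun x _ => h2 x),
    Finset.sum_const, nsmul_eq_mul, Finset.card_univ, Nat.card_eq_fintype_card]

theorem card_orbit_mul (w : V) : Nat.card (orbit H w) * Nat.card (stabilizer H w) = Nat.card H := by
  classical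
  have : Fintype (orbit H w) := Fintype.ofFinite _
  have : Fintype H := Fintype.ofFinite _
  have : Fintype (stabilizer H w) := Fintype.ofFinite _
  rw [Nat.card_eq_fintype_card, Nat.card_eq_fintype_card, Nat.card_eq_fintype_card]
  exact card_orbit_mul_card_stabilizer_eq_card_group H w

/-- Burnside on the orbit. -/
theorem sum_fx [Fintype H] (w : V) : ∑ h : H, (fx w h : ℝ) = Nat.card H := by
  classical
  have : Fintype (stabilizer H w) := Fintype.ofFinite _
  have h := sum_orbit w (fun _ : H => (1 : ℝ)) (fun _ _ => rfl)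
  simp only [mul_one] at h
  rw [h, Finset.sum_const, nsmul_eq_mul, mul_one, Finset.card_univ, ← Nat.card_eq_fintype_card]
  exact_mod_cast card_orbit_mul w

/-- Burnside on the pairs of the orbit. -/
theorem sum_fx_sq [Fintype H] (w : V) : ∑ h : H, (fx w h : ℝ) * fx w h = rnk V H w * Nat.card H := by
  classical
  have : Fintype (stabilizer H w) := Fintype.ofFinite _
  have : Fintype (orbit H w) := Fintype.ofFinite _
  rw [sum_orbit w (fun h : H => (fx w h : ℝ)) (fun k h => by rw [fx_conj])]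
  have : ∀ a : stabilizer H w, Fintype (fixedBy (orbit H w) a) := fun a => Fintype.ofFinite _
  have : Fintype (orbitRel.Quotient (stabilizer H w) (orbit H w)) := Fintype.ofFinite _
  have h1 := sum_card_fixedBy_eq_card_orbits_mul_card_group (stabilizer H w) (orbit H w)
  have h2 : ∑ h : stabilizer H w, (fx w (h : H) : ℝ) = (rnk V H w : ℝ) * Nat.card (stabilizer H w) := by
    rw [Nat.card_eq_fintype_card]
    unfold rnk
    rw [Nat.card_eq_fintype_card]
    have h3 : ∀ h : stabilizer H w, fx w (h : H) = Fintype.card (fixedBy (orbit H w) h) := by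
      intro h
      rw [← Nat.card_eq_fintype_card]
      rfl
    rw [Finset.sum_congr rfl (fun h _ => by rw [h3])]
    exact_mod_cast h1
  rw [h2, ← card_orbit_mul (H := H) w]
  push_cast
  ring

omit [Finite V] [Finite H] in
theorem tgt_iff [Fintype H] : Tgt V H ↔
    (Real.sqrt (Nat.card V) + 1) / (2 * Nat.card V) * (Nat.card H : ℝ) ≤ ∑ h : H, (1 - 1 / (fixc V h : ℝ)) := by
  unfold Tgt
  rw [finsum_eq_sum_of_fintype]

omit [Finite H] in
/-- The sum over `h` in terms of the stabiliser of one vector. -/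
theorem sum_ge_stab [Fintype H] {w : V} (hw : w ≠ 0) [Fintype (stabilizer H w)] :
    (Nat.card (orbit H w) : ℝ) * ∑ h : stabilizer H w, (1 : ℝ) / fixc V (h : H) ≤
      ∑ h : H, (1 - 1 / (fixc V h : ℝ)) := by
  rw [← sum_orbit w (fun h : H => (1 : ℝ) / fixc V h) (fun k h => by rw [fixc_conj])]
  refine Finset.sum_le_sum (fun h _ => ?_)
  have h1 : ((fx w h : ℝ) + 1) ≤ fixc V h := by exact_mod_cast fx_lt hw h
  have h2 : (0 : ℝ) < fixc V h := by exact_mod_cast fixc_pos h
  rw [mul_one_div, div_le_iff₀ h2]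
  field_simp
  linarith

/-- **Criterion**: at least half of the stabiliser of `w` has at most `√n` fixed vectors. -/
theorem tgt_of_half {w : V} (hw : w ≠ 0)
    (h : Nat.card (stabilizer H w) ≤ 2 * Nat.card {h : stabilizer H w // fixc V (h : H) ^ 2 ≤ Nat.card V}) :
    Tgt V H := by
  classical
  have : Fintype H := Fintype.ofFinite _
  have : Fintype (stabilizer H w) := Fintype.ofFinite _
  rw [tgt_iff]
  refine le_trans ?_ (sum_ge_stab hw)
  set n : ℝ := (Nat.card V : ℝ) with hn
  have hV : 0 < Nat.card V := Nat.card_pos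
  have hn0 : 0 < n := by rw [hn]; exact_mod_cast hV
  have hn1 : 1 ≤ n := by rw [hn]; exact_mod_cast hV
  have hs0 : 0 < Real.sqrt n := Real.sqrt_pos.2 hn0
  have hss : Real.sqrt n * Real.sqrt n = n := Real.mul_self_sqrt hn0.le
  have hs1 : 1 ≤ Real.sqrt n := Real.one_le_sqrt.2 hn1
  set A := Finset.univ.filter (fun h : stabilizer H w => fixc V (h : H) ^ 2 ≤ Nat.card V) with hA
  set B := Finset.univ.filter (fun h : stabilizer H w => ¬ fixc V (h : H) ^ 2 ≤ Nat.card V) with hB
  have hcA : Nat.card {h : stabilizer H w // fixc V (h : H) ^ 2 ≤ Nat.card V} = A.card := by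
    rw [Nat.card_eq_fintype_card, Fintype.card_subtype]
  have hAB : A.card + B.card = Nat.card (stabilizer H w) := by
    rw [hA, hB, Finset.card_filter_add_card_filter_not, Finset.card_univ, Nat.card_eq_fintype_card]
  have h1 : ∀ h ∈ A, 1 / Real.sqrt n ≤ (1 : ℝ) / fixc V (h : H) := by
    intro h hh
    have h2 := (Finset.mem_filter.1 hh).2
    have h3 : (0 : ℝ) < fixc V (h : H) := by exact_mod_cast fixc_pos (V := V) (h : H)
    refine one_div_le_one_div_of_le h3 ?_
    rw [← Real.sqrt_sq h3.le]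
    exact Real.sqrt_le_sqrt (by rw [hn]; exact_mod_cast h2)
  have h2 : ∀ h ∈ B, 1 / n ≤ (1 : ℝ) / fixc V (h : H) := by
    intro h _
    have h3 : (0 : ℝ) < fixc V (h : H) := by exact_mod_cast fixc_pos (V := V) (h : H)
    refine one_div_le_one_div_of_le h3 ?_
    rw [hn]
    exact_mod_cast fixc_le (V := V) (h : H)
  have h3 : (A.card : ℝ) * (1 / Real.sqrt n) + (B.card : ℝ) * (1 / n) ≤
      ∑ h : stabilizer H w, (1 : ℝ) / fixc V (h : H) := by
    rw [← Finset.sum_filter_add_sum_filter_not Finset.univ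
      (fun h : stabilizer H w => fixc V (h : H) ^ 2 ≤ Nat.card V), ← nsmul_eq_mul, ← nsmul_eq_mul]
    exact add_le_add (Finset.card_nsmul_le_sum _ _ _ h1) (Finset.card_nsmul_le_sum _ _ _ h2)
  have h4 : (Nat.card (stabilizer H w) : ℝ) * ((Real.sqrt n + 1) / (2 * n)) ≤
      (A.card : ℝ) * (1 / Real.sqrt n) + (B.card : ℝ) * (1 / n) := by
    have h5 : (B.card : ℝ) ≤ A.card := by
      have : B.card ≤ A.card := by omega
      exact_mod_cast this
    have h6 : (Nat.card (stabilizer H w) : ℝ) = A.card + B.card := by rw [← hAB]; push_cast; rfl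
    have e1 : 1 / Real.sqrt n = Real.sqrt n / n := by
      rw [div_eq_div_iff hs0.ne' hn0.ne', one_mul, hss]
    rw [h6, e1]
    have e2 : (A.card : ℝ) * (Real.sqrt n / n) + (B.card : ℝ) * (1 / n) -
        ((A.card : ℝ) + B.card) * ((Real.sqrt n + 1) / (2 * n)) =
        ((A.card : ℝ) - B.card) * (Real.sqrt n - 1) / (2 * n) := by
      field_simp
      ring
    have e3 : 0 ≤ ((A.card : ℝ) - B.card) * (Real.sqrt n - 1) / (2 * n) :=
      div_nonneg (mul_nonneg (by linarith only [h5]) (by linarith only [hs1])) (by linarith only [hn0])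
    linarith only [e2, e3]
  have h7 : (Nat.card H : ℝ) = Nat.card (orbit H w) * Nat.card (stabilizer H w) := by
    exact_mod_cast (card_orbit_mul (H := H) w).symm
  rw [h7]
  calc (Real.sqrt n + 1) / (2 * n) * (Nat.card (orbit H w) * Nat.card (stabilizer H w) : ℝ)
      = (Nat.card (orbit H w) : ℝ) * (Nat.card (stabilizer H w) * ((Real.sqrt n + 1) / (2 * n))) := by ring
    _ ≤ _ := mul_le_mul_of_nonneg_left (h4.trans h3) (Nat.cast_nonneg _)

/-- **Criterion**: all non-trivial elements have at most `√n` fixed vectors. -/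
theorem tgt_of_fix (hfix : ∀ h : H, h ≠ 1 → fixc V h ^ 2 ≤ Nat.card V) (hne : ∃ h : H, h ≠ 1 ∧ fixc V h ≠ 1) :
    Tgt V H := by
  classical
  obtain ⟨h0, h01, h02⟩ := hne
  obtain ⟨w, hw, hw1⟩ : ∃ w : V, w ≠ 0 ∧ h0 • w = w := by
    by_contra hall
    push Not at hall
    apply h02
    unfold fixc
    have : Unique {w : V // h0 • w = w} := ⟨⟨⟨0, smul_zero _⟩⟩, fun x => Subtype.ext (by
      by_contra h
      exact hall _ h x.2)⟩
    exact Nat.card_unique
  refine tgt_of_half hw ?_
  have h1 : Nat.card {h : stabilizer H w // h ≠ 1} + 1 = Nat.card (stabilizer H w) := by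
    have : Fintype (stabilizer H w) := Fintype.ofFinite _
    rw [Nat.card_eq_fintype_card, Nat.card_eq_fintype_card, Fintype.card_subtype_compl,
      Fintype.card_subtype_eq]
    exact Nat.sub_add_cancel Fintype.card_pos
  have h2 : Nat.card {h : stabilizer H w // h ≠ 1} ≤
      Nat.card {h : stabilizer H w // fixc V (h : H) ^ 2 ≤ Nat.card V} := by
    refine Nat.card_le_card_of_injective (fun h => ⟨h.1, hfix _ fun h3 => h.2 (Subtype.ext h3)⟩) ?_
    intro a b hab
    have : a.1 = b.1 := congrArg (fun s : {h : stabilizer H w // fixc V (h : H) ^ 2 ≤ Nat.card V} => s.1) hab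
    exact Subtype.ext this
  have h3 : 1 ≤ Nat.card {h : stabilizer H w // h ≠ 1} := by
    have : Nonempty {h : stabilizer H w // h ≠ 1} := ⟨⟨⟨h0, hw1⟩, fun h => h01 (congrArg Subtype.val h)⟩⟩
    exact Nat.card_pos
  omega

/-- **Criterion** (helper264): the stabilisers are generated by elements with more than `√n` fixed vectors. -/
theorem tgt_or_stab : Tgt V H ∨ ∀ w : V, w ≠ 0 →
    MulAction.stabilizer H w ≤ Subgroup.closure {h : H | Nat.card V < fixc V h ^ 2} := by
  classical
  by_cases hT : Tgt V H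
  · exact Or.inl hT
  right
  intro w hw
  by_contra hnot
  apply hT
  refine tgt_of_half hw ?_
  set K : Subgroup (stabilizer H w) :=
    (Subgroup.closure {h : H | Nat.card V < fixc V h ^ 2}).subgroupOf (stabilizer H w) with hK
  have hKtop : K ≠ ⊤ := fun h => hnot (Subgroup.subgroupOf_eq_top.1 h)
  have h1 : 2 * Nat.card K ≤ Nat.card (stabilizer H w) := by
    have h2 := K.index_mul_card
    have h3 : 2 ≤ K.index := by
      have h4 : K.index ≠ 1 := fun h => hKtop (Subgroup.index_eq_one.1 h)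
      have h5 : K.index ≠ 0 := Subgroup.index_ne_zero_of_finite
      omega
    calc 2 * Nat.card K ≤ K.index * Nat.card K := Nat.mul_le_mul_right _ h3
      _ = _ := h2
  have h2 : Nat.card {h : stabilizer H w // ¬ fixc V (h : H) ^ 2 ≤ Nat.card V} ≤ Nat.card K := by
    refine Nat.card_le_card_of_injective (fun h => ⟨h.1, ?_⟩) ?_
    · rw [hK, Subgroup.mem_subgroupOf]
      exact Subgroup.subset_closure (not_le.1 h.2)
    · intro a b hab
      have : a.1 = b.1 := congrArg (fun s : K => s.1) hab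
      exact Subtype.ext this
  have h3 : Nat.card {h : stabilizer H w // fixc V (h : H) ^ 2 ≤ Nat.card V} +
      Nat.card {h : stabilizer H w // ¬ fixc V (h : H) ^ 2 ≤ Nat.card V} = Nat.card (stabilizer H w) := by
    rw [← Nat.card_sum]
    exact Nat.card_congr (Equiv.sumCompl _)
  omega

/-- **Criterion** (helper900, helper570): small rank. -/
theorem tgt_of_rnk' {w : V} (hw : w ≠ 0) (h : (rnk V H w + 3) ^ 2 ≤ 4 * Nat.card V) : Tgt V H := by
  classical
  have : Fintype H := Fintype.ofFinite _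
  rw [tgt_iff]
  set n : ℝ := (Nat.card V : ℝ) with hn
  have hV : 0 < Nat.card V := Nat.card_pos
  have hn0 : 0 < n := by rw [hn]; exact_mod_cast hV
  have hs0 : 0 < Real.sqrt n := Real.sqrt_pos.2 hn0
  have hss : Real.sqrt n * Real.sqrt n = n := Real.mul_self_sqrt hn0.le
  set r : ℝ := (rnk V H w : ℝ) with hr
  have hr0 : 0 ≤ r := Nat.cast_nonneg _
  have hG : (0 : ℝ) < Nat.card H := by exact_mod_cast Nat.card_pos (α := H)
  -- pointwise
  have h1 : ∑ h : H, (fx w h : ℝ) / (1 + fx w h) ≤ ∑ h : H, (1 - 1 / (fixc V h : ℝ)) := by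
    refine Finset.sum_le_sum (fun h _ => ?_)
    have h1 : ((fx w h : ℝ) + 1) ≤ fixc V h := by exact_mod_cast fx_lt hw h
    have h0 : (0 : ℝ) ≤ fx w h := Nat.cast_nonneg _
    have h2 : (fx w h : ℝ) / (1 + fx w h) = 1 - 1 / (fx w h + 1) := by
      field_simp
      ring
    rw [h2]
    have := one_div_le_one_div_of_le (by linarith only [] : (0 : ℝ) < fx w h + 1) h1
    linarith only [this]
  -- Cauchy--Schwarz
  have h2 : (Nat.card H : ℝ) ^ 2 ≤ (∑ h : H, (fx w h : ℝ) / (1 + fx w h)) * ((1 + r) * Nat.card H) := by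
    have h3 : (1 + r) * Nat.card H = ∑ h : H, (fx w h : ℝ) * (1 + fx w h) := by
      have : ∀ h : H, (fx w h : ℝ) * (1 + fx w h) = fx w h + fx w h * fx w h := fun h => by ring
      rw [Finset.sum_congr rfl (fun h _ => this h), Finset.sum_add_distrib, sum_fx, sum_fx_sq]
      ring
    rw [h3, ← sum_fx (H := H) w]
    refine Finset.sum_sq_le_sum_mul_sum_of_sq_le_mul _ (fun h _ => ?_) (fun h _ => ?_) (fun h _ => le_of_eq ?_)
    · (clear * -; positivity)
    · (clear * -; positivity)
    · have : (1 + (fx w h : ℝ)) ≠ 0 := by (clear * -; positivity)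
      field_simp
  have h3 : (Nat.card H : ℝ) / (1 + r) ≤ ∑ h : H, (fx w h : ℝ) / (1 + fx w h) := by
    rw [div_le_iff₀ (by linarith only [_root_.Nat.cast_nonneg (α := ℝ) (rnk V H w)])]
    have h4 : (Nat.card H : ℝ) * Nat.card H ≤
        ((∑ h : H, (fx w h : ℝ) / (1 + fx w h)) * (1 + r)) * Nat.card H := by
      linarith only [h2]
    exact le_of_mul_le_mul_right h4 hG
  have h5 : r + 3 ≤ 2 * Real.sqrt n := by
    have h6 : (r + 3) ^ 2 ≤ (2 * Real.sqrt n) ^ 2 := by
      have h7 : (r + 3) ^ 2 ≤ 4 * n := by rw [hr, hn]; exact_mod_cast h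
      calc (r + 3) ^ 2 ≤ 4 * n := h7
        _ = (2 * Real.sqrt n) ^ 2 := by rw [mul_pow, pow_two (Real.sqrt n), hss]; ring
    exact le_of_sq_le_sq h6 (by positivity)
  have h6 : (Real.sqrt n + 1) / (2 * n) ≤ 1 / (1 + r) := by
    rw [div_le_div_iff₀ (by linarith only [hn0]) (by linarith only [_root_.Nat.cast_nonneg (α := ℝ) (rnk V H w)])]
    have : (Real.sqrt n + 1) * (1 + r) ≤ (Real.sqrt n + 1) * (2 * Real.sqrt n - 2) :=
      mul_le_mul_of_nonneg_left (by linarith only [h5]) (by linarith only [h5, _root_.Nat.cast_nonneg (α := ℝ) (rnk V H w)])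
    linarith only [hss, this]
  calc (Real.sqrt n + 1) / (2 * n) * (Nat.card H : ℝ) ≤ 1 / (1 + r) * (Nat.card H : ℝ) :=
        mul_le_mul_of_nonneg_right h6 hG.le
    _ = (Nat.card H : ℝ) / (1 + r) := by rw [one_div, div_eq_inv_mul]
    _ ≤ _ := h3.trans h1

omit [Finite H] in
theorem rnk_le (w : V) : rnk V H w ≤ Nat.card (orbit H w) :=
  Nat.card_le_card_of_surjective (Quotient.mk'' : orbit H w → orbitRel.Quotient (stabilizer H w) (orbit H w))
    Quotient.mk''_surjective

theorem tgt_of_inv' {S : Set V} (hS : S.Nonempty) (h0 : (0 : V) ∉ S) (hinv : ∀ (h : H), ∀ w ∈ S, h • w ∈ S)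
    (h : (S.ncard + 3) ^ 2 ≤ 4 * Nat.card V) : Tgt V H := by
  obtain ⟨w, hw⟩ := hS
  have hw0 : w ≠ 0 := fun h => h0 (h ▸ hw)
  refine tgt_of_rnk' hw0 (le_trans (Nat.pow_le_pow_left ?_ 2) h)
  have h1 : orbit H w ⊆ S := by
    rintro _ ⟨k, rfl⟩
    exact hinv k w hw
  have h2 : Nat.card (orbit H w) ≤ S.ncard := Set.ncard_le_ncard h1 (Set.toFinite _)
  have h3 := rnk_le (H := H) w
  omega

theorem tgt_of_inv {S : Set V} (hS : S.Nonempty) (h0 : (0 : V) ∉ S) (hinv : ∀ (h : H), ∀ w ∈ S, h • w ∈ S)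
    (h : (S.ncard + 1) ^ 2 ≤ Nat.card V) : Tgt V H := by
  refine tgt_of_inv' hS h0 hinv ?_
  have h1 : 0 < S.ncard := (Set.ncard_pos (Set.toFinite _)).2 hS
  calc (S.ncard + 3) ^ 2 ≤ (2 * (S.ncard + 1)) ^ 2 := Nat.pow_le_pow_left (by omega) 2
    _ = 4 * (S.ncard + 1) ^ 2 := by ring
    _ ≤ 4 * Nat.card V := Nat.mul_le_mul_left 4 h

/-- **Criterion**: an element with a fixed vector and a small centraliser. -/
theorem tgt_of_cent {y : H} {w : V} (hw : w ≠ 0) (hy : y • w = w)
    (h : (Nat.card (Subgroup.centralizer ({y} : Set H)) + 1) ^ 2 ≤ Nat.card V) : Tgt V H := by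
  classical
  have : Fintype H := Fintype.ofFinite _
  rw [tgt_iff]
  set n : ℝ := (Nat.card V : ℝ) with hn
  have hV : 0 < Nat.card V := Nat.card_pos
  have hn0 : 0 < n := by rw [hn]; exact_mod_cast hV
  have hs0 : 0 < Real.sqrt n := Real.sqrt_pos.2 hn0
  have hss : Real.sqrt n * Real.sqrt n = n := Real.mul_self_sqrt hn0.le
  set C : ℝ := (Nat.card (Subgroup.centralizer ({y} : Set H)) : ℝ) with hC
  have hC0 : 0 < C := by
    rw [hC]; exact_mod_cast Nat.card_pos (α := Subgroup.centralizer ({y} : Set H))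
  have hCn : C + 1 ≤ Real.sqrt n := by
    rw [Real.le_sqrt (by linarith only [hC0]) hn0.le, hC, hn]
    exact_mod_cast h
  set A := Finset.univ.filter (fun h : H => IsConj y h) with hA
  have hfc : ∀ h ∈ A, (1 : ℝ) / 2 ≤ 1 - 1 / (fixc V h : ℝ) := by
    intro h hh
    obtain ⟨k, rfl⟩ := isConj_iff.1 (Finset.mem_filter.1 hh).2
    rw [fixc_conj]
    have h2 : 2 ≤ fixc V y := by
      unfold fixc
      have : Nontrivial {w : V // y • w = w} := ⟨⟨w, hy⟩, ⟨0, smul_zero y⟩, fun h => hw (congrArg Subtype.val h)⟩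
      have : Fintype {w : V // y • w = w} := Fintype.ofFinite _
      rw [Nat.card_eq_fintype_card]
      exact Fintype.one_lt_card
    have h3 : (2 : ℝ) ≤ fixc V y := by exact_mod_cast h2
    have := one_div_le_one_div_of_le (by norm_num : (0 : ℝ) < 2) h3
    linarith only [this]
  have hAcard : (A.card : ℝ) * C = Nat.card H := by
    have h1 : A.card = Nat.card (ConjClasses.mk y).carrier := by
      rw [Nat.card_eq_fintype_card, ← Set.toFinset_card]
      congr 1
      ext x
      rw [hA, Finset.mem_filter, Set.mem_toFinset, ConjClasses.mem_carrier_iff_mk_eq, ConjClasses.mk_eq_mk_iff_isConj]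
      exact ⟨fun h => h.2.symm, fun h => ⟨Finset.mem_univ _, h.symm⟩⟩
    have h2 := Cfsg.Agent.SmallSimple.SelfCentPrime.card_carrier_mul_card_centralizer y
    rw [h1, hC]
    exact_mod_cast h2
  have h3 : (A.card : ℝ) * (1 / 2) ≤ ∑ h : H, (1 - 1 / (fixc V h : ℝ)) := by
    rw [← nsmul_eq_mul]
    refine (Finset.card_nsmul_le_sum _ _ _ hfc).trans ?_
    refine Finset.sum_le_sum_of_subset_of_nonneg (Finset.filter_subset _ _) (fun h _ _ => ?_)
    have h3 : (1 : ℝ) ≤ fixc V h := by exact_mod_cast fixc_pos (V := V) h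
    have := one_div_le_one_div_of_le (by norm_num : (0 : ℝ) < 1) h3
    linarith only [this]
  refine le_trans ?_ h3
  rw [← hAcard]
  have hA0 : (0 : ℝ) ≤ A.card := Nat.cast_nonneg _
  have h4 : (Real.sqrt n + 1) / (2 * n) * C ≤ 1 / 2 := by
    rw [div_mul_eq_mul_div, div_le_div_iff₀ (by linarith only [hn0]) (by norm_num)]
    have : (Real.sqrt n + 1) * C ≤ (Real.sqrt n + 1) * (Real.sqrt n - 1) :=
      mul_le_mul_of_nonneg_left (by linarith only [hCn]) (by linarith only [hC0, hCn])
    linarith only [hss, this]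
  calc (Real.sqrt n + 1) / (2 * n) * ((A.card : ℝ) * C) = (A.card : ℝ) * ((Real.sqrt n + 1) / (2 * n) * C) := by ring
    _ ≤ _ := mul_le_mul_of_nonneg_left h4 hA0

end

end Cfsg.Agent.H902.Af
end

-- part: H112/Af/Quot
section
/-!
# S5731, AF3: class two (helper112)
-/

set_option autoImplicit false
set_option linter.unusedSectionVars false
set_option linter.style.haveILetI false

namespace Cfsg.Agent.H112.Af

open Cfsg.Agent.H717.FieldOf Cfsg.Agent.H192.Af

universe u v

/-- Dedekind independence of coset representatives -/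
theorem card_quot_le_aux {D : Type*} [Field D] {W : Type*} [AddCommGroup W] [Module D W] [Module.Finite D W]
    [Nontrivial W] {M : Type*} [Group M] [Finite M] (ρ : M →* Module.End D W) (hinj : Function.Injective ρ)
    (hz : ∀ m m' : M, ∃ d : D, ρ (m * m' * m⁻¹ * m'⁻¹) = d • 1) :
    Nat.card (M ⧸ Subgroup.center M) ≤ Module.finrank D W ^ 2 := by
  classical
  choose l hl using hz
  have hconj : ∀ m m' : M, ρ m * ρ m' * ρ m⁻¹ = l m m' • ρ m' := by
    intro m m'
    have h1 : m * m' * m⁻¹ = (m * m' * m⁻¹ * m'⁻¹) * m' := by group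
    rw [← map_mul, ← map_mul, h1, map_mul, hl, smul_mul_assoc, one_mul]
  have hne : ∀ m : M, ρ m ≠ 0 := by
    intro m h
    have h1 : ρ m * ρ m⁻¹ = 1 := by rw [← map_mul, mul_inv_cancel, map_one]
    rw [h, zero_mul] at h1
    exact zero_ne_one h1
  -- different cosets have different characters
  have hsep : ∀ c a : M, (∀ m, l m c = l m a) → (c : M ⧸ Subgroup.center M) = a := by
    intro c a h
    rw [QuotientGroup.eq, Subgroup.mem_center_iff]
    intro g
    have h1 : ρ (g * c * g⁻¹ * c⁻¹) = ρ (g * a * g⁻¹ * a⁻¹) := by rw [hl, hl, h]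
    have h2 := hinj h1
    have h3 : c * g⁻¹ * c⁻¹ = a * g⁻¹ * a⁻¹ := by
      have h4 : g⁻¹ * (g * c * g⁻¹ * c⁻¹) = g⁻¹ * (g * a * g⁻¹ * a⁻¹) := by rw [h2]
      calc c * g⁻¹ * c⁻¹ = g⁻¹ * (g * c * g⁻¹ * c⁻¹) := by group
        _ = g⁻¹ * (g * a * g⁻¹ * a⁻¹) := h4
        _ = a * g⁻¹ * a⁻¹ := by group
    have h5 : c * g * c⁻¹ = a * g * a⁻¹ := by
      have h6 := congrArg (fun x => x⁻¹) h3
      simpa only [mul_assoc, _root_.mul_inv_rev, _root_.inv_inv] using h6
    calc g * (c⁻¹ * a) = c⁻¹ * (c * g * c⁻¹) * a := by group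
      _ = c⁻¹ * (a * g * a⁻¹) * a := by rw [h5]
      _ = c⁻¹ * a * g := by group
  let r : M ⧸ Subgroup.center M → M := Quotient.out
  have hr : ∀ c : M ⧸ Subgroup.center M, (r c : M ⧸ Subgroup.center M) = c := fun c => QuotientGroup.out_eq' c
  have key : ∀ (s : Finset (M ⧸ Subgroup.center M)) (d : M ⧸ Subgroup.center M → D),
      ∑ c ∈ s, d c • ρ (r c) = 0 → ∀ c ∈ s, d c = 0 := by
    intro s
    induction s using Finset.induction_on with
    | empty => intro d _ c hc; simp at hc
    | insert a s ha ih =>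
      intro d hd
      have h1 : ∀ m : M, ∀ c ∈ s, d c * (l m (r c) - l m (r a)) = 0 := by
        intro m
        apply ih (fun c => d c * (l m (r c) - l m (r a)))
        have h2 : ∑ c ∈ insert a s, (d c * l m (r c)) • ρ (r c) = 0 := by
          have h3 : ρ m * (∑ c ∈ insert a s, d c • ρ (r c)) * ρ m⁻¹ = 0 := by rw [hd, mul_zero, zero_mul]
          rw [Finset.mul_sum, Finset.sum_mul] at h3
          rw [← h3]
          refine Finset.sum_congr rfl fun c _ => ?_
          rw [mul_smul_comm, smul_mul_assoc, hconj, smul_smul]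
        have h4 : ∑ c ∈ insert a s, (d c * (l m (r c) - l m (r a))) • ρ (r c) = 0 := by
          have h5 : l m (r a) • ∑ c ∈ insert a s, d c • ρ (r c) = 0 := by rw [hd, smul_zero]
          rw [Finset.smul_sum] at h5
          have h6 : ∑ c ∈ insert a s, (d c * (l m (r c) - l m (r a))) • ρ (r c) =
              ∑ c ∈ insert a s, (d c * l m (r c)) • ρ (r c) -
                ∑ c ∈ insert a s, l m (r a) • d c • ρ (r c) := by
            rw [← Finset.sum_sub_distrib]
            refine Finset.sum_congr rfl fun c _ => ?_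
            rw [smul_smul, ← sub_smul]
            congr 1
            ring
          rw [h6, h2, h5, sub_zero]
        rwa [Finset.sum_insert ha, sub_self, mul_zero, zero_smul, zero_add] at h4
      have h6 : ∀ c ∈ s, d c = 0 := by
        intro c hc
        by_contra hdc
        apply ha
        have h7 : ∀ m, l m (r c) = l m (r a) := fun m => sub_eq_zero.1 ((mul_eq_zero.1 (h1 m c hc)).resolve_left hdc)
        have h8 := hsep _ _ h7
        rw [hr, hr] at h8
        rwa [← h8]
      intro c hc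
      rcases Finset.mem_insert.1 hc with rfl | hc
      · rw [Finset.sum_insert ha, Finset.sum_eq_zero (fun c hc => by rw [h6 c hc, zero_smul]), add_zero] at hd
        exact (smul_eq_zero.1 hd).resolve_right (hne _)
      · exact h6 c hc
  have hli : LinearIndependent D (fun c => ρ (r c)) := linearIndependent_iff'.2 key
  have := Fintype.ofFinite (M ⧸ Subgroup.center M)
  have h9 := hli.fintype_card_le_finrank
  rw [Nat.card_eq_fintype_card]
  refine h9.trans_eq ?_
  rw [Module.finrank_linearMap, pow_two]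

section

variable {V : Type u} [AddCommGroup V] [Finite V] {H : Type v} [Group H] [Finite H] [DistribMulAction H V]
  [FaithfulSMul H V]

seal _root_.AddMonoid.End in
/-- **Class two: linear independence of coset representatives.** -/
theorem card_quot_le [Nontrivial V] (M : Subgroup H) [M.Normal] (hM : Homog V M)
    (h2 : ∀ m m' : M, m * m' * m⁻¹ * m'⁻¹ ∈ Subgroup.center M) (W : (Submodule (KA V M) V :))
    (hW : IsSimpleModule (KA V M) W) :
    Nat.card (M ⧸ Subgroup.center M) ≤ Module.finrank ((Module.End (KA V M) W :)) W ^ 2 := by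
  classical
  have hfD : (Finite ((Module.End (KA V M) W :)) :) :=
    Finite.of_injective (fun f : Module.End (KA V M) W => (f : W → W)) DFunLike.coe_injective
  have hWn : Nontrivial W := IsSimpleModule.nontrivial (KA V M) W
  letI hDiv : (DivisionRing ((Module.End (KA V M) W :)) :) := Module.End.instDivisionRing
  letI hF : (Field ((Module.End (KA V M) W :)) :) := littleWedderburn (Module.End (KA V M) W)
  letI hMod : (@Module ((Module.End (KA V M) W :)) W hF.toSemiring _ :) := Module.End.applyModule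
  have hfin : (Module.Finite ((Module.End (KA V M) W :)) W :) := inferInstance
  let ρ : M →* (Module.End ((Module.End (KA V M) W :)) W :) :=
    { toFun := fun m =>
        { toFun := fun w => (⟨dl V (m : H), dl_mem M m.2⟩ : KA V M) • w
          map_add' := fun a b => (smul_add _ _ _ : _)
          map_smul' := fun d w => by
            change _ • (d w) = d (_ • w)
            rw [map_smul] }
      map_one' := by
        apply LinearMap.ext
        intro w
        apply Subtype.ext
        change (1 : H) • (w : V) = w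
        rw [one_smul]
      map_mul' := fun a b => by
        apply LinearMap.ext
        intro w
        apply Subtype.ext
        change ((a : H) * b) • (w : V) = (a : H) • (b : H) • (w : V)
        rw [mul_smul] }
  have hρ : ∀ (m : M) (w : W), ((ρ m w : W) : V) = (m : H) • (w : V) := fun _ _ => rfl
  have hinj : Function.Injective ρ := by
    rw [injective_iff_map_eq_one]
    intro m hm
    have h3 : ((⟨dl V (m : H), dl_mem M m.2⟩ : KA V M) - 1) = 0 := by
      refine eq_zero_of_simple hM hW ?_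
      intro w hw
      rw [sub_smul, one_smul, sub_eq_zero]
      have h4 := hρ m ⟨w, hw⟩
      rw [hm] at h4
      exact h4.symm
    rw [sub_eq_zero] at h3
    apply Subtype.ext
    apply FaithfulSMul.eq_of_smul_eq_smul (α := V)
    intro e
    rw [Subgroup.coe_one, one_smul]
    exact DFunLike.congr_fun (congrArg Subtype.val h3) e
  refine card_quot_le_aux ρ hinj fun m m' => ?_
  -- a central element of `M` acts as an endomorphism
  have hc := Subgroup.mem_center_iff.1 (h2 m m')
  set z : M := m * m' * m⁻¹ * m'⁻¹ with hz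
  have hcomm : ∀ r ∈ KA V M, r * dl V (z : H) = dl V (z : H) * r := by
    have hle : KA V M ≤ Subring.centralizer {dl V (z : H)} := by
      unfold KA
      rw [Subring.closure_le]
      rintro _ ⟨a, ha, rfl⟩
      rw [SetLike.mem_coe, Subring.mem_centralizer_iff]
      rintro _ rfl
      rw [← map_mul, ← map_mul]
      congr 1
      exact (congrArg Subtype.val (hc ⟨a, ha⟩)).symm
    intro r hr
    exact (Subring.mem_centralizer_iff.1 (hle hr) _ rfl).symm
  let d : (Module.End (KA V M) W :) :=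
    { toFun := fun w => (⟨dl V (z : H), dl_mem M z.2⟩ : KA V M) • w
      map_add' := fun a b => smul_add _ _ _
      map_smul' := fun r w => by
        rw [RingHom.id_apply, ← mul_smul, ← mul_smul]
        congr 1
        exact Subtype.ext (hcomm r r.2).symm }
  refine ⟨d, ?_⟩
  apply LinearMap.ext
  intro w
  rfl

end

end Cfsg.Agent.H112.Af
end

-- part: H112/Af/Kap
section
/-!
# S5731, AF3: the number of automorphisms induced on a normal subgroup of class two (helper112)
-/

set_option autoImplicit false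
set_option linter.unusedSectionVars false
set_option linter.style.haveILetI false

namespace Cfsg.Agent.H112.Af

open Cfsg.Agent.H717.FieldOf Cfsg.Agent.H192.Af

universe u v

/-! ### numbers -/

theorem cube_le {m : ℕ} (h : 10 ≤ m) : m ^ 3 ≤ 2 ^ m := by
  induction m, h using Nat.le_induction with
  | base => norm_num
  | succ m hm ih =>
    have h1 : (m + 1) ^ 3 ≤ 2 * m ^ 3 := by nlinarith only [Nat.mul_le_mul hm (Nat.mul_le_mul hm hm)]
    rw [pow_succ 2 m]
    omega

theorem exists_bound (k : ℕ) : ∃ N : ℕ, ∀ n c : ℕ, N ≤ n → c ≤ Nat.log 2 n ^ 2 →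
    (Nat.log 2 n * c ^ (2 * Nat.log 2 c)) ^ k ≤ n := by
  refine ⟨2 ^ (2 ^ (18 * k + 10)), fun n c hn hc => ?_⟩
  have hn0 : n ≠ 0 := by
    rintro rfl
    have : 0 < 2 ^ (2 ^ (18 * k + 10)) := by positivity
    omega
  set l := Nat.log 2 n with hl
  have hl1 : 2 ^ (18 * k + 10) ≤ l := by
    rw [hl]
    exact Nat.le_log_of_pow_le (by norm_num) hn
  have hl0 : l ≠ 0 := by
    have : 0 < 2 ^ (18 * k + 10) := by positivity
    omega
  have hln : 2 ^ l ≤ n := Nat.pow_log_le_self 2 hn0
  set t := Nat.log 2 l with ht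
  have ht1 : 18 * k + 10 ≤ t := by
    rw [ht]
    exact Nat.le_log_of_pow_le (by norm_num) hl1
  have htl : 2 ^ t ≤ l := Nat.pow_log_le_self 2 hl0
  have hlt : l ≤ 2 ^ (t + 1) := (Nat.lt_pow_succ_log_self (by norm_num) l).le
  have hc1 : c ≤ 2 ^ (2 * (t + 1)) := by
    refine hc.trans ?_
    rw [mul_comm 2, pow_mul]
    exact Nat.pow_le_pow_left hlt 2
  have hc2 : Nat.log 2 c ≤ 2 * (t + 1) := by
    calc Nat.log 2 c ≤ Nat.log 2 (2 ^ (2 * (t + 1))) := Nat.log_mono_right hc1
      _ = 2 * (t + 1) := Nat.log_pow (by norm_num) _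
  have h1 : l * c ^ (2 * Nat.log 2 c) ≤ 2 ^ (9 * (t + 1) ^ 2) := by
    calc l * c ^ (2 * Nat.log 2 c) ≤ 2 ^ (t + 1) * (2 ^ (2 * (t + 1))) ^ (2 * (2 * (t + 1))) := by
          refine Nat.mul_le_mul hlt ?_
          calc c ^ (2 * Nat.log 2 c) ≤ (2 ^ (2 * (t + 1))) ^ (2 * Nat.log 2 c) := Nat.pow_le_pow_left hc1 _
            _ ≤ _ := Nat.pow_le_pow_right (by positivity) (by omega)
      _ = 2 ^ (t + 1 + 2 * (t + 1) * (2 * (2 * (t + 1)))) := by rw [← pow_mul, ← pow_add]
      _ ≤ 2 ^ (9 * (t + 1) ^ 2) := by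
          refine Nat.pow_le_pow_right (by norm_num) ?_
          nlinarith only []
  have h2 : 9 * (t + 1) ^ 2 * k ≤ l := by
    have h3 := cube_le (m := t + 1) (by omega)
    have h4 : 18 * k * (t + 1) ^ 2 ≤ (t + 1) ^ 3 := by
      rw [pow_succ (t + 1) 2, mul_comm ((t + 1) ^ 2)]
      exact Nat.mul_le_mul_right _ (by omega)
    rw [pow_succ 2 t] at h3
    have h5 : 2 * (9 * (t + 1) ^ 2 * k) ≤ 2 * 2 ^ t := by
      calc 2 * (9 * (t + 1) ^ 2 * k) = 18 * k * (t + 1) ^ 2 := by ring
        _ ≤ 2 ^ t * 2 := h4.trans h3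
        _ = 2 * 2 ^ t := by ring
    omega
  calc (l * c ^ (2 * Nat.log 2 c)) ^ k ≤ (2 ^ (9 * (t + 1) ^ 2)) ^ k := Nat.pow_le_pow_left h1 k
    _ = 2 ^ (9 * (t + 1) ^ 2 * k) := by rw [← pow_mul]
    _ ≤ 2 ^ l := Nat.pow_le_pow_right (by norm_num) h2
    _ ≤ n := hln

/-! ### generators -/

theorem exists_gens (R : Type*) [Group R] [Finite R] :
    ∃ s : Finset R, Subgroup.closure (s : Set R) = ⊤ ∧ 2 ^ s.card ≤ Nat.card R := by
  classical
  have := Fintype.ofFinite R
  let P : Finset (Finset R) :=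
    Finset.univ.filter fun s => 2 ^ s.card ≤ Nat.card (Subgroup.closure (s : Set R))
  have h0 : P.Nonempty := by
    refine ⟨∅, ?_⟩
    rw [Finset.mem_filter]
    refine ⟨Finset.mem_univ _, ?_⟩
    simp
  obtain ⟨s, hs, hmax⟩ := Finset.exists_max_image P Finset.card h0
  rw [Finset.mem_filter] at hs
  refine ⟨s, ?_, hs.2.trans (Subgroup.card_le_card_group _)⟩
  by_contra hne
  obtain ⟨x, hx⟩ : ∃ x, x ∉ Subgroup.closure (s : Set R) := by
    by_contra hcon
    push Not at hcon
    exact hne (eq_top_iff.2 fun x _ => hcon x)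
  have hxs : x ∉ s := fun h => hx (Subgroup.subset_closure h)
  have h1 : insert x s ∈ P := by
    rw [Finset.mem_filter]
    refine ⟨Finset.mem_univ _, ?_⟩
    rw [Finset.card_insert_of_notMem hxs, pow_succ']
    have hle : Subgroup.closure (s : Set R) ≤ Subgroup.closure ((insert x s : Finset R) : Set R) := by
      apply Subgroup.closure_mono
      rw [Finset.coe_insert]
      exact Set.subset_insert _ _
    have hxm : x ∈ Subgroup.closure ((insert x s : Finset R) : Set R) :=
      Subgroup.subset_closure (by simp)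
    have h2 := Subgroup.card_dvd_of_le hle
    have h3 : Nat.card (Subgroup.closure (s : Set R)) ≠
        Nat.card (Subgroup.closure ((insert x s : Finset R) : Set R)) := by
      intro h
      have h4 := Subgroup.eq_of_le_of_card_ge hle h.ge
      exact hx (by rw [h4]; exact hxm)
    obtain ⟨c, hc⟩ := h2
    have h5 : 0 < Nat.card (Subgroup.closure (s : Set R)) := Nat.card_pos
    have h6 : 0 < Nat.card (Subgroup.closure ((insert x s : Finset R) : Set R)) := Nat.card_pos
    have h7 : 2 ≤ c := by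
      rcases c with _ | _ | c
      · omega
      · exact absurd (by rw [hc]; ring) h3
      · omega
    calc 2 * 2 ^ s.card ≤ c * Nat.card (Subgroup.closure (s : Set R)) := Nat.mul_le_mul h7 hs.2
      _ = _ := by rw [hc, mul_comm]
  have h2 := hmax _ h1
  rw [Finset.card_insert_of_notMem hxs] at h2
  omega

/-! ### group theory -/

section Grp

variable {H : Type v} [Group H] [Finite H]

/-- the number of elements with a given `r`-th power -/
theorem card_pow_eq_le {M : Type*} [Group M] [Finite M] {r : ℕ} (hr : 0 < r) (hcyc : IsCyclic (Subgroup.center M))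
    (x : M) : Nat.card {m : M // m ^ r = x} ≤ Nat.card (M ⧸ Subgroup.center M) * r := by
  classical
  have := Fintype.ofFinite (Subgroup.center M)
  let g : M ⧸ Subgroup.center M → M := fun q =>
    if h : ∃ m : M, m ^ r = x ∧ (m : M ⧸ Subgroup.center M) = q then h.choose else 1
  have hg : ∀ m : M, m ^ r = x → g m ^ r = x ∧ (g m : M ⧸ Subgroup.center M) = m := by
    intro m hm
    have h : ∃ m' : M, m' ^ r = x ∧ (m' : M ⧸ Subgroup.center M) = m := ⟨m, hm, rfl⟩
    have h1 : g m = h.choose := dif_pos h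
    rw [h1]
    exact h.choose_spec
  have hz : ∀ m : M, m ^ r = x → (g m)⁻¹ * m ∈ Subgroup.center M := fun m hm =>
    QuotientGroup.eq.1 (hg m hm).2
  have hzr : ∀ (m : M) (hm : m ^ r = x), (⟨(g m)⁻¹ * m, hz m hm⟩ : Subgroup.center M) ^ r = 1 := by
    intro m hm
    apply Subtype.ext
    change ((g m)⁻¹ * m) ^ r = 1
    have h1 := Subgroup.mem_center_iff.1 (hz m hm) (g m)
    have h2 : m ^ r = g m ^ r * ((g m)⁻¹ * m) ^ r := by
      have h3 : Commute (g m) ((g m)⁻¹ * m) := h1
      rw [← h3.mul_pow]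
      congr 1
      group
    rw [hm, (hg m hm).1] at h2
    exact (mul_eq_left.1 h2.symm)
  let φ : {m : M // m ^ r = x} → (M ⧸ Subgroup.center M) × {z : Subgroup.center M // z ^ r = 1} :=
    fun m => (m.1, ⟨⟨(g m.1)⁻¹ * m.1, hz m.1 m.2⟩, hzr m.1 m.2⟩)
  have hφ : Function.Injective φ := by
    intro m m' h
    have h1 : (m.1 : M ⧸ Subgroup.center M) = m'.1 := congrArg Prod.fst h
    have h2 : (g m.1)⁻¹ * m.1 = (g m'.1)⁻¹ * m'.1 :=
      congrArg (fun y => ((y.2 : {z : Subgroup.center M // z ^ r = 1}).1 : M)) h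
    rw [h1] at h2
    exact Subtype.ext (mul_left_cancel h2)
  refine (Nat.card_le_card_of_injective φ hφ).trans ?_
  rw [Nat.card_prod]
  refine Nat.mul_le_mul_left _ ?_
  have h3 := IsCyclic.card_pow_eq_one_le (α := Subgroup.center M) hr
  rw [Nat.card_eq_fintype_card, Fintype.card_subtype]
  exact h3

/-- the centraliser of `M` in the centraliser of `Z(M)` -/
theorem relIndex_le (M : Subgroup H) [M.Normal] {r : ℕ} (hr : 0 < r) (hcyc : IsCyclic (Subgroup.center M))
    (hpow : ∀ m : M, m ^ r ∈ Subgroup.center M) :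
    (Subgroup.centralizer (M : Set H)).relIndex
      (Subgroup.centralizer (((Subgroup.center M).map M.subtype : Subgroup H) : Set H)) ≤
      (Nat.card (M ⧸ Subgroup.center M) * r) ^ Nat.log 2 (Nat.card (M ⧸ Subgroup.center M)) := by
  classical
  set c := Nat.card (M ⧸ Subgroup.center M) with hc
  obtain ⟨s, hs, hsc⟩ := exists_gens (M ⧸ Subgroup.center M)
  set X := Subgroup.centralizer (((Subgroup.center M).map M.subtype : Subgroup H) : Set H) with hX
  let C := (Subgroup.centralizer (M : Set H)).subgroupOf X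
  let rep : M ⧸ Subgroup.center M → M := Quotient.out
  have hrep : ∀ q : M ⧸ Subgroup.center M, (rep q : M ⧸ Subgroup.center M) = q := fun q => QuotientGroup.out_eq' q
  have hXz : ∀ (h : X) (z : M), z ∈ Subgroup.center M → (h : H) * z * (h : H)⁻¹ = z := by
    intro h z hz
    have h1 := Subgroup.mem_centralizer_iff.1 h.2 (z : H) ⟨z, hz, rfl⟩
    rw [← h1, mul_inv_cancel_right]
  have hnm : ∀ (h : H) (m : M), h * m * h⁻¹ ∈ M := fun h m => Subgroup.Normal.conj_mem ‹_› _ m.2 h
  let f : X → (∀ t : s, {m : M // m ^ r = rep t ^ r}) := fun h t =>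
    ⟨⟨(h : H) * rep t * (h : H)⁻¹, hnm h _⟩, by
      apply Subtype.ext
      change ((h : H) * rep t * (h : H)⁻¹) ^ r = ((rep (t : M ⧸ Subgroup.center M) : M) : H) ^ r
      rw [conj_pow]
      exact hXz h _ (hpow (rep t))⟩
  have hf : ∀ h h' : X, f h = f h' → h⁻¹ * h' ∈ C := by
    intro h h' hh
    have h1 : ∀ t ∈ s, (h : H) * rep t * (h : H)⁻¹ = (h' : H) * rep t * (h' : H)⁻¹ := by
      intro t ht
      have h2 := congrFun hh ⟨t, ht⟩
      exact congrArg (fun y : {m : M // m ^ r = rep t ^ r} => ((y.1 : M) : H)) h2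
    -- the elements of `M` commuting with `g`
    set g : H := (h : H)⁻¹ * h' with hg
    have hgX : g ∈ X := X.mul_mem (X.inv_mem h.2) h'.2
    let K : Subgroup M := (Subgroup.centralizer {g}).subgroupOf M
    have hKmem : ∀ m : M, m ∈ K ↔ (m : H) * g = g * m := fun m => by
      rw [Subgroup.mem_subgroupOf, Subgroup.mem_centralizer_singleton_iff]
    have hKz : Subgroup.center M ≤ K := by
      intro z hz
      rw [hKmem]
      exact Subgroup.mem_centralizer_iff.1 hgX (z : H) ⟨z, hz, rfl⟩
    have hKt : ∀ t ∈ s, rep t ∈ K := by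
      intro t ht
      rw [hKmem, hg]
      have h3 := h1 t ht
      calc (rep t : H) * ((h : H)⁻¹ * h') = (h : H)⁻¹ * ((h : H) * rep t * (h : H)⁻¹) * h' := by group
        _ = (h : H)⁻¹ * ((h' : H) * rep t * (h' : H)⁻¹) * h' := by rw [h3]
        _ = (h : H)⁻¹ * h' * rep t := by group
    have hKtop : K = ⊤ := by
      have h4 : K.map (QuotientGroup.mk' (Subgroup.center M)) = ⊤ := by
        rw [eq_top_iff, ← hs, Subgroup.closure_le]
        intro t ht
        exact ⟨rep t, hKt t ht, hrep t⟩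
      have h5 : K = (K.map (QuotientGroup.mk' (Subgroup.center M))).comap (QuotientGroup.mk' (Subgroup.center M)) := by
        rw [Subgroup.comap_map_eq, QuotientGroup.ker_mk', sup_eq_left.2 hKz]
      rw [h5, h4, Subgroup.comap_top]
    rw [Subgroup.mem_subgroupOf, Subgroup.mem_centralizer_iff]
    intro m hm
    have h6 : (⟨m, hm⟩ : M) ∈ K := by rw [hKtop]; exact Subgroup.mem_top _
    exact (hKmem _).1 h6
  have h1 : (Subgroup.centralizer (M : Set H)).relIndex X ≤ Nat.card (∀ t : s, {m : M // m ^ r = rep t ^ r}) := by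
    change Nat.card (X ⧸ C) ≤ _
    refine Nat.card_le_card_of_injective (fun q : X ⧸ C => f q.out) ?_
    intro q q' hq
    have h3 := hf _ _ hq
    rw [← QuotientGroup.out_eq' q, ← QuotientGroup.out_eq' q']
    exact QuotientGroup.eq.2 h3
  refine h1.trans ?_
  rw [Nat.card_pi]
  calc ∏ t : s, Nat.card {m : M // m ^ r = rep t ^ r} ≤ ∏ _t : s, (c * r) :=
        Finset.prod_le_prod' fun t _ => card_pow_eq_le hr hcyc _
    _ = (c * r) ^ s.card := by rw [Finset.prod_const, Finset.card_univ, Fintype.card_coe]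
    _ ≤ (c * r) ^ Nat.log 2 c := by
        refine Nat.pow_le_pow_right ?_ (Nat.le_log_of_pow_le (by norm_num) hsc)
        exact Nat.mul_pos Nat.card_pos hr

end Grp

section Main

variable {V : Type u} [AddCommGroup V] [Finite V] {H : Type v} [Group H] [Finite H] [DistribMulAction H V]
  [FaithfulSMul H V]

theorem two_pow_finrank_le {D : Type*} [Field D] [Finite D] {W : Type*} [AddCommGroup W] [Module D W]
    [Module.Finite D W] : 2 ^ Module.finrank D W ≤ Nat.card W := by
  rw [Module.natCard_eq_pow_finrank (K := D)]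
  exact Nat.pow_le_pow_left (Finite.one_lt_card) _

theorem finrank_le (M : Subgroup H) (W : (Submodule (KA V M) V :))
    (hW : IsSimpleModule (KA V M) W) :
    Module.finrank ((Module.End (KA V M) W :)) W ≤ Nat.log 2 (Nat.card V) := by
  classical
  have hfD : (Finite ((Module.End (KA V M) W :)) :) :=
    Finite.of_injective (fun f : Module.End (KA V M) W => (f : W → W)) DFunLike.coe_injective
  have hWn : Nontrivial W := IsSimpleModule.nontrivial (KA V M) W
  letI hDiv : (DivisionRing ((Module.End (KA V M) W :)) :) := (Module.End.instDivisionRing : _)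
  letI hF : (Field ((Module.End (KA V M) W :)) :) := littleWedderburn (Module.End (KA V M) W)
  letI hMod : (@Module ((Module.End (KA V M) W :)) W hF.toSemiring _ :) := Module.End.applyModule
  have hfin : (Module.Finite ((Module.End (KA V M) W :)) W :) := inferInstance
  have h1 : 2 ^ Module.finrank ((Module.End (KA V M) W :)) W ≤ Nat.card W := two_pow_finrank_le
  have h2 : Nat.card W ≤ Nat.card V := Nat.card_le_card_of_injective _ (Subtype.coe_injective)
  exact Nat.le_log_of_pow_le (by norm_num) (h1.trans h2)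

/-- the bound -/
theorem index_le {p : ℕ} (hp : p.Prime) [Nontrivial V] (hpV : ∀ w : V, p • w = 0) (M : Subgroup H) [M.Normal]
    (hom : ∀ K : Subgroup H, K.Normal → Homog V K) {r : ℕ} (hr : r.Prime)
    (hM : ∀ m : M, m ^ r ∈ Subgroup.center M ∧ ∀ m' : M, m * m' * m⁻¹ * m'⁻¹ ∈ Subgroup.center M) :
    (Subgroup.centralizer (M : Set H)).index ≤ Nat.log 2 (Nat.card V) *
      Nat.card (M ⧸ Subgroup.center M) ^ (2 * Nat.log 2 (Nat.card (M ⧸ Subgroup.center M))) := by
  set Z : Subgroup H := (Subgroup.center M).map M.subtype with hZ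
  have hZn : Z.Normal := ConjAct.normal_of_characteristic_of_normal
  have hZc : IsMulCommutative Z := by
    refine ⟨⟨?_⟩⟩
    rintro ⟨_, a, ha, rfl⟩ ⟨_, b, hb, rfl⟩
    apply Subtype.ext
    change (a : H) * b = b * a
    exact congrArg (fun x : M => (x : H)) (Subgroup.mem_center_iff.1 hb a)
  have hcyc' : IsCyclic Z := cyclic_of_homog (hom Z hZn) hZc
  have hcyc : IsCyclic (Subgroup.center M) :=
    isCyclic_of_surjective
      ((Subgroup.center M).equivMapOfInjective M.subtype M.subtype_injective).symm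
      (MulEquiv.surjective _)
  have h1 := index_centralizer_le hp hpV Z (hom Z hZn) hZc
  have h2 := relIndex_le M hr.pos hcyc (fun m => (hM m).1)
  set c := Nat.card (M ⧸ Subgroup.center M) with hc
  have hle : Subgroup.centralizer (M : Set H) ≤ Subgroup.centralizer (Z : Set H) := by
    apply Subgroup.centralizer_le
    rintro _ ⟨a, -, rfl⟩
    exact a.2
  rw [← Subgroup.relIndex_mul_index hle, mul_comm]
  refine Nat.mul_le_mul h1 (h2.trans ?_)
  by_cases hc1 : c ≤ 1
  · have h3 : Nat.log 2 c = 0 := Nat.log_of_lt (by omega)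
    rw [h3, pow_zero, mul_zero, pow_zero]
  · have h3 : r ≤ c := by
      have : Nontrivial (M ⧸ Subgroup.center M) := by
        rw [← Finite.one_lt_card_iff_nontrivial]
        omega
      obtain ⟨x, hx⟩ := exists_ne (1 : M ⧸ Subgroup.center M)
      obtain ⟨m, rfl⟩ := QuotientGroup.mk_surjective x
      have h4 : ((m : M ⧸ Subgroup.center M)) ^ r = 1 := by
        rw [← QuotientGroup.mk_pow]
        exact (QuotientGroup.eq_one_iff _).2 (hM m).1
      have h5 := orderOf_eq_prime h4 hx (hp := ⟨hr⟩)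
      have h6 : orderOf (m : M ⧸ Subgroup.center M) ∣ Nat.card (M ⧸ Subgroup.center M) := orderOf_dvd_natCard _
      rw [h5] at h6
      exact Nat.le_of_dvd Nat.card_pos h6
    calc (c * r) ^ Nat.log 2 c ≤ (c * c) ^ Nat.log 2 c := Nat.pow_le_pow_left (Nat.mul_le_mul_left _ h3) _
      _ = c ^ (2 * Nat.log 2 c) := by rw [← pow_two, ← pow_mul]

end Main

/-- **AF3: class two.** -/
theorem kap_class_two (k : ℕ) : ∃ N : ℕ, ∀ (p : ℕ) (V : Type u) [AddCommGroup V] [Finite V] (H : Type v) [Group H]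
    [Finite H] [DistribMulAction H V] [FaithfulSMul H V] (M : Subgroup H) [M.Normal] (r : ℕ), p.Prime →
    (∀ w : V, p • w = 0) → (∀ K : Subgroup H, K.Normal → Homog V K) → N ≤ Nat.card V → r.Prime →
    (∀ m : M, m ^ r ∈ Subgroup.center M ∧ ∀ m' : M, m * m' * m⁻¹ * m'⁻¹ ∈ Subgroup.center M) →
    (Subgroup.centralizer (M : Set H)).index ^ k ≤ Nat.card V := by
  obtain ⟨N, hN⟩ := exists_bound k
  refine ⟨max N 2, ?_⟩
  intro p V _ _ H _ _ _ _ M _ r hp hpV hom hcard hr hM
  have hV : Nontrivial V := by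
    rw [← Finite.one_lt_card_iff_nontrivial]
    omega
  have h1 := index_le hp hpV M hom hr hM
  have hss := (hom M inferInstance).1
  obtain ⟨W, hW⟩ := IsSemisimpleModule.exists_simple_submodule (KA V M) V
  have h2 := card_quot_le M (hom M inferInstance) (fun m m' => (hM m).2 m') W hW
  have h3 := finrank_le M W hW
  have h4 : Nat.card (M ⧸ Subgroup.center M) ≤ Nat.log 2 (Nat.card V) ^ 2 :=
    h2.trans (Nat.pow_le_pow_left h3 2)
  exact (Nat.pow_le_pow_left h1 k).trans (hN _ _ ((le_max_left _ _).trans hcard) h4)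

end Cfsg.Agent.H112.Af
end

-- part: H383/Kap/Factors
section
/-!
# Perfect central extensions of `T ^ s` (helper383, S5731 AF4)

`G` perfect, `π : G → T ^ s` surjective with kernel `Z(G)`.

* `Li π i` : the derived group of the preimage of the `i`-th factor;
* `Li_comm` : it commutes with the preimages of the other factors;
* `iSup_Li` : these groups generate `G`;
* `perfect_Li`, `center_Li`, `equivLi` : `L_i` is perfect, `Z(L_i) = L_i ∩ Z(G)`, `L_i / Z(L_i) ≃ T`.
-/

set_option autoImplicit false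

open scoped commutatorElement

namespace Cfsg.Agent.H383.Kap

open Subgroup

universe v w

section

variable {G : Type v} [Group G] {T : Type w} [Group T] {s : ℕ}

/-- the preimage of the `i`-th factor -/
def Mi (π : G →* (Fin s → T)) (i : Fin s) : Subgroup G where
  carrier := {g | ∀ j, j ≠ i → π g j = 1}
  one_mem' := by
    intro j _
    rw [map_one]
    rfl
  mul_mem' := by
    intro a b ha hb j hj
    rw [map_mul, Pi.mul_apply, ha j hj, hb j hj, one_mul]
  inv_mem' := by
    intro a ha j hj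
    rw [map_inv, Pi.inv_apply, ha j hj, inv_one]

/-- the `i`-th factor -/
def Li (π : G →* (Fin s → T)) (i : Fin s) : Subgroup G := ⁅Mi π i, Mi π i⁆

theorem Li_le (π : G →* (Fin s → T)) (i : Fin s) : Li π i ≤ Mi π i := by
  unfold Li
  rw [commutator_le]
  intro a ha b hb
  exact (Mi π i).mul_mem ((Mi π i).mul_mem ((Mi π i).mul_mem ha hb) ((Mi π i).inv_mem ha)) ((Mi π i).inv_mem hb)

variable {π : G →* (Fin s → T)} (hπ : Function.Surjective π) (hk : π.ker = center G)

include hk in
theorem comm_le {i j : Fin s} (hij : i ≠ j) : ⁅Mi π i, Mi π j⁆ ≤ center G := by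
  rw [commutator_le, ← hk]
  intro a ha b hb
  rw [MonoidHom.mem_ker, map_commutatorElement]
  funext l
  rw [commutatorElement_def]
  simp only [Pi.mul_apply, Pi.inv_apply, Pi.one_apply]
  by_cases hl : l = i
  · subst hl
    rw [hb l hij]
    group
  · rw [ha l hl]
    group

include hk in
theorem Li_comm {i j : Fin s} (hij : i ≠ j) {a b : G} (ha : a ∈ Li π i) (hb : b ∈ Mi π j) : a * b = b * a := by
  have hz : ∀ K : Subgroup G, ⁅center G, K⁆ = ⊥ := by
    intro K
    rw [eq_bot_iff, commutator_le]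
    intro x hx y _
    rw [mem_bot, commutatorElement_eq_one_iff_mul_comm]
    exact (mem_center_iff.1 hx y).symm
  have h1 : ⁅⁅Mi π i, Mi π j⁆, Mi π i⁆ = ⊥ := by
    rw [eq_bot_iff, ← hz (Mi π i)]
    exact commutator_mono (comm_le hk hij) le_rfl
  have h2 : ⁅⁅Mi π j, Mi π i⁆, Mi π i⁆ = ⊥ := by
    rw [commutator_comm (Mi π j) (Mi π i)]
    exact h1
  have h3 : ⁅⁅Mi π i, Mi π i⁆, Mi π j⁆ = ⊥ := commutator_commutator_eq_bot_of_rotate h1 h2
  have h4 : ⁅a, b⁆ ∈ ⁅⁅Mi π i, Mi π i⁆, Mi π j⁆ := commutator_mem_commutator ha hb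
  rw [h3, mem_bot, commutatorElement_eq_one_iff_mul_comm] at h4
  exact h4

include hπ in
/-- `L_i` maps onto the `i`-th factor -/
theorem exists_Li (hT : commutator T = ⊤) (i : Fin s) (t : T) : ∃ g ∈ Li π i, π g = Pi.mulSingle i t := by
  classical
  set ι : T →* (Fin s → T) := MonoidHom.mulSingle (fun _ => T) i with hι
  have h1 : ι.range ≤ (Mi π i).map π := by
    rintro _ ⟨t, rfl⟩
    obtain ⟨g, hg⟩ := hπ (ι t)
    refine ⟨g, ?_, hg⟩
    intro j hj
    rw [hg, hι, MonoidHom.mulSingle_apply, Pi.mulSingle_eq_of_ne hj]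
  have h2 : ι.range ≤ (Li π i).map π := by
    have h3 : (Li π i).map π = ⁅(Mi π i).map π, (Mi π i).map π⁆ := map_commutator _ _ _
    rw [h3]
    refine le_trans ?_ (commutator_mono h1 h1)
    rw [MonoidHom.range_eq_map, ← map_commutator]
    apply map_mono
    rw [← _root_.commutator_def T, hT]
  obtain ⟨g, hg, hgt⟩ := h2 ⟨t, rfl⟩
  exact ⟨g, hg, hgt⟩

include hπ hk in
theorem iSup_Li (hG : commutator G = ⊤) (hT : commutator T = ⊤) : ⨆ i, Li π i = ⊤ := by
  classical
  set K : Subgroup G := ⨆ i, Li π i with hK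
  have h1 : ∀ x : Fin s → T, x ∈ K.map π := by
    intro x
    refine pi_mem_of_mulSingle_mem x fun i => ?_
    obtain ⟨g, hg, hgt⟩ := exists_Li hπ hT i (x i)
    exact ⟨g, (le_iSup (Li π) i) hg, hgt⟩
  have h2 : ∀ g : G, ∃ k ∈ K, ∃ z ∈ center G, g = k * z := by
    intro g
    obtain ⟨k, hk1, hk2⟩ := h1 (π g)
    refine ⟨k, hk1, k⁻¹ * g, ?_, by group⟩
    rw [← hk, MonoidHom.mem_ker, map_mul, map_inv, hk2, inv_mul_cancel]
  rw [eq_top_iff, ← hG, commutator_def, commutator_le]
  intro a _ b _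
  obtain ⟨k, hk1, z, hz, rfl⟩ := h2 a
  obtain ⟨l, hl1, y, hy, rfl⟩ := h2 b
  have h3 : ⁅k * z, l * y⁆ = ⁅k, l⁆ := by
    have hz' := mem_center_iff.1 hz
    have hy' := mem_center_iff.1 hy
    simp only [commutatorElement_def, mul_inv_rev]
    calc k * z * (l * y) * (z⁻¹ * k⁻¹) * (y⁻¹ * l⁻¹) = k * (z * (l * y)) * z⁻¹ * k⁻¹ * y⁻¹ * l⁻¹ := by group
      _ = k * ((l * y) * z) * z⁻¹ * k⁻¹ * y⁻¹ * l⁻¹ := by rw [← hz' (l * y)]
      _ = k * l * (y * k⁻¹) * y⁻¹ * l⁻¹ := by group
      _ = k * l * (k⁻¹ * y) * y⁻¹ * l⁻¹ := by rw [← hy' k⁻¹]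
      _ = k * l * k⁻¹ * l⁻¹ := by group
  rw [h3]
  exact K.mul_mem (K.mul_mem (K.mul_mem hk1 hl1) (K.inv_mem hk1)) (K.inv_mem hl1)

include hπ hk in
/-- `L_i` is perfect -/
theorem Li_eq (hT : commutator T = ⊤) (i : Fin s) : ⁅Li π i, Li π i⁆ = Li π i := by
  classical
  apply le_antisymm
  · rw [commutator_le]
    intro a ha b hb
    exact (Li π i).mul_mem ((Li π i).mul_mem ((Li π i).mul_mem ha hb) ((Li π i).inv_mem ha)) ((Li π i).inv_mem hb)
  · conv_lhs => unfold Li
    rw [commutator_le]
    have h2 : ∀ g ∈ Mi π i, ∃ k ∈ Li π i, ∃ z ∈ center G, g = k * z := by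
      intro g hg
      obtain ⟨k, hk1, hk2⟩ := exists_Li hπ hT i (π g i)
      refine ⟨k, hk1, k⁻¹ * g, ?_, by group⟩
      rw [← hk, MonoidHom.mem_ker, map_mul, map_inv, hk2, inv_mul_eq_one]
      funext j
      by_cases hj : j = i
      · subst hj
        rw [Pi.mulSingle_eq_same]
      · rw [Pi.mulSingle_eq_of_ne hj, hg j hj]
    intro a ha b hb
    obtain ⟨k, hk1, z, hz, rfl⟩ := h2 a ha
    obtain ⟨l, hl1, y, hy, rfl⟩ := h2 b hb
    have h3 : ⁅k * z, l * y⁆ = ⁅k, l⁆ := by
      have hz' := mem_center_iff.1 hz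
      have hy' := mem_center_iff.1 hy
      simp only [commutatorElement_def, mul_inv_rev]
      calc k * z * (l * y) * (z⁻¹ * k⁻¹) * (y⁻¹ * l⁻¹) = k * (z * (l * y)) * z⁻¹ * k⁻¹ * y⁻¹ * l⁻¹ := by group
        _ = k * ((l * y) * z) * z⁻¹ * k⁻¹ * y⁻¹ * l⁻¹ := by rw [← hz' (l * y)]
        _ = k * l * (y * k⁻¹) * y⁻¹ * l⁻¹ := by group
        _ = k * l * (k⁻¹ * y) * y⁻¹ * l⁻¹ := by rw [← hy' k⁻¹]
        _ = k * l * k⁻¹ * l⁻¹ := by group
    rw [h3]
    exact commutator_mem_commutator hk1 hl1

include hπ hk in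
theorem perfect_Li (hT : commutator T = ⊤) (i : Fin s) : commutator ↥(Li π i) = ⊤ := by
  have h1 := map_subtype_commutator (Li π i)
  rw [Li_eq hπ hk hT i] at h1
  rw [eq_top_iff]
  intro x _
  have h2 : (x : G) ∈ (commutator ↥(Li π i)).map (Li π i).subtype := by
    rw [h1]
    exact x.2
  obtain ⟨y, hy, hyx⟩ := h2
  have h3 : y = x := Subtype.ext hyx
  rwa [← h3]

include hπ hk in
/-- the centre of `L_i` is central in `G` -/
theorem mem_center_of (hG : commutator G = ⊤) (hT : commutator T = ⊤) {i : Fin s} {x : G} (hx : x ∈ Li π i)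
    (h : ∀ y ∈ Li π i, y * x = x * y) : x ∈ center G := by
  have h1 : ⨆ j, Li π j ≤ centralizer ({x} : Set G) := by
    refine iSup_le fun j => ?_
    intro y hy
    rw [mem_centralizer_singleton_iff]
    by_cases hj : j = i
    · subst hj
      exact h y hy
    · exact Li_comm hk hj hy (Li_le π i hx)
  rw [iSup_Li hπ hk hG hT] at h1
  rw [mem_center_iff]
  intro g
  exact mem_centralizer_singleton_iff.1 (h1 (mem_top g))

/-- the projection of `L_i` onto `T` -/
def prL (π : G →* (Fin s → T)) (i : Fin s) : ↥(Li π i) →* T :=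
  ((Pi.evalMonoidHom (fun _ => T) i).comp π).comp (Li π i).subtype

theorem prL_apply (i : Fin s) (x : ↥(Li π i)) : prL π i x = π (x : G) i := rfl

include hπ in
theorem prL_surjective (hT : commutator T = ⊤) (i : Fin s) : Function.Surjective (prL π i) := by
  classical
  intro t
  obtain ⟨g, hg, hgt⟩ := exists_Li hπ hT i t
  refine ⟨⟨g, hg⟩, ?_⟩
  rw [prL_apply]
  change π g i = t
  rw [hgt, Pi.mulSingle_eq_same]

include hπ hk in
theorem prL_ker (hG : commutator G = ⊤) (hT : commutator T = ⊤) (i : Fin s) :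
    (prL π i).ker = center ↥(Li π i) := by
  ext x
  rw [MonoidHom.mem_ker, prL_apply, mem_center_iff]
  constructor
  · intro h y
    have h1 : (x : G) ∈ center G := by
      rw [← hk, MonoidHom.mem_ker]
      funext j
      by_cases hj : j = i
      · subst hj
        exact h
      · exact Li_le π i x.2 j hj
    exact Subtype.ext (mem_center_iff.1 h1 y)
  · intro h
    have h1 : (x : G) ∈ center G := mem_center_of hπ hk hG hT x.2 fun y hy => congrArg Subtype.val (h ⟨y, hy⟩)
    rw [← hk, MonoidHom.mem_ker] at h1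
    rw [h1]
    rfl

/-- `L_i / Z(L_i) ≃ T` -/
noncomputable def equivLi (hπ : Function.Surjective π) (hk : π.ker = center G) (hG : commutator G = ⊤)
    (hT : commutator T = ⊤) (i : Fin s) : ↥(Li π i) ⧸ center ↥(Li π i) ≃* T :=
  (QuotientGroup.quotientMulEquivOfEq (prL_ker hπ hk hG hT i)).symm.trans
    (QuotientGroup.quotientKerEquivOfSurjective (prL π i) (prL_surjective hπ hT i))

theorem equivLi_mk (hG : commutator G = ⊤) (hT : commutator T = ⊤) (i : Fin s) (x : ↥(Li π i)) :
    equivLi hπ hk hG hT i (x : ↥(Li π i) ⧸ center ↥(Li π i)) = π (x : G) i := rfl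

end

/-! ### Automorphisms of `T ^ s` -/

section aut

variable {T : Type w} [Group T] [Finite T] [IsSimpleGroup T] {s : ℕ}

/-- the number of automorphisms of `T ^ s` fixing `t` -/
theorem card_fix_le (hT : ¬ IsMulCommutative T) (t : Fin s → T) :
    Nat.card {α : MulAut (Fin s → T) // α t = t} ≤
      s.factorial * ∏ i, Nat.card {a : MulAut T // a (t i) = t i} := by
  classical
  have hfin : Finite (MulAut T) := Finite.of_injective (fun f : MulAut T => (f : T → T)) DFunLike.coe_injective
  choose σ φ hφ using fun α : MulAut (Fin s → T) => H936.AutPow.exists_form hT α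
  -- representatives
  have hc : ∀ i j : Fin s, ∃ c : MulAut T, (∃ a : MulAut T, a (t i) = t j) → c (t i) = t j := by
    intro i j
    by_cases h : ∃ a : MulAut T, a (t i) = t j
    · obtain ⟨a, ha⟩ := h
      exact ⟨a, fun _ => ha⟩
    · exact ⟨1, fun h' => absurd h' h⟩
  choose c hc using hc
  have hmem : ∀ (α : {α : MulAut (Fin s → T) // α t = t}) (i : Fin s),
      ((c i (σ α.1 i))⁻¹ * φ α.1 i) (t i) = t i := by
    rintro ⟨α, hα⟩ i
    have h1 : φ α i (t i) = t (σ α i) := by
      rw [← hφ α t i, hα]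
    have h2 := hc i (σ α i) ⟨φ α i, h1⟩
    rw [MulAut.mul_apply, h1, ← h2, MulAut.inv_apply_self]
  let f : {α : MulAut (Fin s → T) // α t = t} → Equiv.Perm (Fin s) × (∀ i, {a : MulAut T // a (t i) = t i}) :=
    fun α => (σ α.1, fun i => ⟨(c i (σ α.1 i))⁻¹ * φ α.1 i, hmem α i⟩)
  have hf : Function.Injective f := by
    rintro ⟨α, hα⟩ ⟨β, hβ⟩ hαβ
    have h1 : σ α = σ β := congrArg Prod.fst hαβ
    have h2 : ∀ i, φ α i = φ β i := by
      intro i
      have h3 := congrArg Subtype.val (congrFun (congrArg Prod.snd hαβ) i)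
      change (c i (σ α i))⁻¹ * φ α i = (c i (σ β i))⁻¹ * φ β i at h3
      rw [h1] at h3
      exact mul_left_cancel h3
    apply Subtype.ext
    ext x j
    obtain ⟨i, rfl⟩ := (σ α).surjective j
    change α x (σ α i) = β x (σ α i)
    rw [hφ α x i, h1, hφ β x i, h2]
  have h := Nat.card_le_card_of_injective f hf
  rw [Nat.card_prod, Nat.card_pi, Nat.card_perm, Nat.card_fin] at h
  exact h

end aut

end Cfsg.Agent.H383.Kap
end

-- part: H383/Kap/Double
section
/-!
# Commuting perfect groups of automorphisms: the order of the module doubles its exponent (helper383, S5731 AF4)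

* `Irr L U` : `U` is a minimal nonzero `L`-invariant subgroup;
* `comm_of_irr` : Schur's lemma and Wedderburn's theorem;
* `double` : `P`, `C` commute, `C` perfect and nontrivial on the irreducible `P C`-module `U`: `|U₁| ^ 2 ≤ |U|` for the
  irreducible `P`-submodules;
* `chain` : several commuting perfect groups.
-/

set_option autoImplicit false

open scoped commutatorElement

namespace Cfsg.Agent.H383.Kap

open Subgroup

universe u v

section

variable {V : Type u} [AddCommGroup V] {H : Type v} [Group H] [DistribMulAction H V]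

/-- `U` is invariant under `L` -/
def Inv (L : Subgroup H) (U : AddSubgroup V) : Prop := ∀ h ∈ L, ∀ w ∈ U, h • w ∈ U

/-- `U` is an irreducible `L`-module -/
structure Irr (L : Subgroup H) (U : AddSubgroup V) : Prop where
  ne : U ≠ ⊥
  inv : Inv L U
  min : ∀ U' : AddSubgroup V, U' ≤ U → Inv L U' → U' ≠ ⊥ → U' = U

theorem Inv.mono {L L' : Subgroup H} {U : AddSubgroup V} (h : Inv L U) (hle : L' ≤ L) : Inv L' U :=
  fun a ha => h a (hle ha)

/-- the stabilizer of a subgroup -/
def St (H : Type v) [Group H] [DistribMulAction H V] (U : AddSubgroup V) : Subgroup H where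
  carrier := {h | ∀ w, h • w ∈ U ↔ w ∈ U}
  one_mem' := by intro w; rw [one_smul]
  mul_mem' := by
    intro a b ha hb w
    rw [mul_smul, ha, hb]
  inv_mem' := by
    intro a ha w
    have h1 := ha (a⁻¹ • w)
    rw [smul_inv_smul] at h1
    exact h1.symm

theorem inv_iff {L : Subgroup H} {U : AddSubgroup V} : Inv L U ↔ L ≤ St H U := by
  constructor
  · intro h a ha w
    constructor
    · intro hw
      have h1 := h a⁻¹ (L.inv_mem ha) _ hw
      rwa [inv_smul_smul] at h1
    · exact h a ha w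
  · intro h a ha w hw
    exact (h ha w).2 hw

theorem Inv.sup {L L' : Subgroup H} {U : AddSubgroup V} (h : Inv L U) (h' : Inv L' U) : Inv (L ⊔ L') U := by
  rw [inv_iff] at h h' ⊢
  exact sup_le h h'

theorem exists_irr [Finite V] (L : Subgroup H) {U : AddSubgroup V} (hne : U ≠ ⊥) (hinv : Inv L U) :
    ∃ U' ≤ U, Irr L U' := by
  have key : ∀ (n : ℕ) (U : AddSubgroup V), Nat.card U = n → U ≠ ⊥ → Inv L U → ∃ U' ≤ U, Irr L U' := by
    intro n
    induction n using Nat.strong_induction_on with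
    | _ n ih =>
      intro U hn hne hinv
      by_cases h : ∀ U' : AddSubgroup V, U' ≤ U → Inv L U' → U' ≠ ⊥ → U' = U
      · exact ⟨U, le_rfl, hne, hinv, h⟩
      · push Not at h
        obtain ⟨U', hle, hinv', hne', hneq⟩ := h
        have hlt : Nat.card U' < n := by
          rw [← hn]
          refine lt_of_le_of_ne (AddSubgroup.card_le_of_le hle) fun h => hneq ?_
          exact AddSubgroup.eq_of_le_of_card_ge hle h.ge
        obtain ⟨U'', hle', hI⟩ := ih _ hlt U' rfl hne' hinv'
        exact ⟨U'', hle'.trans hle, hI⟩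
  exact key _ U rfl hne hinv

/-- **Schur and Wedderburn**: the automorphisms commuting with an irreducible group commute. -/
theorem comm_of_irr [Finite V] {P : Subgroup H} {U : AddSubgroup V} (hU : Irr P U) {c d : H}
    (hc : ∀ a ∈ P, a * c = c * a) (hd : ∀ a ∈ P, a * d = d * a) (hcU : ∀ w ∈ U, c • w ∈ U)
    (hdU : ∀ w ∈ U, d • w ∈ U) : ∀ w ∈ U, c • d • w = d • c • w := by
  classical
  let D : Subring (AddMonoid.End U) :=
    { carrier := {f | ∀ (l : H) (hl : l ∈ P) (u : U),
        ((f ⟨l • (u : V), hU.inv l hl u u.2⟩ : U) : V) = l • ((f u : U) : V)}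
      one_mem' := fun l hl u => rfl
      mul_mem' := by
        intro f g hf hg l hl u
        have h1 : (g ⟨l • (u : V), hU.inv l hl u u.2⟩ : U) = ⟨l • ((g u : U) : V), hU.inv l hl _ (g u).2⟩ :=
          Subtype.ext (hg l hl u)
        change ((f (g ⟨l • (u : V), hU.inv l hl u u.2⟩) : U) : V) = l • ((f (g u) : U) : V)
        rw [h1, hf l hl (g u)]
      zero_mem' := by
        intro l hl u
        change ((0 : U) : V) = l • ((0 : U) : V)
        rw [AddSubgroup.coe_zero, smul_zero]
      add_mem' := by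
        intro f g hf hg l hl u
        change ((f ⟨l • (u : V), hU.inv l hl u u.2⟩ + g ⟨l • (u : V), hU.inv l hl u u.2⟩ : U) : V) =
          l • ((f u + g u : U) : V)
        rw [AddSubgroup.coe_add, AddSubgroup.coe_add, hf l hl u, hg l hl u, smul_add]
      neg_mem' := by
        intro f hf l hl u
        change ((-(f ⟨l • (u : V), hU.inv l hl u u.2⟩) : U) : V) = l • ((-(f u) : U) : V)
        rw [AddSubgroup.coe_neg, AddSubgroup.coe_neg, hf l hl u, smul_neg] }
  have hD : ∀ f : D, ∀ (l : H) (hl : l ∈ P) (u : U),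
        (((f : AddMonoid.End U) ⟨l • (u : V), hU.inv l hl u u.2⟩ : U) : V) = l • (((f : AddMonoid.End U) u : U) : V) :=
    fun f => f.2
  -- a nonzero element is injective
  have hinj : ∀ f : D, ∀ u : U, u ≠ 0 → (f : AddMonoid.End U) u = 0 → f = 0 := by
    intro f u hu hfu
    let K : AddSubgroup V := ((f : AddMonoid.End U).ker).map U.subtype
    have hK : K = U := by
      refine hU.min K ?_ ?_ ?_
      · rintro _ ⟨x, -, rfl⟩
        exact x.2
      · rintro l hl _ ⟨x, hx, rfl⟩
        refine ⟨⟨l • (x : V), hU.inv l hl x x.2⟩, ?_, rfl⟩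
        have hx' : (f : AddMonoid.End U) x = 0 := hx
        change (f : AddMonoid.End U) ⟨l • (x : V), hU.inv l hl x x.2⟩ = 0
        apply Subtype.ext
        rw [hD f l hl x, hx', AddSubgroup.coe_zero, smul_zero]
      · intro h
        have h1 : (u : V) ∈ K := ⟨u, hfu, rfl⟩
        rw [h, AddSubgroup.mem_bot] at h1
        exact hu (Subtype.ext h1)
    apply Subtype.ext
    refine AddMonoidHom.ext fun x => ?_
    have h1 : (x : V) ∈ K := by rw [hK]; exact x.2
    obtain ⟨x', hx', hxx⟩ := h1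
    have h2 : x' = x := Subtype.ext hxx
    rw [← h2]
    exact hx'
  have hfin : Finite (AddMonoid.End U) :=
    Finite.of_injective (fun f : AddMonoid.End U => (f : U → U)) DFunLike.coe_injective
  obtain ⟨u0, hu0, hu0'⟩ : ∃ u0 ∈ U, u0 ≠ 0 := by
    by_contra hcon
    push Not at hcon
    exact hU.ne ((AddSubgroup.eq_bot_iff_forall U).2 hcon)
  have hnt : Nontrivial D := ⟨⟨0, 1, by
    intro h
    have h2 : (0 : AddMonoid.End U) = 1 := congrArg Subtype.val h
    have h3 := DFunLike.congr_fun h2 ⟨u0, hu0⟩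
    exact hu0' (congrArg Subtype.val h3).symm⟩⟩
  have hnz : NoZeroDivisors D := ⟨by
    intro a b hab
    by_contra hne
    rw [not_or] at hne
    have hb : ∃ y : U, (b : AddMonoid.End U) y ≠ 0 := by
      by_contra hcon
      push Not at hcon
      exact hne.2 (Subtype.ext (AddMonoidHom.ext hcon))
    obtain ⟨y, hy⟩ := hb
    have h4 : (a : AddMonoid.End U) ((b : AddMonoid.End U) y) = 0 := by
      have := congrArg (fun r : D => (r : AddMonoid.End U) y) hab
      exact this
    exact hne.1 (hinj a _ hy h4)⟩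
  have hdom : IsDomain D := NoZeroDivisors.to_isDomain D
  have hfield := Finite.isDomain_to_isField D
  -- the endomorphisms
  have mk : ∀ (c : H) (hc : ∀ a ∈ P, a * c = c * a) (hcU : ∀ w ∈ U, c • w ∈ U),
      ∃ f : D, ∀ u : U, (((f : AddMonoid.End U) u : U) : V) = c • (u : V) := by
    intro c hc hcU
    refine ⟨⟨{ toFun := fun u => ⟨c • (u : V), hcU u u.2⟩
               map_zero' := Subtype.ext (smul_zero c)
               map_add' := fun a b => Subtype.ext (smul_add c (a : V) (b : V)) }, ?_⟩, fun u => rfl⟩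
    intro l hl u
    change c • (l • (u : V)) = l • (c • (u : V))
    rw [smul_smul, smul_smul, hc l hl]
  obtain ⟨f, hf⟩ := mk c hc hcU
  obtain ⟨g, hg⟩ := mk d hd hdU
  intro w hw
  have h1 := hfield.mul_comm f g
  have h2 := congrArg (fun r : D => (((r : AddMonoid.End U) ⟨w, hw⟩ : U) : V)) h1
  have h3 : (((f : AddMonoid.End U) ((g : AddMonoid.End U) ⟨w, hw⟩) : U) : V) =
      (((g : AddMonoid.End U) ((f : AddMonoid.End U) ⟨w, hw⟩) : U) : V) := h2
  rw [hf, hg, hg, hf] at h3
  exact h3

/-- **Doubling.** -/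
theorem double [Finite V] {P C : Subgroup H} (hPC : ∀ a ∈ P, ∀ b ∈ C, a * b = b * a) (hC : ⁅C, C⁆ = C)
    {U U1 : AddSubgroup V} (hU : Irr (P ⊔ C) U) (h1 : Irr P U1) (hle : U1 ≤ U)
    (hnt : ∃ c ∈ C, ∃ u ∈ U, c • u ≠ u) :
    Nat.card U1 ^ 2 ≤ Nat.card U ∧ ∀ l ∈ P, (∀ u ∈ U1, l • u = u) → ∀ u ∈ U, l • u = u := by
  classical
  have hUC : Inv C U := hU.inv.mono le_sup_right
  constructor
  · by_cases h : Inv C U1
    · exfalso
      have h2 : U1 = U := hU.min U1 hle (h1.inv.sup h) h1.ne
      subst h2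
      -- `C` acts trivially
      let F : Subgroup H :=
        { carrier := {g | ∀ u ∈ U1, g • u = u}
          one_mem' := fun u _ => one_smul H u
          mul_mem' := by
            intro a b ha hb u hu
            rw [mul_smul, hb u hu, ha u hu]
          inv_mem' := by
            intro a ha u hu
            rw [inv_smul_eq_iff, ha u hu] }
      have h3 : ⁅C, C⁆ ≤ F := by
        rw [commutator_le]
        intro c hc d hd u hu
        have hmem : ∀ e ∈ C, ∀ w ∈ U1, e • w ∈ U1 := h
        have h4 := comm_of_irr h1 (fun a ha => hPC a ha c hc) (fun a ha => hPC a ha d hd) (hmem c hc) (hmem d hd)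
        rw [commutatorElement_def]
        have h5 : d⁻¹ • u ∈ U1 := hmem _ (C.inv_mem hd) u hu
        have h6 : c⁻¹ • (d⁻¹ • u) ∈ U1 := hmem _ (C.inv_mem hc) _ h5
        have h7 := h4 _ h6
        rw [mul_smul, mul_smul, mul_smul, h7, smul_inv_smul, smul_inv_smul]
      rw [hC] at h3
      obtain ⟨c, hc, u, hu, hcu⟩ := hnt
      exact hcu (h3 hc u hu)
    · unfold Inv at h
      push Not at h
      obtain ⟨c, hc, u0, hu0, hcu0⟩ := h
      -- `c U1`
      let U2 : AddSubgroup V := U1.map (DistribSMul.toAddMonoidHom V c)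
      have hmem2 : ∀ w, w ∈ U2 ↔ ∃ u ∈ U1, c • u = w := fun w => Iff.rfl
      have hinf : U1 ⊓ U2 = ⊥ := by
        by_contra hne
        have h3 : U1 ⊓ U2 = U1 := by
          refine h1.min _ inf_le_left ?_ hne
          rintro l hl w ⟨hw1, hw2⟩
          refine ⟨h1.inv l hl w hw1, ?_⟩
          obtain ⟨u, hu, rfl⟩ := (hmem2 w).1 hw2
          refine (hmem2 _).2 ⟨l • u, h1.inv l hl u hu, ?_⟩
          rw [smul_smul, smul_smul, hPC l hl c hc]
        have h4 : U1 ≤ U2 := by rw [← h3]; exact inf_le_right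
        have h5 : Nat.card U2 ≤ Nat.card U1 := by
          have h6 : Function.Surjective (fun u : U1 => (⟨c • (u : V), ⟨u, u.2, rfl⟩⟩ : U2)) := by
            rintro ⟨w, hw⟩
            obtain ⟨u, hu, rfl⟩ := (hmem2 w).1 hw
            exact ⟨⟨u, hu⟩, rfl⟩
          exact Nat.card_le_card_of_surjective _ h6
        have h6 : U1 = U2 := AddSubgroup.eq_of_le_of_card_ge h4 h5
        apply hcu0
        rw [h6]
        exact (hmem2 _).2 ⟨u0, hu0, rfl⟩
      have hinj : Function.Injective (fun q : U1 × U1 => (⟨(q.1 : V) + c • (q.2 : V),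
          U.add_mem (hle q.1.2) (hUC c hc _ (hle q.2.2))⟩ : U)) := by
        rintro ⟨a, b⟩ ⟨a', b'⟩ hab
        have h3 : (a : V) + c • (b : V) = a' + c • (b' : V) := congrArg Subtype.val hab
        have h4 : (a : V) - a' = c • ((b' : V) - b) := by
          rw [smul_sub, sub_eq_sub_iff_add_eq_add, h3, add_comm]
        have h5 : (a : V) - a' ∈ U1 ⊓ U2 := by
          refine ⟨U1.sub_mem a.2 a'.2, ?_⟩
          rw [h4]
          exact (hmem2 _).2 ⟨(b' : V) - b, U1.sub_mem b'.2 b.2, rfl⟩
        rw [hinf, AddSubgroup.mem_bot] at h5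
        have h6 : a = a' := Subtype.ext (sub_eq_zero.1 h5)
        rw [h5] at h4
        have h7 : (b' : V) - b = 0 := (smul_eq_zero_iff_eq c).1 h4.symm
        have h8 : b = b' := Subtype.ext (sub_eq_zero.1 h7).symm
        rw [h6, h8]
      have h3 := Nat.card_le_card_of_injective _ hinj
      rw [Nat.card_prod] at h3
      rw [pow_two]
      exact h3
  · intro l hl htriv
    let U2 : AddSubgroup V := AddSubgroup.closure {w | ∃ c ∈ C, ∃ u ∈ U1, w = c • u}
    have hfix : ∀ w ∈ U2, l • w = w := by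
      intro w hw
      induction hw using AddSubgroup.closure_induction with
      | mem w h =>
        obtain ⟨c, hc, u, hu, rfl⟩ := h
        rw [smul_smul, hPC l hl c hc, mul_smul, htriv u hu]
      | zero => exact smul_zero l
      | add x y _ _ hx hy => rw [smul_add, hx, hy]
      | neg x _ hx => rw [smul_neg, hx]
    have hinv : ∀ g : H, (∀ c ∈ C, ∀ u ∈ U1, g • (c • u) ∈ U2) → ∀ w ∈ U2, g • w ∈ U2 := by
      intro g hg w hw
      induction hw using AddSubgroup.closure_induction with
      | mem w h =>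
        obtain ⟨c, hc, u, hu, rfl⟩ := h
        exact hg c hc u hu
      | zero => rw [smul_zero]; exact U2.zero_mem
      | add x y _ _ hx hy => rw [smul_add]; exact U2.add_mem hx hy
      | neg x _ hx => rw [smul_neg]; exact U2.neg_mem hx
    have hsub : ∀ c ∈ C, ∀ u ∈ U1, c • u ∈ U2 := fun c hc u hu => AddSubgroup.subset_closure ⟨c, hc, u, hu, rfl⟩
    have h2 : U2 = U := by
      refine hU.min U2 ?_ ?_ ?_
      · refine (AddSubgroup.closure_le _).2 ?_
        rintro _ ⟨c, hc, u, hu, rfl⟩
        exact hUC c hc u (hle hu)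
      · refine Inv.sup ?_ ?_
        · intro g hg
          refine hinv g fun c hc u hu => ?_
          rw [smul_smul, hPC g hg c hc, mul_smul]
          exact hsub c hc _ (h1.inv g hg u hu)
        · intro g hg
          refine hinv g fun c hc u hu => ?_
          rw [smul_smul]
          exact hsub _ (C.mul_mem hg hc) u hu
      · intro h
        apply h1.ne
        rw [eq_bot_iff, ← h]
        intro u hu
        have := hsub 1 C.one_mem u hu
        rwa [one_smul] at this
    intro u hu
    rw [← h2] at hu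
    exact hfix u hu

/-- **Several commuting perfect groups.** -/
theorem chain [Finite V] {ι : Type*} (L : ι → Subgroup H)
    (hcomm : ∀ i j, i ≠ j → ∀ a ∈ L i, ∀ b ∈ L j, a * b = b * a) (hperf : ∀ i, ⁅L i, L i⁆ = L i) (i0 : ι)
    (A : Finset ι) (hA : i0 ∉ A) : ∀ U : AddSubgroup V, Irr (L i0 ⊔ ⨆ j ∈ A, L j) U →
    (∀ j, j = i0 ∨ j ∈ A → ∃ l ∈ L j, ∃ u ∈ U, l • u ≠ u) →
    ∃ X : AddSubgroup V, X ≤ U ∧ Irr (L i0) X ∧ (∃ l ∈ L i0, ∃ x ∈ X, l • x ≠ x) ∧
      Nat.card X ^ 2 ^ A.card ≤ Nat.card U := by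
  classical
  induction A using Finset.induction_on with
  | empty =>
    intro U hU hnt
    refine ⟨U, le_rfl, ?_, hnt i0 (Or.inl rfl), ?_⟩
    · have h1 : (L i0 ⊔ ⨆ j ∈ (∅ : Finset ι), L j) = L i0 := by simp only [_root_.Finset.notMem_empty, _root_.not_false_eq_true, _root_.iSup_neg, _root_.iSup_bot, _root_.bot_le, _root_.sup_of_le_left]
      rwa [h1] at hU
    · rw [Finset.card_empty, pow_zero, pow_one]
  | insert j A hj ih =>
    intro U hU hnt
    have hi0 : i0 ∉ A := fun h => hA (Finset.mem_insert_of_mem h)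
    have hji : j ≠ i0 := fun h => hA (by rw [← h]; exact Finset.mem_insert_self _ _)
    set P : Subgroup H := L i0 ⊔ ⨆ j ∈ A, L j with hP
    have h1 : (L i0 ⊔ ⨆ j' ∈ insert j A, L j') = P ⊔ L j := by
      rw [Finset.iSup_insert, hP, sup_assoc, sup_comm (L j)]
    rw [h1] at hU
    have hPC : ∀ a ∈ P, ∀ b ∈ L j, a * b = b * a := by
      have h2 : P ≤ centralizer (L j : Set H) := by
        rw [hP]
        refine sup_le ?_ (iSup₂_le fun j' hj' => ?_)
        · intro a ha
          rw [mem_centralizer_iff]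
          intro b hb
          exact hcomm j i0 hji b hb a ha
        · intro a ha
          rw [mem_centralizer_iff]
          intro b hb
          exact hcomm j j' (fun h => hj (by rw [h]; exact hj')) b hb a ha
      intro a ha b hb
      exact (mem_centralizer_iff.1 (h2 ha) b hb).symm
    obtain ⟨U1, hle, hU1⟩ := exists_irr P hU.ne (hU.inv.mono le_sup_left)
    obtain ⟨h2, h3⟩ := double hPC (hperf j) hU hU1 hle (hnt j (Or.inr (Finset.mem_insert_self _ _)))
    obtain ⟨X, hX1, hX2, hX3, hX4⟩ := ih hi0 U1 hU1 (by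
      intro j' hj'
      have hj2 : j' = i0 ∨ j' ∈ insert j A := hj'.imp id Finset.mem_insert_of_mem
      obtain ⟨l, hl, u, hu, hlu⟩ := hnt j' hj2
      have hlP : l ∈ P := by
        rcases hj' with rfl | hj'
        · exact (le_sup_left : L j' ≤ _) hl
        · exact (le_sup_right : (⨆ j ∈ A, L j) ≤ _) ((le_iSup₂ (f := fun j (_ : j ∈ A) => L j) j' hj') hl)
      by_contra hcon
      push Not at hcon
      exact hlu (h3 l hlP (fun u hu => hcon l hl u hu) u hu))
    refine ⟨X, hX1.trans hle, hX2, hX3, ?_⟩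
    rw [Finset.card_insert_of_notMem hj, pow_succ, pow_mul]
    exact (Nat.pow_le_pow_left hX4 2).trans h2

end

end Cfsg.Agent.H383.Kap
end

-- part: H383/Kap/Bound
section
/-!
# `kap`, homogeneous modules, numerics (helper383, S5731 AF4)
-/

set_option autoImplicit false

open scoped commutatorElement

namespace Cfsg.Agent.H383.Kap

open Subgroup Cfsg.Agent.H192.Af Cfsg.Agent.H717.FieldOf

universe u v w

section kap

variable {H : Type v} [Group H] [Finite H] {M : Subgroup H} [M.Normal]

/-- the action of `H` on `M / Z(M)` -/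
noncomputable def act (M : Subgroup H) [M.Normal] : H →* MulAut (M ⧸ center M) where
  toFun h := QuotientGroup.congr (center M) (center M) (MulAut.conjNormal h)
    (characteristic_iff_map_eq.1 centerCharacteristic _)
  map_one' := by
    ext q
    obtain ⟨m, rfl⟩ := QuotientGroup.mk_surjective q
    change ((MulAut.conjNormal (1 : H) m : M) : M ⧸ center M) = (m : M ⧸ center M)
    rw [map_one]
    rfl
  map_mul' := by
    intro a b
    ext q
    obtain ⟨m, rfl⟩ := QuotientGroup.mk_surjective q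
    change ((MulAut.conjNormal (a * b) m : M) : M ⧸ center M) =
      ((MulAut.conjNormal a (MulAut.conjNormal b m) : M) : M ⧸ center M)
    rw [map_mul]
    rfl

theorem act_mk (h : H) (m : M) : act M h (m : M ⧸ center M) = ((MulAut.conjNormal h m : M) : M ⧸ center M) := rfl

/-- `M` perfect: the kernel of the action on `M / Z(M)` is `C_H(M)` -/
theorem ker_act (hM : commutator M = ⊤) : (act M).ker = centralizer (M : Set H) := by
  ext h
  rw [MonoidHom.mem_ker, mem_centralizer_iff]
  constructor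
  · intro hh
    -- `h m h⁻¹ = m z`
    have h1 : ∀ m : M, ∃ z ∈ center M, MulAut.conjNormal h m = m * z := by
      intro m
      have h2 : act M h (m : M ⧸ center M) = (m : M ⧸ center M) := by rw [hh]; rfl
      rw [act_mk] at h2
      exact ⟨m⁻¹ * MulAut.conjNormal h m, QuotientGroup.eq.1 h2.symm, by group⟩
    -- the fixed subgroup
    let F : Subgroup M :=
      { carrier := {m | MulAut.conjNormal h m = m}
        one_mem' := map_one _
        mul_mem' := by
          intro a b ha hb
          change MulAut.conjNormal h (a * b) = a * b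
          rw [map_mul]
          have ha' : MulAut.conjNormal h a = a := ha
          have hb' : MulAut.conjNormal h b = b := hb
          rw [ha', hb']
        inv_mem' := by
          intro a ha
          have ha' : MulAut.conjNormal h a = a := ha
          change MulAut.conjNormal h a⁻¹ = a⁻¹
          rw [map_inv, ha'] }
    have h3 : commutator M ≤ F := by
      rw [_root_.commutator_def, commutator_le]
      intro a _ b _
      obtain ⟨z, hz, hz1⟩ := h1 a
      obtain ⟨y, hy, hy1⟩ := h1 b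
      change MulAut.conjNormal h ⁅a, b⁆ = ⁅a, b⁆
      rw [map_commutatorElement, hz1, hy1]
      have hz' := mem_center_iff.1 hz
      have hy' := mem_center_iff.1 hy
      simp only [commutatorElement_def, mul_inv_rev]
      calc a * z * (b * y) * (z⁻¹ * a⁻¹) * (y⁻¹ * b⁻¹) = a * (z * (b * y)) * z⁻¹ * a⁻¹ * y⁻¹ * b⁻¹ := by group
        _ = a * ((b * y) * z) * z⁻¹ * a⁻¹ * y⁻¹ * b⁻¹ := by rw [← hz' (b * y)]
        _ = a * b * (y * a⁻¹) * y⁻¹ * b⁻¹ := by group
        _ = a * b * (a⁻¹ * y) * y⁻¹ * b⁻¹ := by rw [← hy' a⁻¹]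
        _ = a * b * a⁻¹ * b⁻¹ := by group
    rw [hM] at h3
    intro m hm
    have h4 : MulAut.conjNormal h (⟨m, hm⟩ : M) = ⟨m, hm⟩ := h3 (mem_top _)
    have h5 := congrArg Subtype.val h4
    rw [MulAut.conjNormal_apply] at h5
    have h6 : h * m * h⁻¹ = m := h5
    rw [mul_inv_eq_iff_eq_mul] at h6
    exact h6.symm
  · intro hh
    ext q
    obtain ⟨m, rfl⟩ := QuotientGroup.mk_surjective q
    change ((MulAut.conjNormal h m : M) : M ⧸ center M) = (m : M ⧸ center M)
    congr 1
    apply Subtype.ext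
    rw [MulAut.conjNormal_apply, mul_inv_eq_iff_eq_mul]
    exact (hh m m.2).symm

/-- **the bound for `kap`** -/
theorem kap_le {y : H} (hy : y ∈ M) (hM : commutator M = ⊤) {Q : Type w} [Group Q] (e : M ⧸ center M ≃* Q) :
    kap M y ≤ Nat.card {α : MulAut Q // α (e ((⟨y, hy⟩ : M) : M ⧸ center M)) = e ((⟨y, hy⟩ : M) : M ⧸ center M)} := by
  have hfQ : Finite Q := Finite.of_equiv _ e.toEquiv
  have hfA : Finite (MulAut Q) := Finite.of_injective (fun f : MulAut Q => (f : Q → Q)) DFunLike.coe_injective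
  set f : sty M y →* MulAut (M ⧸ center M) := (act M).comp (sty M y).subtype with hf
  have h1 : kap M y = Nat.card f.range := by
    unfold kap
    rw [relIndex, ← index_ker, ← ker_act hM]
    rfl
  rw [h1]
  -- the elements of the range fix `y`
  have h2 : ∀ g : f.range, (g : MulAut (M ⧸ center M)) ((⟨y, hy⟩ : M) : M ⧸ center M) = ((⟨y, hy⟩ : M) : M ⧸ center M) := by
    rintro ⟨_, ⟨⟨h, hh⟩, rfl⟩⟩
    change ((MulAut.conjNormal h (⟨y, hy⟩ : M) : M) : M ⧸ center M) = _
    symm
    rw [QuotientGroup.eq, mem_center_iff]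
    intro m
    have h3 : h * y * h⁻¹ * y⁻¹ ∈ centralizer (M : Set H) := hh
    have h4 : y⁻¹ * (h * y * h⁻¹) ∈ centralizer (M : Set H) := by
      have h5 : y⁻¹ * (h * y * h⁻¹) = y⁻¹ * (h * y * h⁻¹ * y⁻¹) * y⁻¹⁻¹ := by group
      rw [h5]
      exact (inferInstance : (centralizer (M : Set H)).Normal).conj_mem _ h3 y⁻¹
    exact Subtype.ext (mem_centralizer_iff.1 h4 m m.2)
  let c : MulAut (M ⧸ center M) ≃* MulAut Q := MulAut.congr e
  have hc : ∀ (a : MulAut (M ⧸ center M)) (q : M ⧸ center M), c a (e q) = e (a q) := by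
    intro a q
    change e (a (e.symm (e q))) = e (a q)
    rw [e.symm_apply_apply]
  let F : f.range → {α : MulAut Q // α (e ((⟨y, hy⟩ : M) : M ⧸ center M)) = e ((⟨y, hy⟩ : M) : M ⧸ center M)} :=
    fun g => ⟨c g, by rw [hc, h2]⟩
  have hF : Function.Injective F := by
    intro a b hab
    apply Subtype.ext
    exact c.injective (congrArg Subtype.val hab)
  exact Nat.card_le_card_of_injective F hF

theorem card_fix_congr {A : Type v} {B : Type w} [Group A] [Group B] (e : A ≃* B) (x : A) :
    Nat.card {α : MulAut A // α x = x} = Nat.card {β : MulAut B // β (e x) = e x} := by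
  refine Nat.card_congr ((MulAut.congr e).toEquiv.subtypeEquiv fun a => ?_)
  change a x = x ↔ e (a (e.symm (e x))) = e x
  rw [e.symm_apply_apply, e.injective.eq_iff]

end kap

section homog

variable {V : Type u} [AddCommGroup V] [Finite V] {H : Type v} [Group H] [DistribMulAction H V]

theorem KA_apply_mem {M : Subgroup H} {U : AddSubgroup V} (hU : ∀ h ∈ M, ∀ w ∈ U, h • w ∈ U) {r : AddMonoid.End V}
    (hr : r ∈ KA V M) : ∀ w ∈ U, r w ∈ U := by
  unfold KA at hr
  induction hr using Subring.closure_induction with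
  | mem x hx =>
    obtain ⟨m, hm, rfl⟩ := hx
    exact hU m hm
  | zero => intro w _; exact U.zero_mem
  | one => intro w hw; exact hw
  | add a b _ _ ha hb => intro w hw; exact U.add_mem (ha w hw) (hb w hw)
  | neg a _ ha => intro w hw; exact U.neg_mem (ha w hw)
  | mul a b _ _ ha hb => intro w hw; exact ha _ (hb w hw)

seal _root_.AddMonoid.End in
/-- `V` homogeneous for `M`: an element of `M` trivial on an irreducible submodule is trivial on `V` -/
theorem trivial_of_homog {M : Subgroup H} (hM : Homog V M) {W : AddSubgroup V} (hne : W ≠ ⊥)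
    (hinv : ∀ h ∈ M, ∀ w ∈ W, h • w ∈ W)
    (hmin : ∀ U : AddSubgroup V, U ≤ W → (∀ h ∈ M, ∀ w ∈ U, h • w ∈ U) → U ≠ ⊥ → U = W) {l : H} (hl : l ∈ M)
    (h : ∀ w ∈ W, l • w = w) (x : V) : l • x = x := by
  obtain ⟨hss, hiso⟩ := hM
  let W' : (Submodule (KA V M) V :) :=
    { W with smul_mem' := fun r w hw => KA_apply_mem hinv r.2 w hw }
  have hWmem : ∀ w, w ∈ W' ↔ w ∈ W := fun _ => Iff.rfl
  have hsub : ∀ S : Submodule (KA V M) V, ∀ h ∈ M, ∀ w ∈ S, h • w ∈ S := by
    intro S h hh w hw
    exact S.smul_mem (⟨dl V h, dl_mem M hh⟩ : KA V M) hw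
  have hW' : IsSimpleModule (KA V M) W' := by
    rw [isSimpleModule_iff_isAtom]
    refine ⟨?_, ?_⟩
    · intro hb
      apply hne
      rw [eq_bot_iff]
      intro w hw
      have h1 : w ∈ W' := hw
      rw [hb] at h1
      exact h1
    · intro S hS
      by_contra hSb
      have h1 := hmin S.toAddSubgroup (fun w hw => hS.le hw) (fun h hh w hw => hsub S h hh w hw) (by
        intro hb
        apply hSb
        rw [eq_bot_iff]
        intro w hw
        have h2 : w ∈ S.toAddSubgroup := hw
        rw [hb] at h2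
        exact h2)
      apply hS.ne
      ext w
      rw [hWmem, ← h1]
      rfl
  have key : ∀ S : (Submodule (KA V M) V :), IsSimpleModule (KA V M) S → ∀ w ∈ S, l • w = w := by
    intro S hS w hw
    obtain ⟨f⟩ := hiso W' S
    have h1 : (⟨dl V l, dl_mem M hl⟩ : KA V M) • (⟨w, hw⟩ : S) = ⟨w, hw⟩ := by
      apply f.injective
      rw [map_smul]
      apply Subtype.ext
      exact h _ (f ⟨w, hw⟩).2
    exact congrArg Subtype.val h1
  have htop := IsSemisimpleModule.sSup_simples_eq_top (KA V M) V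
  have hx : x ∈ sSup { m : Submodule (KA V M) V | IsSimpleModule (KA V M) m } := by
    rw [htop]
    exact Submodule.mem_top
  rw [sSup_eq_iSup'] at hx
  exact Submodule.iSup_induction _ (motive := fun x => l • x = x) hx (fun i y hy => key i.1 i.2 y hy) (smul_zero l)
    (fun y z hy hz => by rw [smul_add, hy, hz])

end homog

section num

/-- `c s ^ 2 ≤ 2 ^ (s - 1)` for large `s` -/
theorem exists_sq_le (c : ℕ) : ∃ s0 : ℕ, ∀ s, s0 ≤ s → c * s ^ 2 ≤ 2 ^ (s - 1) := by
  have h := (isLittleO_pow_const_const_pow_of_one_lt (R := ℝ) 2 (by norm_num : (1 : ℝ) < 2)).bound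
    (show (0 : ℝ) < 1 / (2 * (c + 1)) by positivity)
  rw [Filter.eventually_atTop] at h
  obtain ⟨s0, hs0⟩ := h
  refine ⟨s0 + 1, fun s hs => ?_⟩
  have h1 := hs0 s (by omega)
  rw [Real.norm_of_nonneg (by positivity), Real.norm_of_nonneg (by positivity)] at h1
  have h2 : ((c : ℝ) + 1) * (s : ℝ) ^ 2 ≤ 2 ^ s / 2 := by
    have h3 : (0 : ℝ) < (c : ℝ) + 1 := by positivity
    calc ((c : ℝ) + 1) * (s : ℝ) ^ 2 ≤ ((c : ℝ) + 1) * (1 / (2 * (c + 1)) * 2 ^ s) :=
          mul_le_mul_of_nonneg_left h1 h3.le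
      _ = 2 ^ s / 2 := by field_simp
  have h3 : ((c * s ^ 2 : ℕ) : ℝ) ≤ ((2 ^ (s - 1) : ℕ) : ℝ) := by
    obtain ⟨j, rfl⟩ : ∃ j, s = j + 1 := ⟨s - 1, by omega⟩
    rw [Nat.add_sub_cancel]
    push_cast at h2 ⊢
    have h4 : (2 : ℝ) ^ (j + 1) / 2 = 2 ^ j := by rw [pow_succ]; ring
    rw [h4] at h2
    linarith only [h2, sq_nonneg ((j : ℝ) + 1)]
  exact_mod_cast h3

theorem exists_num (k C : ℕ) : ∃ N : ℕ, ∀ s n : ℕ, 0 < s → N ≤ n → 2 ^ 2 ^ (s - 1) ≤ n →
    (s.factorial * C ^ s) ^ k ≤ n := by
  obtain ⟨s0, hs0⟩ := exists_sq_le (C * k)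
  refine ⟨∑ s ∈ Finset.range s0, (s.factorial * C ^ s) ^ k, fun s n hs hn h2 => ?_⟩
  by_cases h : s < s0
  · exact (Finset.single_le_sum (f := fun s => (s.factorial * C ^ s) ^ k) (fun _ _ => Nat.zero_le _)
      (Finset.mem_range.2 h)).trans hn
  · push Not at h
    refine le_trans ?_ h2
    have h3 : s.factorial * C ^ s ≤ (s * C) ^ s := by
      rw [mul_pow]
      exact Nat.mul_le_mul_right _ (Nat.factorial_le_pow s)
    have h4 : (s * C) ≤ 2 ^ (s * C) := Nat.lt_two_pow_self.le
    calc (s.factorial * C ^ s) ^ k ≤ ((s * C) ^ s) ^ k := Nat.pow_le_pow_left h3 k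
      _ ≤ ((2 ^ (s * C)) ^ s) ^ k := Nat.pow_le_pow_left (Nat.pow_le_pow_left h4 s) k
      _ = 2 ^ (C * k * s ^ 2) := by rw [← pow_mul, ← pow_mul]; ring_nf
      _ ≤ 2 ^ 2 ^ (s - 1) := Nat.pow_le_pow_right (by norm_num) (hs0 s h)

theorem le_two_pow_pred {s : ℕ} (hs : 0 < s) : s ≤ 2 ^ (s - 1) := by
  obtain ⟨j, rfl⟩ : ∃ j, s = j + 1 := ⟨s - 1, by omega⟩
  rw [Nat.add_sub_cancel]
  exact Nat.lt_two_pow_self

end num

end Cfsg.Agent.H383.Kap
end

-- part: H383/Kap/Main
section
/-!
# S5731, the affine core: products of simple groups not of Lie type in the characteristic (helper383, AF4)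

`kap_prod`.
-/

set_option autoImplicit false

open scoped commutatorElement

namespace Cfsg.Agent.H383.Kap

open Subgroup Cfsg.Agent.H192.Af Cfsg.Agent.H717.FieldOf

universe u v

section mod

variable {V : Type u} [AddCommGroup V] {G : Type v} [Group G] [DistribMulAction G V]

/-- the action of `L` on an invariant subgroup -/
@[reducible] def restr {L : Subgroup G} {X : AddSubgroup V} (h : Inv L X) : DistribMulAction L X where
  smul l x := ⟨(l : G) • (x : V), h l l.2 x x.2⟩
  one_smul x := Subtype.ext (one_smul G (x : V))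
  mul_smul a b x := Subtype.ext (mul_smul (a : G) (b : G) (x : V))
  smul_zero l := Subtype.ext (smul_zero (l : G))
  smul_add l x y := Subtype.ext (smul_add (l : G) (x : V) (y : V))

/-- common fixed vectors of commuting elements -/
theorem exists_vec {s : ℕ} (L : Fin s → Subgroup G)
    (hcomm : ∀ i j, i ≠ j → ∀ a ∈ L i, ∀ b ∈ L j, a * b = b * a) (y : Fin s → G) (hy : ∀ i, y i ∈ L i)
    (hfix : ∀ i, ∀ X : AddSubgroup V, Inv (L i) X → X ≠ ⊥ → ∃ x ∈ X, x ≠ 0 ∧ y i • x = x)
    {U : AddSubgroup V} (hU : ∀ i, Inv (L i) U) (hne : U ≠ ⊥) : ∃ w ∈ U, w ≠ 0 ∧ ∀ i, y i • w = w := by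
  classical
  let F : Finset (Fin s) → AddSubgroup V := fun A =>
    { carrier := {w | w ∈ U ∧ ∀ i ∈ A, y i • w = w}
      zero_mem' := ⟨U.zero_mem, fun i _ => smul_zero _⟩
      add_mem' := by
        rintro a b ⟨ha, ha'⟩ ⟨hb, hb'⟩
        exact ⟨U.add_mem ha hb, fun i hi => by rw [smul_add, ha' i hi, hb' i hi]⟩
      neg_mem' := by
        rintro a ⟨ha, ha'⟩
        exact ⟨U.neg_mem ha, fun i hi => by rw [smul_neg, ha' i hi]⟩ }
  have hF : ∀ A, F A ≠ ⊥ := by
    intro A
    induction A using Finset.induction_on with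
    | empty =>
      intro h
      apply hne
      rw [eq_bot_iff, ← h]
      intro w hw
      exact ⟨hw, fun i hi => absurd hi (Finset.notMem_empty i)⟩
    | insert j A hj ih =>
      obtain ⟨x, ⟨hxU, hxA⟩, hx0, hxy⟩ := hfix j (F A) (by
        rintro l hl w ⟨hw, hw'⟩
        refine ⟨hU j l hl w hw, fun i hi => ?_⟩
        have hij : i ≠ j := fun h => hj (by rw [← h]; exact hi)
        rw [smul_smul, hcomm i j hij _ (hy i) l hl, mul_smul, hw' i hi]) ih
      intro h
      apply hx0
      have h1 : x ∈ F (insert j A) := by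
        refine ⟨hxU, fun i hi => ?_⟩
        rcases Finset.mem_insert.1 hi with rfl | hi
        · exact hxy
        · exact hxA i hi
      rw [h] at h1
      exact h1
  obtain ⟨w, hw, hw0⟩ : ∃ w ∈ F Finset.univ, w ≠ 0 := by
    by_contra hcon
    push Not at hcon
    exact hF Finset.univ ((AddSubgroup.eq_bot_iff_forall _).2 hcon)
  exact ⟨w, hw.1, hw0, fun i => hw.2 i (Finset.mem_univ i)⟩

end mod

section

variable {V : Type u} [AddCommGroup V] [Finite V] {H : Type v} [Group H] [DistribMulAction H V] [FaithfulSMul H V]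

/-- nontrivial modules of the factors -/
theorem exists_module [Nontrivial V] {M : Subgroup H} (hM : Homog V M) (hG : commutator M = ⊤) {T : Type v} [Group T]
    [Nontrivial T] (hT : commutator T = ⊤) {s : ℕ} {π : M →* (Fin s → T)} (hπ : Function.Surjective π)
    (hk : π.ker = center M) (i : Fin s) :
    ∃ X : AddSubgroup V, Inv (Li π i) X ∧ X ≠ ⊥ ∧ (∃ l ∈ Li π i, ∃ x ∈ X, l • x ≠ x) ∧
      Nat.card X ^ 2 ^ (s - 1) ≤ Nat.card V := by
  classical
  have htop : (⊤ : AddSubgroup V) ≠ ⊥ := by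
    obtain ⟨x, hx⟩ := exists_ne (0 : V)
    intro h
    have h1 : x ∈ (⊤ : AddSubgroup V) := AddSubgroup.mem_top x
    rw [h] at h1
    exact hx h1
  obtain ⟨W, -, hW⟩ := exists_irr (V := V) (⊤ : Subgroup M) htop (fun _ _ _ _ => AddSubgroup.mem_top _)
  have hWi : ∀ h ∈ M, ∀ w ∈ W, h • w ∈ W := fun h hh w hw => hW.inv ⟨h, hh⟩ (mem_top _) w hw
  have hWm : ∀ U : AddSubgroup V, U ≤ W → (∀ h ∈ M, ∀ w ∈ U, h • w ∈ U) → U ≠ ⊥ → U = W :=
    fun U hU hinv hne => hW.min U hU (fun h _ w hw => hinv h h.2 w hw) hne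
  have hnt : ∀ j, ∃ l ∈ Li π j, ∃ w ∈ W, l • w ≠ w := by
    intro j
    by_contra hcon
    push Not at hcon
    obtain ⟨t, ht⟩ := exists_ne (1 : T)
    obtain ⟨g, hg, hgt⟩ := exists_Li hπ hT j t
    have h1 : (g : H) = 1 := by
      apply FaithfulSMul.eq_of_smul_eq_smul (α := V)
      intro x
      rw [one_smul]
      exact trivial_of_homog hM hW.ne hWi hWm g.2 (fun w hw => hcon g hg w hw) x
    have h2 : g = 1 := Subtype.ext h1
    rw [h2, map_one] at hgt
    apply ht
    have h3 := congrFun hgt j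
    rw [Pi.mulSingle_eq_same] at h3
    exact h3.symm
  have hsup : Li π i ⊔ ⨆ j ∈ Finset.univ.erase i, Li π j = ⊤ := by
    rw [eq_top_iff, ← iSup_Li hπ hk hG hT]
    refine iSup_le fun j => ?_
    by_cases hj : j = i
    · rw [hj]
      exact le_sup_left
    · refine le_trans ?_ le_sup_right
      exact le_iSup₂ (f := fun j (_ : j ∈ Finset.univ.erase i) => Li π j) j
        (Finset.mem_erase.2 ⟨hj, Finset.mem_univ j⟩)
  obtain ⟨X, -, hX, hXn, hc⟩ := chain (V := V) (Li π)
    (fun a b hab x hx y hy => Li_comm hk hab hx (Li_le π b hy)) (Li_eq hπ hk hT) i (Finset.univ.erase i)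
    (Finset.notMem_erase i _) W (by rw [hsup]; exact hW) (fun j _ => hnt j)
  refine ⟨X, hX.inv, hX.ne, hXn, ?_⟩
  rw [Finset.card_erase_of_mem (Finset.mem_univ i), Finset.card_univ, Fintype.card_fin] at hc
  refine hc.trans ?_
  exact Nat.card_le_card_of_injective (fun w : W => (w : V)) Subtype.val_injective

end

theorem two_le_card {V : Type u} [AddCommGroup V] [Finite V] {X : AddSubgroup V} (h : X ≠ ⊥) : 2 ≤ Nat.card X := by
  have h1 : Nat.card X ≠ 1 := fun h1 => h (AddSubgroup.card_eq_one.1 h1)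
  have h2 : 0 < Nat.card X := Nat.card_pos
  omega

theorem commutator_eq_top {T : Type v} [Group T] [IsSimpleGroup T] (hT : ¬ IsMulCommutative T) :
    commutator T = ⊤ := by
  rcases (inferInstance : (commutator T).Normal).eq_bot_or_eq_top with h | h
  · exfalso
    apply hT
    refine ⟨⟨fun a b => ?_⟩⟩
    have h1 : ⁅a, b⁆ ∈ commutator T := Subgroup.commutator_mem_commutator (Subgroup.mem_top _) (Subgroup.mem_top _)
    rw [h, Subgroup.mem_bot, commutatorElement_eq_one_iff_mul_comm] at h1
    exact h1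
  · exact h

/-- **products of simple groups not of Lie type in characteristic `p` (or small)** -/
theorem kap_prod {LP : ∀ (_ : ℕ) (T : Type v) [Group T], Prop} (hS : SmallCase.{u, v} LP) (k : ℕ) :
    ∀ K' : ℕ, ∃ N : ℕ, ∀ (p : ℕ) (V : Type u) [AddCommGroup V] [Finite V] (H : Type v) [Group H]
    [Finite H] [DistribMulAction H V] [FaithfulSMul H V] (M : Subgroup H) [M.Normal] (T : Type v) [Group T]
    [Finite T] [IsSimpleGroup T] (s : ℕ), p.Prime →
    (∀ w : V, p • w = 0) → (∀ K : Subgroup H, K.Normal → Homog V K) → N ≤ Nat.card V →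
    commutator M = ⊤ → 0 < s → Nonempty (M ⧸ Subgroup.center M ≃* (Fin s → T)) → ¬ IsMulCommutative T →
    (¬ LP p T ∨ Nat.card T ≤ K') →
    ∃ y ∈ M, FixAll V M y ∧ kap M y ^ k ≤ Nat.card V := by
  classical
  intro K'
  obtain ⟨K, hK⟩ := hS (2 * k)
  set B : ℕ := max K K' with hB
  obtain ⟨N1, hN1⟩ := exists_num (2 * k) (B ^ B)
  refine ⟨max N1 2, ?_⟩
  intro p V _ _ H _ _ _ _ M _ T _ _ _ s hp hpV hH hN hG hs he hTna hcase
  obtain ⟨e⟩ := he
  have hV : Nontrivial V := by
    rw [← Finite.one_lt_card_iff_nontrivial]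
    exact lt_of_lt_of_le (by norm_num) ((le_max_right N1 2).trans hN)
  have hMh : Homog V M := hH M inferInstance
  have hT : commutator T = ⊤ := commutator_eq_top hTna
  set π : M →* (Fin s → T) := e.toMonoidHom.comp (QuotientGroup.mk' (center M)) with hπdef
  have hπ : Function.Surjective π := e.surjective.comp (QuotientGroup.mk'_surjective _)
  have hk : π.ker = center M := by
    ext g
    rw [MonoidHom.mem_ker]
    change e (g : M ⧸ center M) = 1 ↔ g ∈ center M
    rw [MulEquiv.map_eq_one_iff, QuotientGroup.eq_one_iff]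
  have hπe : ∀ g : M, e (g : M ⧸ center M) = π g := fun _ => rfl
  choose X hXi hXne hXn hXc using fun i => exists_module hMh hG hT hπ hk i
  set n := Nat.card V with hn
  have hn2 : 2 ^ 2 ^ (s - 1) ≤ n := (Nat.pow_le_pow_left (two_le_card (hXne ⟨0, hs⟩)) _).trans (hXc ⟨0, hs⟩)
  have hnum := hN1 s n hs ((le_max_left N1 2).trans hN) hn2
  have hn0 : 0 < n := lt_of_lt_of_le (by positivity) hn2
  by_cases hsmall : Nat.card T ≤ B
  · -- `T` bounded: `y = 1`
    refine ⟨1, M.one_mem, ?_, ?_⟩
    · intro U hU _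
      obtain ⟨w, hw, hw0⟩ : ∃ w ∈ U, w ≠ 0 := by
        by_contra hcon
        push Not at hcon
        exact hU ((AddSubgroup.eq_bot_iff_forall U).2 hcon)
      exact ⟨w, hw, hw0, one_smul H w⟩
    · have hB1 : 1 ≤ B := (Nat.card_pos (α := T)).trans_le hsmall
      have h1 := kap_le (M := M) M.one_mem hG e
      have h2 := card_fix_le hTna (e ((⟨1, M.one_mem⟩ : M) : M ⧸ center M))
      have h3 : ∀ t : T, Nat.card {a : MulAut T // a t = t} ≤ B ^ B := by
        intro t
        have h4 : Nat.card {a : MulAut T // a t = t} ≤ Nat.card (T → T) :=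
          Nat.card_le_card_of_injective (fun a : {a : MulAut T // a t = t} => (a.1 : T → T))
            (fun a b hab => Subtype.ext (DFunLike.coe_injective hab))
        refine h4.trans ?_
        rw [Nat.card_fun]
        exact (Nat.pow_le_pow_left hsmall _).trans (Nat.pow_le_pow_right hB1 hsmall)
      have h4 : ∏ i, Nat.card {a : MulAut T // a (e ((⟨1, M.one_mem⟩ : M) : M ⧸ center M) i) =
          e ((⟨1, M.one_mem⟩ : M) : M ⧸ center M) i} ≤ (B ^ B) ^ s := by
        refine (Finset.prod_le_prod' fun i _ => h3 _).trans ?_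
        rw [Finset.prod_const, Finset.card_univ, Fintype.card_fin]
      have h5 : kap M 1 ≤ s.factorial * (B ^ B) ^ s := h1.trans (h2.trans (Nat.mul_le_mul_left _ h4))
      have h6 : 1 ≤ s.factorial * (B ^ B) ^ s := Nat.mul_pos (Nat.factorial_pos s) (by (clear * - hB1; positivity))
      calc kap M 1 ^ k ≤ (s.factorial * (B ^ B) ^ s) ^ k := Nat.pow_le_pow_left h5 k
        _ ≤ (s.factorial * (B ^ B) ^ s) ^ (2 * k) := Nat.pow_le_pow_right h6 (by omega)
        _ ≤ n := hnum
  · push Not at hsmall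
    have hKT : K ≤ Nat.card T := (le_max_left K K').trans hsmall.le
    have hLP : ¬ LP p T := by
      rcases hcase with h | h
      · exact h
      · exact absurd h (not_le.2 ((le_max_right K K').trans_lt hsmall))
    have hB1 : 1 ≤ B ^ B := by
      rcases Nat.eq_zero_or_pos B with h | h
      · rw [h]; norm_num
      · exact Nat.one_le_pow _ _ h
    -- the elements `y_i`
    choose y hy1 hy2 using fun i => hK p T hp hTna hKT hLP ↥(Li π i) (perfect_Li hπ hk hT i)
      ⟨equivLi hπ hk hG hT i⟩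
    -- the element `y`
    have hcomm : ∀ i j, i ≠ j → ∀ a ∈ Li π i, ∀ b ∈ Li π j, a * b = b * a :=
      fun i j hij a ha b hb => Li_comm hk hij ha (Li_le π j hb)
    have hY : ∀ A : Finset (Fin s), ∃ Y : M, Y ∈ _root_.Subgroup.closure (Set.range fun i => ((y i : ↥(Li π i)) : M)) ∧
        (∀ i ∈ A, π Y i = π ((y i : ↥(Li π i)) : M) i) ∧ ∀ i, i ∉ A → π Y i = 1 := by
      intro A
      induction A using Finset.induction_on with
      | empty => exact ⟨1, one_mem _, fun i hi => absurd hi (Finset.notMem_empty i), fun i _ => by rw [map_one]; rfl⟩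
      | insert j A hj ih =>
        obtain ⟨Y, hYc, hYA, hYn⟩ := ih
        refine ⟨Y * ((y j : ↥(Li π j)) : M), mul_mem hYc (subset_closure ⟨j, rfl⟩), ?_, ?_⟩
        · intro i hi
          rw [map_mul, Pi.mul_apply]
          rcases Finset.mem_insert.1 hi with rfl | hi
          · rw [hYn _ hj, one_mul]
          · have hij : i ≠ j := fun h => hj (by rw [← h]; exact hi)
            rw [hYA i hi, Li_le π j (y j).2 i hij, mul_one]
        · intro i hi
          rw [Finset.mem_insert, not_or] at hi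
          rw [map_mul, Pi.mul_apply, hYn i hi.2, one_mul]
          exact Li_le π j (y j).2 i hi.1
    obtain ⟨Y, hYc, hYt, -⟩ := hY Finset.univ
    refine ⟨(Y : H), Y.2, ?_, ?_⟩
    · -- fixed vectors
      intro U hU hinv
      have hexp : ∀ (Z : AddSubgroup V) (x : Z), p • x = 0 := fun Z x => Subtype.ext (hpV x)
      obtain ⟨w, hw, hw0, hwy⟩ := exists_vec (V := V) (Li π) hcomm (fun i => ((y i : ↥(Li π i)) : M)) (fun i => (y i).2)
        (by
          intro i Z hZ hZne
          let _ := restr hZ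
          have hZn : Nontrivial Z := by
            rw [← Finite.one_lt_card_iff_nontrivial]
            exact lt_of_lt_of_le (by norm_num) (two_le_card hZne)
          obtain ⟨x, hx0, hx⟩ := hy1 i Z hZn (hexp Z)
          exact ⟨x, x.2, fun h => hx0 (Subtype.ext h), congrArg Subtype.val hx⟩)
        (U := U) (fun i l _ w hw => hinv l l.2 w hw) hU
      refine ⟨w, hw, hw0, ?_⟩
      have h1 : _root_.Subgroup.closure (Set.range fun i => ((y i : ↥(Li π i)) : M)) ≤ MulAction.stabilizer M w := by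
        rw [closure_le]
        rintro _ ⟨i, rfl⟩
        exact hwy i
      exact h1 hYc
    · -- the bound
      set κ : Fin s → ℕ := fun i => Nat.card {a : MulAut T // a (π Y i) = π Y i} with hκ
      have hκX : ∀ i, κ i ^ (2 * k) ≤ Nat.card (X i) := by
        intro i
        let _ := restr (hXi i)
        have hexp : ∀ x : X i, p • x = 0 := fun x => Subtype.ext (hpV x)
        have h1 := hy2 i (X i) hexp (by
          obtain ⟨l, hl, x, hx, hlx⟩ := hXn i
          exact ⟨⟨l, hl⟩, ⟨x, hx⟩, fun h => hlx (congrArg Subtype.val h)⟩)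
        rw [card_fix_congr (equivLi hπ hk hG hT i)] at h1
        rw [hκ]
        have h2 : equivLi hπ hk hG hT i ((y i : ↥(Li π i)) : ↥(Li π i) ⧸ center ↥(Li π i)) = π Y i := by
          rw [equivLi_mk, hYt i (Finset.mem_univ i)]
        rw [h2] at h1
        exact h1
      have hκn : ∀ i, κ i ^ (2 * k * 2 ^ (s - 1)) ≤ n := by
        intro i
        rw [pow_mul]
        exact (Nat.pow_le_pow_left (hκX i) _).trans (hXc i)
      have hprod : (∏ i, κ i) ^ (2 * k) ≤ n := by
        have h1 : ((∏ i, κ i) ^ (2 * k)) ^ 2 ^ (s - 1) ≤ n ^ 2 ^ (s - 1) := by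
          rw [← pow_mul, ← Finset.prod_pow]
          refine (Finset.prod_le_prod' fun i _ => hκn i).trans ?_
          rw [Finset.prod_const, Finset.card_univ, Fintype.card_fin]
          exact Nat.pow_le_pow_right hn0 (le_two_pow_pred hs)
        exact (Nat.pow_le_pow_iff_left (by positivity)).1 h1
      have hfac : s.factorial ^ (2 * k) ≤ n := by
        refine (Nat.pow_le_pow_left ?_ (2 * k)).trans hnum
        exact Nat.le_mul_of_pos_right _ (by (clear * - hB1; positivity))
      have hkap : kap M (Y : H) ≤ s.factorial * ∏ i, κ i := by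
        refine (kap_le Y.2 hG e).trans ?_
        exact card_fix_le hTna (π Y)
      have h1 : (kap M (Y : H) ^ k) ^ 2 ≤ n ^ 2 := by
        calc (kap M (Y : H) ^ k) ^ 2 = kap M (Y : H) ^ (2 * k) := by rw [← pow_mul, mul_comm]
          _ ≤ (s.factorial * ∏ i, κ i) ^ (2 * k) := Nat.pow_le_pow_left hkap _
          _ = s.factorial ^ (2 * k) * (∏ i, κ i) ^ (2 * k) := mul_pow _ _ _
          _ ≤ n * n := Nat.mul_le_mul hfac hprod
          _ = n ^ 2 := (pow_two n).symm
      exact (Nat.pow_le_pow_iff_left (by norm_num)).1 h1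

end Cfsg.Agent.H383.Kap
end

-- part: H192/Af/Core
section
/-!
# S5731: the affine core
-/

set_option autoImplicit false
set_option linter.style.haveILetI false
set_option linter.unusedSectionVars false

namespace Cfsg.Agent.H192.Af

open Cfsg.Agent.H717.FieldOf Cfsg.Agent.H902.Af

universe u v

section big

variable {V : Type u} [AddCommGroup V] [Finite V] {H : Type v} [Group H] [Finite H] [DistribMulAction H V]

variable (V H) in
/-- the subgroup generated by the elements with many fixed vectors -/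
def bigN : Subgroup H := Subgroup.closure {h : H | Nat.card V < fixc V h ^ 2}

theorem bigN_normal : (bigN V H).Normal := by
  unfold bigN
  have : Subgroup.closure {h : H | Nat.card V < fixc V h ^ 2}
      = Subgroup.normalClosure {h : H | Nat.card V < fixc V h ^ 2} := by
    apply le_antisymm Subgroup.closure_le_normalClosure
    rw [Subgroup.normalClosure, Subgroup.closure_le]
    intro x hx
    obtain ⟨s, hs, hsx⟩ := Group.mem_conjugatesOfSet_iff.1 hx
    obtain ⟨c, rfl⟩ := isConj_iff.1 hsx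
    apply Subgroup.subset_closure
    show Nat.card V < fixc V (c * s * c⁻¹) ^ 2
    rw [fixc_conj]; exact hs
  rw [this]; infer_instance

/-- normal subgroups of Lie type in characteristic `p` do not occur -/
theorem tgt_of_LP {LP : ∀ (_ : ℕ) (T : Type v) [Group T], Prop}
    (hdvd : ∀ (p : ℕ) (T : Type v) [Group T] [Finite T] [IsSimpleGroup T], p.Prime → LP p T → p ∣ Nat.card T)
    {p : ℕ} (hp : p.Prime) (hpV : ∀ w : V, p • w = 0) [Nontrivial V] [FaithfulSMul H V] {M : Subgroup H} {T : Type v}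
    [Group T] [Finite T] [IsSimpleGroup T] {s : ℕ} (hs : 0 < s) (e : M ⧸ Subgroup.center M ≃* (Fin s → T))
    (hLP : LP p T) (h : ∀ h : H, Nat.card V < fixc V h ^ 2 → ∀ x ∈ M, h * x = x * h) : Tgt V H := by
  classical
  rcases tgt_or_stab (V := V) (H := H) with ht | hst
  · exact ht
  · exfalso
    -- the big elements centralise `M`
    have hcen : Subgroup.closure {h : H | Nat.card V < fixc V h ^ 2} ≤ Subgroup.centralizer (M : Set H) := by
      rw [Subgroup.closure_le]
      intro x hx
      rw [SetLike.mem_coe, Subgroup.mem_centralizer_iff]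
      intro a ha
      exact (h x hx a ha).symm
    -- an element of order `p` in the quotient
    haveI : Fact p.Prime := ⟨hp⟩
    have hpT := hdvd p T hp hLP
    obtain ⟨t, ht⟩ := exists_prime_orderOf_dvd_card' p hpT
    obtain ⟨q, hq⟩ := e.surjective (fun _ => t)
    obtain ⟨x, hx⟩ := QuotientGroup.mk_surjective q
    have ht1 : t ≠ 1 := by
      intro h1
      rw [h1, orderOf_one] at ht
      exact hp.one_lt.ne ht
    -- the `p`-part of `x`
    set o := orderOf x with ho
    have hopos : 0 < o := orderOf_pos x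
    obtain ⟨k, m', hm', hok⟩ := Nat.exists_eq_pow_mul_and_not_dvd hopos.ne' p hp.ne_one
    have hyp : (x ^ m') ^ p ^ k = 1 := by
      rw [← pow_mul, mul_comm, ← hok]; exact pow_orderOf_eq_one x
    obtain ⟨w, hw0, hw⟩ := exists_fixed_of_ppow hp hpV (x := ((x ^ m' : M) : H)) (k := k) (by
      rw [← Subgroup.coe_pow, hyp]; rfl)
    have hmem : ((x ^ m' : M) : H) ∈ MulAction.stabilizer H w := hw
    have hcm := hcen (hst w hw0 hmem)
    have hcenter : (x ^ m' : M) ∈ Subgroup.center M := by
      rw [Subgroup.mem_center_iff]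
      intro g
      apply Subtype.ext
      exact (Subgroup.mem_centralizer_iff.1 hcm) g g.2
    have h1 : ((x ^ m' : M) : M ⧸ Subgroup.center M) = 1 := (QuotientGroup.eq_one_iff _).2 hcenter
    have h2 : q ^ m' = 1 := by
      rw [← hx, ← QuotientGroup.mk_pow]; exact h1
    have h3 : (fun _ : Fin s => t) ^ m' = 1 := by
      rw [← hq, ← map_pow, h2, map_one]
    have h4 : t ^ m' = 1 := congrFun h3 ⟨0, hs⟩
    have h5 : p ∣ m' := by
      rw [← ht]; exact orderOf_dvd_of_pow_eq_one h4
    exact hm' h5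

end big

/-- **minimal non-abelian normal subgroups are harmless** -/
theorem good {LP : ∀ (_ : ℕ) (T : Type v) [Group T], Prop} (hBN : BNCase.{u, v} LP) (hSm : SmallCase.{u, v} LP)
    (hdvd : ∀ (p : ℕ) (T : Type v) [Group T] [Finite T] [IsSimpleGroup T], p.Prime → LP p T → p ∣ Nat.card T) :
    ∃ N : ℕ, ∀ (p : ℕ) (V : Type u) [AddCommGroup V] [Finite V] (H : Type v) [Group H] [Finite H]
    [DistribMulAction H V] [FaithfulSMul H V], p.Prime → (∀ w : V, p • w = 0) →
    (∀ K : Subgroup H, K.Normal → Homog V K) → N ≤ Nat.card V → ∀ (M : Subgroup H) [M.Normal], MinNA M →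
    Tgt V H ∨ ∃ y ∈ M, FixAll V M y ∧ kap M y ^ 24 ≤ Nat.card V := by
  classical
  obtain ⟨N1, hN1⟩ := hBN
  obtain ⟨N2, hN2⟩ := Cfsg.Agent.H383.Kap.kap_prod.{u, v} hSm 24 0
  obtain ⟨N3, hN3⟩ := Cfsg.Agent.H112.Af.kap_class_two.{u, v} 24
  refine ⟨max (max N1 N2) (max N3 2), fun p V _ _ H _ _ _ _ hp hpV hH hN M hMn hM => ?_⟩
  haveI : Nontrivial V := by
    have h2 : 2 ≤ Nat.card V := le_trans (le_trans (le_max_right _ _) (le_max_right _ _)) hN
    rw [← Finite.one_lt_card_iff_nontrivial]; omega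
  rcases Cfsg.Agent.H813.Af.minNA_type hM with ⟨r, hr, hcl⟩ | ⟨hperf, T, _, _, s, hTs, hTna, hs, ⟨e⟩⟩
  · right
    refine ⟨1, M.one_mem, ?_, ?_⟩
    · intro U hU _
      obtain ⟨w, hw0⟩ := AddSubgroup.ne_bot_iff_exists_ne_zero.1 hU
      exact ⟨w, w.2, fun h => hw0 (Subtype.ext h), one_smul _ _⟩
    · have h1 := hN3 p V H M r hp hpV hH (le_trans (le_trans (le_max_left _ _) (le_max_right _ _)) hN) hr hcl
      refine le_trans (Nat.pow_le_pow_left ?_ 24) h1
      unfold kap
      rw [← Subgroup.relIndex_top_right]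
      exact Subgroup.relIndex_le_of_le_right le_top Subgroup.index_ne_zero_of_finite
  · by_cases hLP : LP p T
    · left
      rcases hN1 p V H M T s hp hpV hH hperf hs ⟨e⟩ hTna hLP
        (le_trans (le_trans (le_max_left _ _) (le_max_left _ _)) hN) with h | h
      · exact h
      · exact tgt_of_LP hdvd hp hpV hs e hLP h
    · right
      exact hN2 p V H M T s hp hpV hH (le_trans (le_trans (le_max_right _ _) (le_max_left _ _)) hN) hperf hs ⟨e⟩
        hTna (Or.inl hLP)

theorem not_comm_of {G : Type*} [Group G] {M : Subgroup G} (h : ¬ IsMulCommutative M) :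
    ¬ ∀ a ∈ M, ∀ b ∈ M, a * b = b * a := fun hc =>
  h ⟨⟨fun a b => Subtype.ext (hc a a.2 b b.2)⟩⟩

theorem comm_of {G : Type*} [Group G] {M : Subgroup G} (h : IsMulCommutative M) :
    ∀ a ∈ M, ∀ b ∈ M, a * b = b * a := fun a ha b hb =>
  congrArg Subtype.val (h.is_comm.comm (⟨a, ha⟩ : M) ⟨b, hb⟩)

/-- minimal non-abelian normal subgroups below a given non-abelian normal subgroup -/
theorem exists_minNA {G : Type*} [Group G] [Finite G] {K : Subgroup G} (hK : K.Normal) (hKna : ¬ IsMulCommutative K)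
    (hcen : ∀ L : Subgroup G, L.Normal → L ≤ K → IsMulCommutative L → ∀ l ∈ L, ∀ k ∈ K, l * k = k * l) :
    ∃ M : Subgroup G, M ≤ K ∧ MinNA M := by
  classical
  obtain ⟨M, hM⟩ := (Set.toFinite {M : Subgroup G | M.Normal ∧ M ≤ K ∧ ¬ IsMulCommutative M}).exists_minimal
    ⟨K, hK, le_rfl, hKna⟩
  refine ⟨M, hM.prop.2.1, ⟨hM.prop.1, hM.prop.2.2, ?_⟩⟩
  intro L hL hLM l hl m hm
  have hLc : IsMulCommutative L := by
    by_contra hna
    exact absurd (hM.le_of_le ⟨hL, hLM.le.trans hM.prop.2.1, hna⟩ hLM.le) (not_le_of_gt hLM)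
  exact hcen L hL (hLM.le.trans hM.prop.2.1) hLc l hl m (hM.prop.2.1 hm)

/-- **THE AFFINE CORE.** -/
theorem core {LP : ∀ (_ : ℕ) (T : Type v) [Group T], Prop} (hBN : BNCase.{u, v} LP) (hSm : SmallCase.{u, v} LP)
    (hdvd : ∀ (p : ℕ) (T : Type v) [Group T] [Finite T] [IsSimpleGroup T], p.Prime → LP p T → p ∣ Nat.card T) :
    ∃ N : ℕ, ∀ (p : ℕ) (V : Type u) [AddCommGroup V] [Finite V] (H : Type v) [Group H] [Finite H]
    [DistribMulAction H V] [FaithfulSMul H V], p.Prime → (∀ w : V, p • w = 0) →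
    (∀ K : Subgroup H, K.Normal → Homog V K) → N ≤ Nat.card V → (∃ h : H, h ≠ 1 ∧ fixc V h ≠ 1) → Tgt V H := by
  classical
  obtain ⟨N1, hN1⟩ := good.{u, v} hBN hSm hdvd
  obtain ⟨N2, hN22, hN2⟩ := exists_num_bound
  refine ⟨max N1 N2, fun p V _ _ H _ _ _ _ hp hpV hH hN hne => ?_⟩
  set n := Nat.card V with hn
  have hn2 : 2 ≤ n := hN22.trans (le_trans (le_max_right _ _) hN)
  haveI : Nontrivial V := by
    rw [← Finite.one_lt_card_iff_nontrivial]; omega
  by_contra hT
  -- the big elements
  obtain ⟨x₀, hx₀1, hx₀⟩ : ∃ x : H, x ≠ 1 ∧ n < fixc V x ^ 2 := by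
    by_contra hcon
    push Not at hcon
    exact hT (tgt_of_fix hcon hne)
  have hN0 := bigN_normal (V := V) (H := H)
  have hx₀N : x₀ ∈ bigN V H := Subgroup.subset_closure hx₀
  -- commutative normal subgroups commute with `bigN`
  have hcomm : ∀ A : Subgroup H, A.Normal → IsMulCommutative A → ∀ a ∈ A, ∀ k ∈ bigN V H, a * k = k * a := by
    intro A hA hab a ha k hk
    have h1 : bigN V H ≤ Subgroup.centralizer (A : Set H) := by
      unfold bigN
      rw [Subgroup.closure_le]
      intro x hx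
      rw [SetLike.mem_coe, Subgroup.mem_centralizer_iff]
      intro b hb
      exact (comm_of_big (hH A hA) (comm_of hab) hx hb).symm
    exact (Subgroup.mem_centralizer_iff.1 (h1 hk)) a ha
  have hNna : ¬ IsMulCommutative (bigN V H) := by
    intro hab
    have h1 : fixc V x₀ = 1 := by
      rw [← card_fx, AddSubgroup.card_eq_one, AddSubgroup.eq_bot_iff_forall]
      intro w hw
      exact eq_zero_of_comm (hH _ hN0) (comm_of hab) hx₀N hx₀1 hw
    rw [h1] at hx₀
    omega
  obtain ⟨M₁, hM₁N, hM₁⟩ := exists_minNA hN0 hNna (fun L hL _ hLc l hl k hk => hcomm L hL hLc l hl k hk)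
  haveI hM₁n := hM₁.normal
  have hM₁na := not_comm_of hM₁.nonab
  obtain ⟨y₁, hy₁M, hy₁f, hy₁k⟩ := (hN1 p V H hp hpV hH (le_trans (le_max_left _ _) hN) M₁ hM₁).resolve_left hT
  have hdim₁ : DimGe V M₁ 3 := dimGe_three (hH M₁ hM₁n) hM₁na hM₁N
  obtain ⟨W₁, hW₁⟩ := (hH M₁ hM₁n).exists_simple
  obtain ⟨m₁, hm₁, ⟨e₁⟩⟩ := (hH M₁ hM₁n).exists_equiv W₁
  have hb₁ : 3 ≤ bb (KA V M₁) W₁ := hdim₁ W₁ hW₁
  have hV₁ := (card_V e₁ :)
  rw [← hn] at hV₁
  set C₁ := Subgroup.centralizer (M₁ : Set H) with hC₁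
  haveI hC₁n : C₁.Normal := inferInstance
  -- a maximal commutative normal subgroup inside `C₁`
  obtain ⟨A, hA⟩ := (Set.toFinite {A : Subgroup H | A.Normal ∧ A ≤ C₁ ∧ IsMulCommutative A}).exists_maximal
    ⟨⊥, inferInstance, bot_le, ⟨⟨fun a b => Subsingleton.elim _ _⟩⟩⟩
  haveI hAn := hA.prop.1
  have hAC := hA.prop.2.1
  have hAc := hA.prop.2.2
  -- its order
  have hA3 : Nat.card A ^ 3 ≤ n := by
    have h1 : Nat.card A < qq (KA V M₁) W₁ ^ m₁ := by
      refine card_lt_of_semireg W₁ e₁ (fun a ha x hx => ?_) (fun a ha ha1 w hw => ?_)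
      · exact ((Subgroup.mem_centralizer_iff.1 (hAC ha)) x hx).symm
      · exact eq_zero_of_comm (hH A hAn) (comm_of hAc) ha ha1 hw
    have hq := two_le_qq (KA V M₁) W₁
    calc Nat.card A ^ 3 ≤ (qq (KA V M₁) W₁ ^ m₁) ^ 3 := Nat.pow_le_pow_left h1.le 3
      _ = qq (KA V M₁) W₁ ^ (m₁ * 3) := by rw [← pow_mul]
      _ ≤ qq (KA V M₁) W₁ ^ (bb (KA V M₁) W₁ * m₁) :=
          Nat.pow_le_pow_right (by omega) (by rw [mul_comm m₁ 3]; exact Nat.mul_le_mul_right _ hb₁)
      _ = n := hV₁.symm
  set K₁ := C₁ ⊓ Subgroup.centralizer (A : Set H) with hK₁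
  haveI hK₁n : K₁.Normal := inferInstance
  have hAK : A ≤ K₁ := le_inf hAC (fun a ha => Subgroup.mem_centralizer_iff.2 fun b hb =>
    comm_of hAc b hb a ha)
  by_cases hKA : K₁ ≤ A
  · -- case I
    apply hT
    have hKeq : K₁ = A := le_antisymm hKA hAK
    have h1 : Nat.card C₁ ≤ Nat.card A * Nat.log 2 n := by
      have h2 : Nat.card C₁ = K₁.relIndex C₁ * Nat.card K₁ := by
        have := Subgroup.relIndex_mul_relIndex ⊥ K₁ C₁ bot_le inf_le_left
        rw [Subgroup.relIndex_bot_left, Subgroup.relIndex_bot_left] at this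
        rw [← this]; ring
      have h3 : K₁.relIndex C₁ ≤ (Subgroup.centralizer (A : Set H)).index := by
        rw [hK₁, Subgroup.inf_relIndex_left, ← Subgroup.relIndex_top_right]
        exact Subgroup.relIndex_le_of_le_right le_top Subgroup.index_ne_zero_of_finite
      have h4 := Cfsg.Agent.H112.Af.index_centralizer_le hp hpV A (hH A hAn) hAc
      rw [h2, hKeq, mul_comm]
      exact Nat.mul_le_mul_left _ ((hKeq ▸ h3).trans h4)
    obtain ⟨w, -, hw0, hw⟩ := hy₁f ⊤ (by
      intro h
      obtain ⟨z, hz⟩ := exists_ne (0 : V)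
      exact hz ((AddSubgroup.eq_bot_iff_forall _).1 h z trivial)) (fun _ _ _ _ => trivial)
    refine tgt_of_cent hw0 hw (hN2 n _ (le_trans (le_max_right _ _) hN) ?_)
    have h5 := (card_cent_le M₁ hy₁M).trans (Nat.mul_le_mul_left _ h1)
    calc Nat.card (Subgroup.centralizer ({y₁} : Set H)) ^ 24
        ≤ (kap M₁ y₁ * (Nat.card A * Nat.log 2 n)) ^ 24 := Nat.pow_le_pow_left h5 24
      _ = kap M₁ y₁ ^ 24 * (Nat.card A ^ 3) ^ 8 * Nat.log 2 n ^ 24 := by ring
      _ ≤ n * n ^ 8 * Nat.log 2 n ^ 24 := by gcongr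
      _ ≤ n ^ 10 * Nat.log 2 n ^ 24 := by
          apply Nat.mul_le_mul_right
          calc n * n ^ 8 = n ^ 9 := by ring
            _ ≤ n ^ 10 := Nat.pow_le_pow_right (by omega) (by norm_num)
  · -- case II
    have hKna : ¬ IsMulCommutative K₁ := by
      intro h
      exact hKA (hA.le_of_ge ⟨hK₁n, inf_le_left, h⟩ hAK)
    obtain ⟨M₂, hM₂K, hM₂⟩ := exists_minNA hK₁n hKna (by
      intro L hL hLK hLc l hl k hk
      haveI := hL
      -- `L ⊔ A` is commutative
      have h1 : IsMulCommutative (L ⊔ A : Subgroup H) := by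
        refine ⟨⟨fun a b => Subtype.ext ?_⟩⟩
        obtain ⟨l1, hl1, a1, ha1, e1⟩ := Subgroup.mem_sup_of_normal_left.1 a.2
        obtain ⟨l2, hl2, a2, ha2, e2⟩ := Subgroup.mem_sup_of_normal_left.1 b.2
        have c1 := comm_of hLc l1 hl1 l2 hl2
        have c2 := comm_of hAc a1 ha1 a2 ha2
        have c3 : a1 * l2 = l2 * a1 := (Subgroup.mem_centralizer_iff.1 (hLK hl2).2) a1 ha1
        have c4 : a2 * l1 = l1 * a2 := (Subgroup.mem_centralizer_iff.1 (hLK hl1).2) a2 ha2
        show (a : H) * b = b * a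
        rw [← e1, ← e2]
        calc l1 * a1 * (l2 * a2) = l1 * (a1 * l2) * a2 := by group
          _ = (l1 * l2) * (a1 * a2) := by rw [c3]; group
          _ = (l2 * l1) * (a2 * a1) := by rw [c1, c2]
          _ = l2 * (l1 * a2) * a1 := by group
          _ = l2 * a2 * (l1 * a1) := by rw [← c4]; group
      have h2 : L ⊔ A ≤ A := hA.le_of_ge ⟨inferInstance, sup_le (hLK.trans inf_le_left) hAC, h1⟩ le_sup_right
      have h3 : l ∈ A := h2 (Subgroup.mem_sup_left hl)
      exact (Subgroup.mem_centralizer_iff.1 hk.2) l h3)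
    haveI hM₂n := hM₂.normal
    have hM₂na := not_comm_of hM₂.nonab
    obtain ⟨y₂, hy₂M, hy₂f, hy₂k⟩ := (hN1 p V H hp hpV hH (le_trans (le_max_left _ _) hN) M₂ hM₂).resolve_left hT
    have hc12 : ∀ a ∈ M₁, ∀ b ∈ M₂, a * b = b * a := fun a ha b hb =>
      (Subgroup.mem_centralizer_iff.1 (hM₂K hb).1) a ha
    -- the product
    set M₃ := M₁ ⊔ M₂ with hM₃
    haveI hM₃n : M₃.Normal := inferInstance
    obtain ⟨W₃, hW₃⟩ := (hH M₃ hM₃n).exists_simple
    obtain ⟨m₃, hm₃, ⟨e₃⟩⟩ := (hH M₃ hM₃n).exists_equiv W₃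
    have hV₃ := (card_V e₃ :)
    rw [← hn] at hV₃
    have hq₃ := two_le_qq (KA V M₃) W₃
    have hb₃ : 6 ≤ bb (KA V M₃) W₃ := by
      push Not at hM₂na
      obtain ⟨a, ha, b, hb, hab⟩ := hM₂na
      have : 2 * bb (KA V M₁) W₁ ≤ bb (KA V M₃) W₃ := two_mul_le (le_sup_left : M₁ ≤ M₃) (hH M₁ hM₁n) (hH M₃ hM₃n) W₁ W₃
        ((le_sup_right : M₂ ≤ M₃) ha) ((le_sup_right : M₂ ≤ M₃) hb) hab
        (fun x hx => (hc12 x hx a ha).symm) (fun x hx => (hc12 x hx b hb).symm)
      omega
    -- multiplicity at most two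
    have hm₃2 : m₃ ≤ 2 := by
      by_contra hlt
      apply hT
      obtain ⟨S, hS, h0, hinv, hcard⟩ := exists_pure_set (hH M₃ hM₃n) W₃ e₃
      refine tgt_of_inv hS h0 hinv ?_
      set q := qq (KA V M₃) W₃ with hq
      set b := bb (KA V M₃) W₃ with hb
      have h1 : 1 ≤ q ^ m₃ := Nat.one_le_pow _ _ (by omega)
      have h2 : 1 ≤ q ^ b := Nat.one_le_pow _ _ (by omega)
      have h3 : S.ncard ≤ (q ^ m₃ - 1) * (q ^ b - 1) := by
        refine le_trans ?_ hcard
        exact Nat.le_mul_of_pos_right _ (by omega)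
      have h4 : S.ncard + 1 ≤ q ^ (m₃ + b) := by
        rw [pow_add]
        obtain ⟨u, hu⟩ := Nat.exists_eq_add_of_le h1
        obtain ⟨t, ht⟩ := Nat.exists_eq_add_of_le h2
        rw [hu, ht, Nat.add_sub_cancel_left, Nat.add_sub_cancel_left] at h3
        rw [hu, ht]
        linarith only [h3]
      calc (S.ncard + 1) ^ 2 ≤ (q ^ (m₃ + b)) ^ 2 := Nat.pow_le_pow_left h4 2
        _ = q ^ ((m₃ + b) * 2) := by rw [← pow_mul]
        _ ≤ q ^ (b * m₃) := Nat.pow_le_pow_right (by omega) (by nlinarith only [hlt, hb₃])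
        _ = n := hV₃.symm
    -- the centraliser
    have hcen : Nat.card (Subgroup.centralizer (M₁ : Set H) ⊓ Subgroup.centralizer (M₂ : Set H) : Subgroup H) ^ 3
        ≤ n := by
      have h1 : Subgroup.centralizer (M₁ : Set H) ⊓ Subgroup.centralizer (M₂ : Set H)
          ≤ Subgroup.centralizer (M₃ : Set H) := by
        intro c hc
        have h2 : M₁ ⊔ M₂ ≤ Subgroup.centralizer ({c} : Set H) := by
          refine sup_le (fun a ha => ?_) (fun a ha => ?_)
          · rw [Subgroup.mem_centralizer_singleton_iff]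
            exact (Subgroup.mem_centralizer_iff.1 hc.1) a ha
          · rw [Subgroup.mem_centralizer_singleton_iff]
            exact (Subgroup.mem_centralizer_iff.1 hc.2) a ha
        rw [Subgroup.mem_centralizer_iff]
        intro a ha
        exact Subgroup.mem_centralizer_singleton_iff.1 (h2 ha)
      have h2 := (Subgroup.card_le_of_le h1).trans (card_centralizer_le' W₃ e₃)
      calc _ ≤ (qq (KA V M₃) W₃ ^ (m₃ * m₃)) ^ 3 := Nat.pow_le_pow_left h2 3
        _ = qq (KA V M₃) W₃ ^ (m₃ * m₃ * 3) := by rw [← pow_mul]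
        _ ≤ qq (KA V M₃) W₃ ^ (bb (KA V M₃) W₃ * m₃) := Nat.pow_le_pow_right (by omega) (by nlinarith only [hb₃, hm₃2])
        _ = n := hV₃.symm
    apply hT
    -- the fixed vector
    obtain ⟨w, hw1, hw0, hw2⟩ := hy₂f (fx V y₁) (by
      intro h
      obtain ⟨w, -, hw0, hw⟩ := hy₁f ⊤ (by
        intro h
        obtain ⟨z, hz⟩ := exists_ne (0 : V)
        exact hz ((AddSubgroup.eq_bot_iff_forall _).1 h z trivial)) (fun _ _ _ _ => trivial)
      exact hw0 ((AddSubgroup.eq_bot_iff_forall _).1 h w hw)) (by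
      intro b hb w hw
      rw [mem_fx] at hw ⊢
      rw [← mul_smul, hc12 y₁ hy₁M b hb, mul_smul, hw])
    refine tgt_of_cent (y := y₁ * y₂) hw0 (by rw [mul_smul, hw2]; exact hw1)
      (hN2 n _ (le_trans (le_max_right _ _) hN) ?_)
    have h5 := card_cent_mul_le M₁ M₂ hc12 hy₁M hy₂M
    set c := Nat.card (Subgroup.centralizer (M₁ : Set H) ⊓ Subgroup.centralizer (M₂ : Set H) : Subgroup H) with hc
    have hl1 : 1 ≤ Nat.log 2 n := Nat.log_pos (by norm_num) hn2
    calc Nat.card (Subgroup.centralizer ({y₁ * y₂} : Set H)) ^ 24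
        ≤ (kap M₁ y₁ * kap M₂ y₂ * c) ^ 24 := Nat.pow_le_pow_left h5 24
      _ = kap M₁ y₁ ^ 24 * kap M₂ y₂ ^ 24 * (c ^ 3) ^ 8 := by ring
      _ ≤ n * n * n ^ 8 := by gcongr
      _ = n ^ 10 * 1 := by ring
      _ ≤ n ^ 10 * Nat.log 2 n ^ 24 := Nat.mul_le_mul_left _ (Nat.one_le_pow _ _ hl1)

end Cfsg.Agent.H192.Af
end

private theorem dce_35daf6949817 : _root_.True := by
  try have : _root_.True := by simp only [_root_.Cfsg.Agent.H192.Af.kap.congr_simp]
  try have : _root_.True := by simp only [_root_.Cfsg.Agent.H192.Af.el.congr_simp]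
  exact _root_.True.intro
end
end
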